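import Mathlib
import Cfsg.Agent.Helper13.Codeg

/-!
# Codegrees: characters of quotients and primes dividing codegrees
-/

set_option autoImplicit false

namespace Cfsg.Agent.Helper13

open Cfsg
open scoped ComplexConjugate

section Codeg2

variable {G : Type*} [Group G] [Finite G]

/-- Inflation of irreducible characters from a quotient. -/
noncomputable def inflIrr (N : Subgroup G) [N.Normal] (ψ : IrrCharacter (G ⧸ N)) : IrrCharacter G :=
  ⟨(ψ : G ⧸ N → ℂ) ∘ QuotientGroup.mk' N, by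
    classical
    haveI := Fintype.ofFinite G
    haveI : Fintype (G ⧸ N) := Fintype.ofFinite _
    exact Helper6.isIrrCharacter_comp_surjective (QuotientGroup.mk' N)
      (QuotientGroup.mk'_surjective N) ψ.2⟩

theorem inflIrr_coe (N : Subgroup G) [N.Normal] (ψ : IrrCharacter (G ⧸ N)) :
    ((inflIrr N ψ : IrrCharacter G) : G → ℂ) = (ψ : G ⧸ N → ℂ) ∘ QuotientGroup.mk' N := rfl

theorem inflIrr_injective (N : Subgroup G) [N.Normal] : Function.Injective (inflIrr N) := by
  intro ψ₁ ψ₂ h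
  apply Subtype.ext
  have h1 : (ψ₁ : G ⧸ N → ℂ) ∘ QuotientGroup.mk' N = (ψ₂ : G ⧸ N → ℂ) ∘ QuotientGroup.mk' N :=
    congrArg Subtype.val h
  exact (QuotientGroup.mk'_surjective N).injective_comp_right h1

theorem charDegree_inflIrr (N : Subgroup G) [N.Normal] (ψ : IrrCharacter (G ⧸ N)) :
    charDegree ((inflIrr N ψ : IrrCharacter G) : G → ℂ) = charDegree (ψ : G ⧸ N → ℂ) := by
  unfold charDegree
  rw [inflIrr_coe, Function.comp_apply, map_one]

theorem le_cker_inflIrr (N : Subgroup G) [N.Normal] (ψ : IrrCharacter (G ⧸ N)) :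
    N ≤ cker (inflIrr N ψ).2 := by
  intro n hn
  rw [mem_cker, inflIrr_coe, Function.comp_apply, Function.comp_apply, map_one]
  have h1 : (QuotientGroup.mk' N) n = 1 := (QuotientGroup.eq_one_iff n).2 hn
  rw [h1]

theorem exists_inflIrr_eq (N : Subgroup G) [N.Normal] (χ : IrrCharacter G) (h : N ≤ cker χ.2) :
    ∃ ψ : IrrCharacter (G ⧸ N), inflIrr N ψ = χ := by
  obtain ⟨β, hβ, hval, -⟩ := cker_deflation χ.2 N h
  refine ⟨⟨β, hβ⟩, ?_⟩
  apply Subtype.ext
  funext g
  exact hval g

/-- The squares of the degrees of the irreducible characters with `N` in the kernel sum to the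
order of the quotient. -/
theorem sum_sq_filter_quot (N : Subgroup G) [N.Normal] [Fintype (IrrCharacter G)]
    [DecidablePred fun χ : IrrCharacter G => N ≤ cker χ.2] :
    ∑ χ ∈ Finset.univ.filter (fun χ : IrrCharacter G => N ≤ cker χ.2),
      charDegree (χ : G → ℂ) ^ 2 = Nat.card (G ⧸ N) := by
  classical
  haveI : Finite (IrrCharacter (G ⧸ N)) := Helper24.finite_irrCharacter
  haveI : Fintype (IrrCharacter (G ⧸ N)) := Fintype.ofFinite _
  have himg : Finset.univ.filter (fun χ : IrrCharacter G => N ≤ cker χ.2) =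
      Finset.univ.image (inflIrr N) := by
    ext χ
    rw [Finset.mem_filter, Finset.mem_image]
    constructor
    · rintro ⟨-, h⟩
      obtain ⟨ψ, hψ⟩ := exists_inflIrr_eq N χ h
      exact ⟨ψ, Finset.mem_univ _, hψ⟩
    · rintro ⟨ψ, -, rfl⟩
      exact ⟨Finset.mem_univ _, le_cker_inflIrr N ψ⟩
  rw [himg, Finset.sum_image (fun a _ b _ h => inflIrr_injective N h)]
  rw [Finset.sum_congr rfl (fun ψ _ => by rw [charDegree_inflIrr] :
    ∀ ψ ∈ (Finset.univ : Finset (IrrCharacter (G ⧸ N))),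
      charDegree ((inflIrr N ψ : IrrCharacter G) : G → ℂ) ^ 2 = charDegree (ψ : G ⧸ N → ℂ) ^ 2)]
  exact sum_charDegree_sq

/-- Codegree of an inflated irreducible character. -/
theorem codeg_inflIrr (N : Subgroup G) [N.Normal] (ψ : IrrCharacter (G ⧸ N)) :
    Nat.card G / (Nat.card {g : G // ((inflIrr N ψ : IrrCharacter G) : G → ℂ) g =
        ((inflIrr N ψ : IrrCharacter G) : G → ℂ) 1} *
        charDegree ((inflIrr N ψ : IrrCharacter G) : G → ℂ)) =
      Nat.card (G ⧸ N) / (Nat.card {q : G ⧸ N // (ψ : G ⧸ N → ℂ) q = (ψ : G ⧸ N → ℂ) 1} *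
        charDegree (ψ : G ⧸ N → ℂ)) :=
  codeg_inflation N ψ.2 (inflIrr N ψ).2

/-- In a finite group in which no nontrivial normal subgroup has quotient of order divisible by
`p` (but `p` divides the order), there is a nontrivial normal subgroup contained in all others. -/
theorem exists_least_normal {p : ℕ} (hp : p.Prime) (hpG : p ∣ Nat.card G)
    (hN : ∀ N : Subgroup G, N.Normal → N ≠ ⊥ → ¬ p ∣ Nat.card (G ⧸ N)) :
    ∃ N₀ : Subgroup G, N₀.Normal ∧ N₀ ≠ ⊥ ∧ ∀ K : Subgroup G, K.Normal → K ≠ ⊥ → N₀ ≤ K := by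
  classical
  have htop : (⊤ : Subgroup G) ≠ ⊥ := by
    intro h
    have h1 : Nat.card G = 1 := by
      rw [← Subgroup.card_top (G := G), h, Subgroup.card_bot]
    rw [h1] at hpG
    exact hp.one_lt.ne' (Nat.dvd_one.1 hpG)
  haveI : Nonempty {N : Subgroup G // N.Normal ∧ N ≠ ⊥} := ⟨⟨⊤, inferInstance, htop⟩⟩
  obtain ⟨N₀, hmin⟩ := Finite.exists_min
    (fun N : {N : Subgroup G // N.Normal ∧ N ≠ ⊥} => Nat.card (N : Subgroup G))
  refine ⟨N₀.1, N₀.2.1, N₀.2.2, ?_⟩
  intro K hK hK1
  haveI := hK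
  haveI := N₀.2.1
  have hinf : N₀.1 ⊓ K ≠ ⊥ := by
    intro h0
    have hinj : Function.Injective
        ((QuotientGroup.mk' N₀.1).prod (QuotientGroup.mk' K)) := by
      rw [← MonoidHom.ker_eq_bot_iff, MonoidHom.ker_prod, QuotientGroup.ker_mk',
        QuotientGroup.ker_mk']
      exact h0
    have hdvd := Subgroup.card_dvd_of_injective _ hinj
    rw [Nat.card_prod] at hdvd
    rcases (Nat.Prime.dvd_mul hp).1 (hpG.trans hdvd) with h | h
    · exact hN N₀.1 N₀.2.1 N₀.2.2 h
    · exact hN K hK hK1 h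
  have hnorm : (N₀.1 ⊓ K).Normal := inferInstance
  have hle := hmin ⟨N₀.1 ⊓ K, hnorm, hinf⟩
  have heq : N₀.1 ⊓ K = N₀.1 := Subgroup.eq_of_le_of_card_ge inf_le_left hle
  rw [← heq]
  exact inf_le_right

/-- A prime dividing the group order divides the codegree of some irreducible character. -/
theorem exists_codeg_dvd.{u} (p : ℕ) (hp : p.Prime) :
    ∀ (n : ℕ) (G : Type u) [Group G] [Finite G], Nat.card G = n → p ∣ n →
      ∃ χ : IrrCharacter G, p ∣ Nat.card G / (Nat.card {g : G // (χ : G → ℂ) g = (χ : G → ℂ) 1} *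
        charDegree (χ : G → ℂ)) := by
  intro n
  induction n using Nat.strong_induction_on with
  | _ n ih =>
    intro G _ _ hn hpn
    classical
    by_cases hN : ∃ N : Subgroup G, N.Normal ∧ N ≠ ⊥ ∧ p ∣ Nat.card (G ⧸ N)
    · obtain ⟨N, hNn, hN1, hpQ⟩ := hN
      haveI := hNn
      have hlt : Nat.card (G ⧸ N) < n := by
        have h1 := Subgroup.card_eq_card_quotient_mul_card_subgroup N
        have h2 : 1 < Nat.card N := (Subgroup.one_lt_card_iff_ne_bot N).2 hN1
        have h3 : 0 < Nat.card (G ⧸ N) := Nat.card_pos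
        rw [← hn, h1]
        nlinarith
      obtain ⟨ψ, hψ⟩ := ih _ hlt (G ⧸ N) rfl hpQ
      refine ⟨inflIrr N ψ, ?_⟩
      rw [codeg_inflIrr N ψ]
      exact hψ
    · by_contra hcon
      have hN' : ∀ N : Subgroup G, N.Normal → N ≠ ⊥ → ¬ p ∣ Nat.card (G ⧸ N) := by
        intro N h1 h2 h3
        exact hN ⟨N, h1, h2, h3⟩
      have hall : ∀ χ : IrrCharacter G, ¬ p ∣ Nat.card G /
          (Nat.card {g : G // (χ : G → ℂ) g = (χ : G → ℂ) 1} * charDegree (χ : G → ℂ)) := by
        intro χ h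
        exact hcon ⟨χ, h⟩
      have hpG : p ∣ Nat.card G := by rw [hn]; exact hpn
      obtain ⟨N₀, hN₀n, hN₀1, hN₀⟩ := exists_least_normal hp hpG hN'
      haveI := hN₀n
      haveI : Finite (IrrCharacter G) := Helper24.finite_irrCharacter
      haveI : Fintype (IrrCharacter G) := Fintype.ofFinite _
      have hsum := sum_charDegree_sq (G := G)
      rw [← Finset.sum_filter_add_sum_filter_not Finset.univ
        (fun χ : IrrCharacter G => N₀ ≤ cker χ.2), sum_sq_filter_quot N₀] at hsum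
      have hrest : p ∣ ∑ χ ∈ Finset.univ.filter (fun χ : IrrCharacter G => ¬ N₀ ≤ cker χ.2),
          charDegree (χ : G → ℂ) ^ 2 := by
        refine Finset.dvd_sum fun χ hχ => ?_
        have hnle : ¬ N₀ ≤ cker χ.2 := (Finset.mem_filter.1 hχ).2
        have hbot : cker χ.2 = ⊥ := by
          by_contra hne
          exact hnle (hN₀ _ (cker_normal χ.2) hne)
        have h1 := codeg_mul_degree χ.2
        rw [hbot, Subgroup.index_bot] at h1
        have h2 : p ∣ Nat.card G / (Nat.card {g : G // (χ : G → ℂ) g = (χ : G → ℂ) 1} *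
            charDegree (χ : G → ℂ)) * charDegree (χ : G → ℂ) := by
          rw [h1]; exact hpG
        rcases (Nat.Prime.dvd_mul hp).1 h2 with h | h
        · exact absurd h (hall χ)
        · exact dvd_pow h (by norm_num)
      have h3 : p ∣ Nat.card (G ⧸ N₀) + ∑ χ ∈ Finset.univ.filter
          (fun χ : IrrCharacter G => ¬ N₀ ≤ cker χ.2), charDegree (χ : G → ℂ) ^ 2 := by
        rw [hsum]; exact hpG
      exact hN' N₀ hN₀n hN₀1 ((Nat.dvd_add_left hrest).1 h3)

end Codeg2

end Cfsg.Agent.Helper13
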