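import Mathlib
import Cfsg.Agent.Helper13.Codeg2

/-!
# Prime codegrees and perfect groups
-/

set_option autoImplicit false

namespace Cfsg.Agent.Helper13

open Cfsg
open scoped ComplexConjugate

section Codeg3

/-- A group of order `p * d` with `0 < d < p` has a normal Sylow `p`-subgroup of order `p`. -/
theorem exists_normal_sylow_of_card {Q : Type*} [Group Q] [Finite Q] {p d : ℕ} [Fact p.Prime]
    (hd0 : 0 < d) (hdp : d < p) (hQ : Nat.card Q = p * d) :
    ∃ P : Sylow p Q, (P : Subgroup Q).Normal ∧ Nat.card (P : Subgroup Q) = p ∧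
      (P : Subgroup Q).index = d := by
  classical
  have hp : p.Prime := Fact.out
  obtain ⟨P⟩ : Nonempty (Sylow p Q) := inferInstance
  have hpd : ¬ p ∣ d := Nat.not_dvd_of_pos_of_lt hd0 hdp
  have hPcard : Nat.card (P : Subgroup Q) = p := by
    rw [P.card_eq_multiplicity, hQ, Nat.factorization_mul hp.ne_zero hd0.ne', Finsupp.add_apply,
      hp.factorization_self, Nat.factorization_eq_zero_of_not_dvd hpd, pow_one]
  have hidx : (P : Subgroup Q).index = d := by
    have h := (P : Subgroup Q).card_mul_index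
    rw [hPcard, hQ] at h
    exact Nat.eq_of_mul_eq_mul_left hp.pos h
  have hcard1 : Nat.card (Sylow p Q) = 1 := by
    have h1 := card_sylow_modEq_one p Q
    have h2 := P.card_dvd_index
    rw [hidx] at h2
    have h3 : Nat.card (Sylow p Q) ≤ d := Nat.le_of_dvd hd0 h2
    have h4 : Nat.card (Sylow p Q) < p := lt_of_le_of_lt h3 hdp
    have h5 : Nat.card (Sylow p Q) % p = 1 % p := h1
    rw [Nat.mod_eq_of_lt h4, Nat.mod_eq_of_lt hp.one_lt] at h5
    exact h5
  haveI : Subsingleton (Sylow p Q) := (Nat.card_eq_one_iff_unique.1 hcard1).1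
  exact ⟨P, P.normal_of_subsingleton, hPcard, hidx⟩

/-- A group of order `p * d` with `0 < d < p` is not perfect. -/
theorem commutator_ne_top_of_card {Q : Type*} [Group Q] [Finite Q] {p d : ℕ} (hp : p.Prime)
    (hd0 : 0 < d) (hdp : d < p) (hQ : Nat.card Q = p * d) : commutator Q ≠ ⊤ := by
  classical
  haveI : Fact p.Prime := ⟨hp⟩
  intro hperf
  obtain ⟨P, hPn, hPcard, hidx⟩ := exists_normal_sylow_of_card hd0 hdp hQ
  haveI := hPn
  haveI hcyc : IsCyclic (P : Subgroup Q) := isCyclic_of_prime_card hPcard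
  have hcent : ∀ g : Q, ∀ x ∈ (P : Subgroup Q), g * x * g⁻¹ = x := by
    intro g x hx
    have hker : commutator Q ≤ ((IsCyclic.mulAutMulEquiv (G := (P : Subgroup Q))).toMonoidHom.comp
        (MulAut.conjNormal (H := (P : Subgroup Q)))).ker :=
      Abelianization.commutator_subset_ker _
    rw [hperf] at hker
    have hg := hker (Subgroup.mem_top g)
    rw [MonoidHom.mem_ker, MonoidHom.comp_apply] at hg
    have hg' : MulAut.conjNormal (H := (P : Subgroup Q)) g = 1 := by
      apply (IsCyclic.mulAutMulEquiv (G := (P : Subgroup Q))).injective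
      rw [map_one]
      exact hg
    have h2 := MulAut.conjNormal_apply (H := (P : Subgroup Q)) g ⟨x, hx⟩
    rw [hg'] at h2
    exact h2.symm
  have hP : Subgroup.normalizer ((P : Subgroup Q) : Set Q) ≤
      Subgroup.centralizer ((P : Subgroup Q) : Set Q) := by
    intro g _
    rw [Subgroup.mem_centralizer_iff]
    intro x hx
    have h := hcent g x hx
    calc x * g = (g * x * g⁻¹) * g := by rw [h]
      _ = g * x := by group
  have hcomp := MonoidHom.ker_transferSylow_isComplement' P hP
  have hcomm : ∀ u v : (P : Subgroup Q), Commute u v := by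
    intro u v
    apply Subtype.ext
    have h := hcent (u : Q) (v : Q) v.2
    show (u : Q) * v = v * u
    calc (u : Q) * v = ((u : Q) * v * (u : Q)⁻¹) * u := by group
      _ = v * u := by rw [h]
  have hker : commutator Q ≤ (MonoidHom.transferSylow P hP).ker := by
    rw [commutator_def, Subgroup.commutator_le]
    intro a _ b _
    rw [MonoidHom.mem_ker, map_commutatorElement, commutatorElement_eq_one_iff_commute]
    exact hcomm _ _
  rw [hperf] at hker
  have htop : (MonoidHom.transferSylow P hP).ker = ⊤ := top_le_iff.1 hker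
  have hmul := hcomp.card_mul_card
  rw [htop, Subgroup.card_top, hPcard, hQ] at hmul
  have hpos : 0 < p * d := Nat.mul_pos hp.pos hd0
  have h1 : p = 1 := by
    have : p * d * p = p * d * 1 := by rw [hmul, mul_one]
    exact Nat.eq_of_mul_eq_mul_left hpos this
  exact hp.one_lt.ne' h1

variable {G : Type*} [Group G] [Finite G]

/-- A non-perfect finite group has a normal subgroup of prime index containing the commutator
subgroup. -/
theorem exists_normal_prime_index (h : commutator G ≠ ⊤) :
    ∃ M : Subgroup G, M.Normal ∧ commutator G ≤ M ∧ (Nat.card (G ⧸ M)).Prime := by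
  classical
  obtain ⟨M, hM, hle⟩ := (eq_top_or_exists_le_coatom (commutator G)).resolve_left h
  have hMn : M.Normal := by
    constructor
    intro n hn g
    have h1 : g * n * g⁻¹ = (g * n * g⁻¹ * n⁻¹) * n := by group
    rw [h1]
    refine M.mul_mem (hle ?_) hn
    rw [commutator_def, ← commutatorElement_def]
    exact Subgroup.commutator_mem_commutator (Subgroup.mem_top g) (Subgroup.mem_top n)
  haveI := hMn
  refine ⟨M, hMn, hle, ?_⟩
  have hidx : M.index ≠ 1 := fun h1 => hM.1 (Subgroup.index_eq_one.1 h1)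
  have hcard : Nat.card (G ⧸ M) ≠ 1 := by
    rw [← Subgroup.index_eq_card]; exact hidx
  have hp : (Nat.card (G ⧸ M)).minFac.Prime := Nat.minFac_prime hcard
  haveI : Fact (Nat.card (G ⧸ M)).minFac.Prime := ⟨hp⟩
  obtain ⟨y, hy⟩ := exists_prime_orderOf_dvd_card' (G := G ⧸ M) (Nat.card (G ⧸ M)).minFac
    (Nat.minFac_dvd _)
  obtain ⟨x, rfl⟩ := QuotientGroup.mk'_surjective M y
  have hlt : M < (Subgroup.zpowers ((QuotientGroup.mk' M) x)).comap (QuotientGroup.mk' M) := by
    refine lt_of_le_of_ne ?_ ?_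
    · intro m hm
      rw [Subgroup.mem_comap]
      have : (QuotientGroup.mk' M) m = 1 := (QuotientGroup.eq_one_iff m).2 hm
      rw [this]
      exact Subgroup.one_mem _
    · intro heq
      have hx : x ∈ (Subgroup.zpowers ((QuotientGroup.mk' M) x)).comap (QuotientGroup.mk' M) := by
        rw [Subgroup.mem_comap]
        exact Subgroup.mem_zpowers _
      rw [← heq] at hx
      have h1 : (QuotientGroup.mk' M) x = 1 := (QuotientGroup.eq_one_iff x).2 hx
      rw [h1, orderOf_one] at hy
      exact hp.one_lt.ne' hy.symm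
  have htop := hM.2 _ hlt
  have hall : (Subgroup.zpowers ((QuotientGroup.mk' M) x)) = ⊤ := by
    rw [eq_top_iff]
    intro q _
    obtain ⟨g, rfl⟩ := QuotientGroup.mk'_surjective M q
    have hg : g ∈ (Subgroup.zpowers ((QuotientGroup.mk' M) x)).comap (QuotientGroup.mk' M) := by
      rw [htop]; exact Subgroup.mem_top g
    exact hg
  have h2 : Nat.card (G ⧸ M) = (Nat.card (G ⧸ M)).minFac := by
    rw [← hy, ← Nat.card_zpowers, hall, Subgroup.card_top]
  rw [h2]
  exact hp

/-- A non-perfect finite group has an irreducible character of prime codegree. -/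
theorem exists_prime_codeg_of_not_perfect (h : commutator G ≠ ⊤) :
    ∃ χ : IrrCharacter G, (Nat.card G / (Nat.card {g : G // (χ : G → ℂ) g = (χ : G → ℂ) 1} *
      charDegree (χ : G → ℂ))).Prime := by
  classical
  obtain ⟨M, hMn, -, hprime⟩ := exists_normal_prime_index h
  haveI := hMn
  obtain ⟨ψ, hψ1, hψp⟩ := exists_irr_not_dvd hprime (dvd_refl (Nat.card (G ⧸ M)))
  have hdeg : charDegree (ψ : G ⧸ M → ℂ) = 1 := by
    haveI : Fintype (G ⧸ M) := Fintype.ofFinite _
    have h1 := Helper2.irr_degree_dvd_card ψ.2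
    rcases (Nat.dvd_prime hprime).1 h1 with h2 | h2
    · exact h2
    · exfalso; apply hψp; rw [h2]
  have hker : cker ψ.2 = ⊥ := by
    haveI : Fact (Nat.card (G ⧸ M)).Prime := ⟨hprime⟩
    rcases Subgroup.eq_bot_or_eq_top_of_prime_card (cker ψ.2) with h2 | h2
    · exact h2
    · exfalso
      apply hψ1
      apply irr_eq_one_of_const ψ.2
      intro g
      have hg : g ∈ cker ψ.2 := by rw [h2]; exact Subgroup.mem_top g
      exact (mem_cker ψ.2 g).1 hg
  refine ⟨inflIrr M ψ, ?_⟩
  rw [codeg_inflIrr M ψ]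
  have h3 := codeg_mul_degree ψ.2
  obtain ⟨c, hc⟩ : ∃ c : ℕ, c = Nat.card (G ⧸ M) / (Nat.card {q : G ⧸ M //
      (ψ : G ⧸ M → ℂ) q = (ψ : G ⧸ M → ℂ) 1} * charDegree (ψ : G ⧸ M → ℂ)) := ⟨_, rfl⟩
  rw [← hc] at h3 ⊢
  rw [hker, Subgroup.index_bot, hdeg, mul_one] at h3
  rw [h3]
  exact hprime

/-- In a perfect finite group no irreducible character has prime codegree. -/
theorem not_prime_codeg_of_perfect (h : commutator G = ⊤) (χ : IrrCharacter G) :
    ¬ (Nat.card G / (Nat.card {g : G // (χ : G → ℂ) g = (χ : G → ℂ) 1} *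
      charDegree (χ : G → ℂ))).Prime := by
  classical
  intro hprime
  obtain ⟨p, hpdef⟩ : ∃ p : ℕ, p = Nat.card G / (Nat.card {g : G // (χ : G → ℂ) g =
      (χ : G → ℂ) 1} * charDegree (χ : G → ℂ)) := ⟨_, rfl⟩
  rw [← hpdef] at hprime
  obtain ⟨d, hddef⟩ : ∃ d : ℕ, d = charDegree (χ : G → ℂ) := ⟨_, rfl⟩
  have hidx : (cker χ.2).index = p * d := by
    rw [hpdef, hddef]; exact (codeg_mul_degree χ.2).symm
  have hd0 : 0 < d := by rw [hddef]; exact Helper24.irr_degree_pos χ.2
  have hQ : Nat.card (G ⧸ cker χ.2) = p * d := by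
    rw [← Subgroup.index_eq_card]; exact hidx
  -- d < p by the sum of squares
  haveI : Finite (IrrCharacter G) := Helper24.finite_irrCharacter
  haveI : Fintype (IrrCharacter G) := Fintype.ofFinite _
  obtain ⟨t, ht⟩ : ∃ t : IrrCharacter G, t = ⟨fun _ => (1 : ℂ), Helper2.isIrrCharacter_one_fun⟩ :=
    ⟨_, rfl⟩
  have ht1 : charDegree (t : G → ℂ) = 1 := by
    rw [ht]
    unfold charDegree
    simp
  have hne : χ ≠ t := by
    intro heq
    have htop : cker χ.2 = ⊤ := by
      rw [eq_top_iff]
      intro g _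
      rw [mem_cker]
      rw [heq, ht]
    rw [htop, Subgroup.index_top] at hidx
    have hp1 : p ∣ 1 := ⟨d, hidx⟩
    exact hprime.one_lt.ne' (Nat.dvd_one.1 hp1)
  have hsum := sum_sq_filter_quot (cker χ.2)
  rw [hQ] at hsum
  have hsub : ({χ, t} : Finset (IrrCharacter G)) ⊆
      Finset.univ.filter (fun χ' : IrrCharacter G => cker χ.2 ≤ cker χ'.2) := by
    intro x hx
    rw [Finset.mem_insert, Finset.mem_singleton] at hx
    rw [Finset.mem_filter]
    refine ⟨Finset.mem_univ _, ?_⟩
    rcases hx with rfl | rfl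
    · exact le_rfl
    · intro g _
      rw [mem_cker, ht]
  have hle := Finset.sum_le_sum_of_subset (f := fun χ' : IrrCharacter G =>
    charDegree (χ' : G → ℂ) ^ 2) hsub
  rw [hsum, Finset.sum_pair hne, ht1, ← hddef] at hle
  have hdp : d < p := by nlinarith
  -- the quotient is perfect
  have hperf : commutator (G ⧸ cker χ.2) = ⊤ := by
    rw [commutator_def, ← Subgroup.map_top_of_surjective (QuotientGroup.mk' (cker χ.2))
      (QuotientGroup.mk'_surjective _), ← Subgroup.map_commutator, ← commutator_def, h]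
  exact commutator_ne_top_of_card hprime hd0 hdp hQ hperf

end Codeg3

end Cfsg.Agent.Helper13
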