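import Mathlib
import Cfsg.Agent.Helper13.Codeg3
import Cfsg.Agent.Helper24.ExtraIndexP
import Cfsg.Agent.Helper1.Frob
import Cfsg.Agent.S0039

/-!
A group with an irreducible character `χ` such that `|G| = p · χ(1)` is cyclic of order `p` or a
Frobenius group with kernel of order `p`.
-/

set_option autoImplicit false

namespace Cfsg.Agent.Helper13

open Cfsg

section Codeg4

variable {G : Type*} [Group G] [Finite G]

/-- A nonlinear irreducible character has `χ(1)² < |G|`. -/
theorem charDegree_sq_lt_card (χ : IrrCharacter G) (h : charDegree (χ : G → ℂ) ≠ 1) :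
    charDegree (χ : G → ℂ) ^ 2 < Nat.card G := by
  classical
  haveI : Finite (IrrCharacter G) := Helper24.finite_irrCharacter
  haveI : Fintype (IrrCharacter G) := Fintype.ofFinite _
  obtain ⟨t, ht⟩ : ∃ t : IrrCharacter G, t = ⟨fun _ => (1 : ℂ), Helper2.isIrrCharacter_one_fun⟩ :=
    ⟨_, rfl⟩
  have hsum := sum_charDegree_sq (G := G)
  rw [← Finset.add_sum_erase Finset.univ _ (Finset.mem_univ t)] at hsum
  have ht1 : charDegree (t : G → ℂ) = 1 := by
    rw [ht]
    unfold charDegree
    simp
  have hne : χ ≠ t := by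
    intro h'
    apply h
    rw [h']
    exact ht1
  have hmem : χ ∈ Finset.univ.erase t := Finset.mem_erase.mpr ⟨hne, Finset.mem_univ _⟩
  have hle : charDegree (χ : G → ℂ) ^ 2 ≤
      ∑ χ ∈ Finset.univ.erase t, charDegree (χ : G → ℂ) ^ 2 :=
    Finset.single_le_sum (f := fun χ : IrrCharacter G => charDegree (χ : G → ℂ) ^ 2)
      (fun _ _ => Nat.zero_le _) hmem
  rw [ht1] at hsum
  omega

/-- If `|G| = p · χ(1)` for an irreducible character `χ` and a prime `p`, then `G` is cyclic of
order `p` or a Frobenius group with kernel of order `p`. -/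
theorem frobenius_of_card_eq_prime_mul_degree (χ : IrrCharacter G) {p : ℕ} (hp : p.Prime)
    (hcod : Nat.card G = p * charDegree (χ : G → ℂ)) :
    (IsCyclic G ∧ Nat.card G = p) ∨
      ∃ H : Subgroup G, IsFrobeniusComplement H ∧ Nat.card ↥(frobeniusKernel H) = p := by
  classical
  haveI : Fintype G := Fintype.ofFinite G
  haveI : Fact p.Prime := ⟨hp⟩
  have hχ : IsIrrCharacter G (χ : G → ℂ) := χ.2
  obtain ⟨d, hd⟩ : ∃ d, d = charDegree (χ : G → ℂ) := ⟨_, rfl⟩
  have hd0 : 0 < d := by rw [hd]; exact Helper24.irr_degree_pos hχ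
  by_cases hd1 : d = 1
  · left
    rw [← hd, hd1, mul_one] at hcod
    exact ⟨isCyclic_of_prime_card hcod, hcod⟩
  right
  have hsq : d ^ 2 < Nat.card G := by
    rw [hd]
    exact charDegree_sq_lt_card χ (by rw [← hd]; exact hd1)
  have hdle : d ≤ charDegree (χ : G → ℂ) := hd.le
  rw [← hd] at hcod
  have hdp : d < p := by
    rw [hcod, pow_two] at hsq
    exact lt_of_mul_lt_mul_right hsq (Nat.zero_le d)
  obtain ⟨P, hPn, hPcard, hPidx⟩ := exists_normal_sylow_of_card hd0 hdp hcod
  haveI := hPn
  have hcop : (Nat.card (P : Subgroup G)).Coprime (P : Subgroup G).index := by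
    rw [hPcard, hPidx]
    exact (Nat.Prime.coprime_iff_not_dvd hp).mpr (Nat.not_dvd_of_pos_of_lt hd0 hdp)
  obtain ⟨H, hH⟩ := Subgroup.exists_right_complement'_of_coprime hcop
  have hHcard : Nat.card H = d := by
    have h1 := hH.card_mul_card
    rw [hPcard, hcod] at h1
    exact Nat.eq_of_mul_eq_mul_left hp.pos h1
  have hHne : H ≠ ⊥ := by
    intro h
    rw [h, Subgroup.card_bot] at hHcard
    exact hd1 hHcard.symm
  have hPne : (P : Subgroup G) ≠ ⊥ := by
    intro h
    rw [h, Subgroup.card_bot] at hPcard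
    exact hp.one_lt.ne hPcard
  have hfpf : ∀ h ∈ H, h ≠ 1 → (P : Subgroup G) ⊓ Subgroup.centralizer {h} = ⊥ := by
    intro h hh hh1
    rw [eq_bot_iff]
    intro y hy
    obtain ⟨hyP, hyc⟩ := Subgroup.mem_inf.mp hy
    rw [Subgroup.mem_bot]
    by_contra hy1
    have hyh : h * y = y * h := Subgroup.mem_centralizer_iff.mp hyc h rfl
    have hPy : Subgroup.zpowers y = (P : Subgroup G) := by
      apply Subgroup.eq_of_le_of_card_ge
      · rwa [Subgroup.zpowers_le]
      · rw [hPcard, Nat.card_zpowers]
        have h1 : orderOf y ∣ p := by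
          have := Subgroup.orderOf_dvd_natCard (P : Subgroup G) hyP
          rwa [hPcard] at this
        rcases (Nat.dvd_prime hp).mp h1 with h2 | h2
        · exact absurd (orderOf_eq_one_iff.mp h2) hy1
        · exact h2.ge
    obtain ⟨A, hAdef⟩ : ∃ A : Subgroup G, A = Subgroup.closure {y, h} := ⟨_, rfl⟩
    have hcomm : ∀ a ∈ ({y, h} : Set G), ∀ b ∈ ({y, h} : Set G), a * b = b * a := by
      intro a ha b hb
      rcases ha with rfl | ha
      · rcases hb with rfl | hb
        · rfl
        · rw [Set.mem_singleton_iff.mp hb]; exact hyh.symm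
      · rw [Set.mem_singleton_iff.mp ha]
        rcases hb with rfl | hb
        · exact hyh
        · rw [Set.mem_singleton_iff.mp hb]
    have hA : ∀ a b : A, a * b = b * a := by
      intro a b
      apply Subtype.ext
      have ha' : (a : G) ∈ Subgroup.closure ({y, h} : Set G) := by rw [← hAdef]; exact a.2
      have hb' : (b : G) ∈ Subgroup.closure ({y, h} : Set G) := by rw [← hAdef]; exact b.2
      have ha := Subgroup.closure_le_centralizer_centralizer ({y, h} : Set G) ha'
      have hb := Subgroup.closure_le_centralizer_centralizer ({y, h} : Set G) hb'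
      exact Set.centralizer_centralizer_comm_of_comm hcomm _ ha _ hb
    have hle := Helper24.charDegree_le_index_of_comm A hA hχ
    have hyA : y ∈ A := by rw [hAdef]; exact Subgroup.subset_closure (Or.inl rfl)
    have hhA : h ∈ A := by rw [hAdef]; exact Subgroup.subset_closure (Or.inr rfl)
    have hPA : (P : Subgroup G) ≤ A := by
      rw [← hPy, Subgroup.zpowers_le]
      exact hyA
    have hAcard : Nat.card A ≤ p := by
      have h1 := Subgroup.card_mul_index A
      rw [hcod] at h1
      have h2 : Nat.card A * d ≤ p * d := by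
        rw [← h1]
        exact Nat.mul_le_mul_left _ (hdle.trans hle)
      exact Nat.le_of_mul_le_mul_right h2 hd0
    have hPA' : (P : Subgroup G) = A :=
      Subgroup.eq_of_le_of_card_ge hPA (by rw [hPcard]; exact hAcard)
    have hhP : h ∈ (P : Subgroup G) := by rw [hPA']; exact hhA
    have hdisj := hH.disjoint
    have : h ∈ (P : Subgroup G) ⊓ H := Subgroup.mem_inf.mpr ⟨hhP, hh⟩
    rw [hdisj.eq_bot, Subgroup.mem_bot] at this
    exact hh1 this
  have hFrob : IsFrobeniusComplement H :=
    (Cfsg.Agent.S0039.result (P : Subgroup G) H hH hPne hHne).mpr hfpf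
  refine ⟨H, hFrob, ?_⟩
  rw [Helper1.card_frobeniusKernel H hFrob.2.2]
  have h1 := Subgroup.card_mul_index H
  rw [hHcard, hcod, mul_comm p d] at h1
  exact Nat.eq_of_mul_eq_mul_left hd0 h1

end Codeg4

end Cfsg.Agent.Helper13
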