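import Cfsg.Prelude.Def_CaseTheorems
import Cfsg.Agent.Helper2.CharOrtho
import Cfsg.Agent.Helper2.CharLinear
import Cfsg.Agent.Helper24.MGroup
import Cfsg.Agent.Helper24.OneNonlinear
import Cfsg.Agent.Helper10.AbQuot
import Cfsg.Agent.Helper9.Layer

set_option autoImplicit false

namespace Cfsg.Agent.Helper13

open Cfsg
open scoped ComplexConjugate Pointwise

section DegMinusVal

variable {G : Type*} [Group G]

/-- The irreducible character given by a homomorphism into the units of `ℂ`. -/
noncomputable def homIrr (ν : G →* ℂˣ) : IrrCharacter G :=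
  ⟨fun g => ((ν g : ℂˣ) : ℂ), Helper2.isIrrCharacter_of_hom ν⟩

theorem homIrr_apply (ν : G →* ℂˣ) (g : G) : (homIrr ν : G → ℂ) g = ((ν g : ℂˣ) : ℂ) := rfl

theorem homIrr_ne_one {ν : G →* ℂˣ} (hν : ν ≠ 1) : (homIrr ν : G → ℂ) ≠ fun _ => (1 : ℂ) := by
  intro h
  apply hν
  ext g
  have h1 := congrFun h g
  rw [homIrr_apply] at h1
  simpa using h1

theorem col_one [Fintype G] [Fintype (IrrCharacter G)] (u : G) (hu : u ≠ 1) :
    ∑ χ : IrrCharacter G, (χ : G → ℂ) u * conj ((χ : G → ℂ) 1) = 0 := by
  classical
  rw [Helper2.second_orthogonality u 1, if_neg]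
  rw [isConj_one_left]
  exact hu

/-- The column of a nonidentity element cannot pair nonnegatively with the degrees. -/
theorem no_nonneg_col [Fintype G] [Fintype (IrrCharacter G)] (u : G) (hu : u ≠ 1)
    (h : ∀ χ : IrrCharacter G, (χ : G → ℂ) ≠ (fun _ => (1 : ℂ)) →
      0 ≤ ((χ : G → ℂ) u * conj ((χ : G → ℂ) 1)).re) : False := by
  have h0 := congrArg Complex.re (col_one u hu)
  rw [Complex.re_sum, Complex.zero_re] at h0
  have h1 : ∀ χ ∈ (Finset.univ : Finset (IrrCharacter G)),
      0 ≤ ((χ : G → ℂ) u * conj ((χ : G → ℂ) 1)).re := by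
    intro χ _
    by_cases hχ : (χ : G → ℂ) = fun _ => (1 : ℂ)
    · rw [hχ]
      simp
    · exact h χ hχ
  have h2 := Finset.single_le_sum h1 (Finset.mem_univ (homIrr (1 : G →* ℂˣ)))
  rw [h0] at h2
  simp [homIrr_apply] at h2
  norm_num at h2

theorem deg_minus_val [Finite G] (u : G) (hu : u ≠ 1) (c : ℂ)
    (hyp : ∀ χ : IrrCharacter G, (χ : G → ℂ) ≠ (fun _ => (1 : ℂ)) →
      ((χ : G → ℂ) 1 - (χ : G → ℂ) u = c ∨ (χ : G → ℂ) u = 0)) :
    ((orderOf u = 2 ∧ Subgroup.zpowers u ⊔ Cfsg.oddCore G = ⊤ ∧
        Subgroup.centralizer ({u} : Set G) = Subgroup.zpowers u) ↔ commutator G ≠ ⊤) ∧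
      (commutator G ≠ ⊤ ↔ c = 2) := by
  classical
  haveI := Fintype.ofFinite G
  haveI := Helper24.finite_irrCharacter (G := G)
  haveI := Fintype.ofFinite (IrrCharacter G)
  have hL : ∀ ν : G →* ℂˣ, ν ≠ 1 → ((ν u : ℂˣ) : ℂ) = 1 - c := by
    intro ν hν
    rcases hyp (homIrr ν) (homIrr_ne_one hν) with h | h
    · rw [homIrr_apply, homIrr_apply, map_one, Units.val_one] at h
      rw [← h]
      ring
    · rw [homIrr_apply] at h
      exact absurd h (Units.ne_zero _)
  have hdeg : ∀ χ : IrrCharacter G, (χ : G → ℂ) 1 = (charDegree (χ : G → ℂ) : ℂ) := fun χ =>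
    Helper24.charDegree_spec (Helper24.isCharacter_of_irr χ.2)
  have hdpos : ∀ χ : IrrCharacter G, 0 < charDegree (χ : G → ℂ) := fun χ =>
    Helper24.irr_degree_pos χ.2
  have hterm : ∀ χ : IrrCharacter G, (χ : G → ℂ) 1 - (χ : G → ℂ) u = 2 →
      (χ : G → ℂ) u = (((charDegree (χ : G → ℂ) : ℝ) - 2 : ℝ) : ℂ) ∧
      ((χ : G → ℂ) u * conj ((χ : G → ℂ) 1)).re =
        ((charDegree (χ : G → ℂ) : ℝ) - 2) * (charDegree (χ : G → ℂ) : ℝ) := by
    intro χ h
    have hd := hdeg χ
    have hu' : (χ : G → ℂ) u = (((charDegree (χ : G → ℂ) : ℝ) - 2 : ℝ) : ℂ) := by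
      push_cast
      rw [← hd]
      linear_combination -h
    refine ⟨hu', ?_⟩
    rw [hu', hd, Complex.conj_natCast, ← Complex.ofReal_natCast, ← Complex.ofReal_mul,
      Complex.ofReal_re]
  have G1 : c = 2 → commutator G ≠ ⊤ := by
    intro hc hcomm
    apply no_nonneg_col u hu
    intro χ hχ
    have hd := hdeg χ
    have hd2 : 2 ≤ charDegree (χ : G → ℂ) := by
      by_contra hlt
      have h1 : charDegree (χ : G → ℂ) = 1 := by
        have := hdpos χ
        omega
      apply hχ
      funext w
      rw [h1] at hd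
      exact Helper24.linear_char_commutator (Helper24.isCharacter_of_irr χ.2)
        (by rw [hd]; simp) w (by rw [hcomm]; exact Subgroup.mem_top w)
    rcases hyp χ hχ with h | h
    · rw [hc] at h
      rw [(hterm χ h).2]
      have h2 : (2 : ℝ) ≤ charDegree (χ : G → ℂ) := by exact_mod_cast hd2
      nlinarith
    · rw [h]
      simp
  have hex : commutator G ≠ ⊤ → ∃ μ : G →* ℂˣ, μ ≠ 1 := by
    intro hcomm
    obtain ⟨g, hg⟩ : ∃ g : G, g ∉ commutator G := by
      by_contra hall
      apply hcomm
      rw [eq_top_iff]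
      intro x _
      by_contra hx
      exact hall ⟨x, hx⟩
    obtain ⟨μ, _, hμg⟩ := Helper10.exists_hom_ne_one_of_abelian_quot (commutator G)
      (fun x y => by
        have h1 := Subgroup.commutator_mem_commutator (Subgroup.mem_top x) (Subgroup.mem_top y)
        rw [commutatorElement_def] at h1
        rw [commutator_def]
        exact h1) hg
    exact ⟨μ, fun h => hμg (by rw [h]; rfl)⟩
  have G2 : commutator G ≠ ⊤ → c = 2 := by
    intro hcomm
    obtain ⟨μ, hμ⟩ := hex hcomm
    have h1 := hL μ hμ
    have hne : ((μ u : ℂˣ) : ℂ) ≠ 0 := Units.ne_zero _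
    have hc02 : c = 0 ∨ c = 2 := by
      by_cases h2 : μ * μ = 1
      · have h3 : ((μ u : ℂˣ) : ℂ) * ((μ u : ℂˣ) : ℂ) = 1 := by
          have h4 := congrArg (fun ν : G →* ℂˣ => ((ν u : ℂˣ) : ℂ)) h2
          simpa using h4
        rw [h1] at h3
        have h4 : c * (c - 2) = 0 := by linear_combination h3
        rcases mul_eq_zero.mp h4 with h | h
        · exact Or.inl h
        · exact Or.inr (by linear_combination h)
      · have h3 := hL (μ * μ) h2
        rw [MonoidHom.mul_apply, Units.val_mul, h1] at h3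
        have h4 : (1 - c) * c = 0 := by linear_combination -h3
        rcases mul_eq_zero.mp h4 with h | h
        · rw [h1] at hne
          exact absurd h hne
        · exact Or.inl h
    rcases hc02 with h0 | h2
    · exfalso
      apply no_nonneg_col u hu
      intro χ hχ
      rcases hyp χ hχ with h | h
      · have h5 : (χ : G → ℂ) u = (χ : G → ℂ) 1 := by
          rw [h0] at h
          linear_combination -h
        rw [h5, Complex.mul_conj, Complex.ofReal_re]
        exact Complex.normSq_nonneg _
      · rw [h]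
        simp
    · exact h2
  have G3 : commutator G ≠ ⊤ → (orderOf u = 2 ∧ Subgroup.zpowers u ⊔ Cfsg.oddCore G = ⊤ ∧
      Subgroup.centralizer ({u} : Set G) = Subgroup.zpowers u) := by
    intro hcomm
    have hc := G2 hcomm
    obtain ⟨μ, hμ⟩ := hex hcomm
    have ha : ∀ ν : G →* ℂˣ, ν ≠ 1 → ((ν u : ℂˣ) : ℂ) = -1 := by
      intro ν hν
      rw [hL ν hν, hc]
      norm_num
    have hprod : ∀ ν ν' : G →* ℂˣ, ν ≠ 1 → ν' ≠ 1 → ν * ν' = 1 := by
      intro ν ν' hν hν'
      by_contra h
      have h1 := ha (ν * ν') h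
      rw [MonoidHom.mul_apply, Units.val_mul, ha ν hν, ha ν' hν'] at h1
      norm_num at h1
    have hμμ : μ * μ = 1 := hprod μ μ hμ hμ
    have huniq : ∀ ν : G →* ℂˣ, ν ≠ 1 → ν = μ := by
      intro ν hν
      have h1 := hprod ν μ hν hμ
      rw [← hμμ] at h1
      exact mul_right_cancel h1
    have hne12 : homIrr (1 : G →* ℂˣ) ≠ homIrr μ := by
      intro h
      have h1 := congrArg (fun χ : IrrCharacter G => (χ : G → ℂ) u) h
      simp only [homIrr_apply] at h1
      rw [ha μ hμ] at h1
      norm_num at h1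
    have hχ1 : ∀ χ : IrrCharacter G, χ ≠ homIrr 1 → (χ : G → ℂ) ≠ fun _ => (1 : ℂ) := by
      intro χ h1 h
      apply h1
      apply Subtype.ext
      rw [h]
      funext g
      simp [homIrr_apply]
    have hd2 : ∀ χ : IrrCharacter G, χ ≠ homIrr 1 → χ ≠ homIrr μ →
        2 ≤ charDegree (χ : G → ℂ) := by
      intro χ h1 h2
      by_contra hlt
      have hd1 : charDegree (χ : G → ℂ) = 1 := by
        have := hdpos χ
        omega
      have hd := hdeg χ
      rw [hd1] at hd
      obtain ⟨ν, hν⟩ := Helper24.exists_hom_of_linear (Helper24.isCharacter_of_irr χ.2)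
        (by rw [hd]; simp)
      have hχν : χ = homIrr ν := Subtype.ext (funext hν)
      by_cases hν1 : ν = 1
      · exact h1 (by rw [hχν, hν1])
      · exact h2 (by rw [hχν, huniq ν hν1])
    have hothers : ∀ χ : IrrCharacter G, χ ≠ homIrr 1 → χ ≠ homIrr μ →
        (χ : G → ℂ) u = 0 := by
      obtain ⟨gf, hgf⟩ : ∃ gf : IrrCharacter G → ℝ, gf = fun χ : IrrCharacter G =>
          ((χ : G → ℂ) u * conj ((χ : G → ℂ) 1)).re + (if χ = homIrr μ then 1 else 0) -
            (if χ = homIrr 1 then 1 else 0) := ⟨_, rfl⟩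
      have hsum : ∑ χ : IrrCharacter G, gf χ = 0 := by
        rw [hgf]
        rw [Finset.sum_sub_distrib, Finset.sum_add_distrib, Finset.sum_ite_eq',
          Finset.sum_ite_eq', if_pos (Finset.mem_univ _), if_pos (Finset.mem_univ _)]
        have h0 := congrArg Complex.re (col_one u hu)
        rw [Complex.re_sum, Complex.zero_re] at h0
        rw [h0]
        ring
      have hnn : ∀ χ ∈ (Finset.univ : Finset (IrrCharacter G)), 0 ≤ gf χ := by
        intro χ _
        rw [hgf]
        by_cases h1 : χ = homIrr 1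
        · rw [h1]
          simp only [if_neg hne12, if_pos]
          simp [homIrr_apply]
        · by_cases h2 : χ = homIrr μ
          · rw [h2]
            simp only [if_neg (Ne.symm hne12), if_pos, homIrr_apply]
            rw [ha μ hμ, map_one, Units.val_one]
            simp
          · simp only [if_neg h2, if_neg h1, add_zero, sub_zero]
            rcases hyp χ (hχ1 χ h1) with h | h
            · rw [hc] at h
              rw [(hterm χ h).2]
              have h3 : (2 : ℝ) ≤ charDegree (χ : G → ℂ) := by exact_mod_cast hd2 χ h1 h2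
              nlinarith
            · rw [h]
              simp
      have hz := (Finset.sum_eq_zero_iff_of_nonneg hnn).mp hsum
      intro χ h1 h2
      have hzχ := hz χ (Finset.mem_univ χ)
      rw [hgf] at hzχ
      simp only [if_neg h1, if_neg h2, add_zero, sub_zero] at hzχ
      rcases hyp χ (hχ1 χ h1) with h | h
      · rw [hc] at h
        obtain ⟨hv, hre⟩ := hterm χ h
        rw [hre] at hzχ
        have h3 : (2 : ℝ) ≤ charDegree (χ : G → ℂ) := by exact_mod_cast hd2 χ h1 h2
        have h4 : ((charDegree (χ : G → ℂ) : ℝ) - 2) = 0 := by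
          rcases mul_eq_zero.mp hzχ with h5 | h5
          · exact h5
          · linarith
        rw [hv, h4]
        simp
      · exact h
    have hcard : Nat.card (Subgroup.centralizer ({u} : Set G)) = 2 := by
      have h2 := Helper2.second_orthogonality u u
      rw [if_pos (IsConj.refl u)] at h2
      have h3 : ∀ χ : IrrCharacter G, (χ : G → ℂ) u * conj ((χ : G → ℂ) u) =
          (if χ = homIrr 1 then (1 : ℂ) else 0) + (if χ = homIrr μ then (1 : ℂ) else 0) := by
        intro χ
        by_cases h1 : χ = homIrr 1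
        · rw [h1]
          simp only [if_neg hne12, if_pos]
          simp [homIrr_apply]
        · by_cases hm : χ = homIrr μ
          · rw [hm]
            simp only [if_neg (Ne.symm hne12), if_pos, homIrr_apply]
            rw [ha μ hμ]
            simp
          · rw [if_neg h1, if_neg hm, hothers χ h1 hm]
            simp
      rw [Finset.sum_congr rfl (fun χ _ => h3 χ), Finset.sum_add_distrib, Finset.sum_ite_eq',
        Finset.sum_ite_eq', if_pos (Finset.mem_univ _), if_pos (Finset.mem_univ _)] at h2
      have h4 : ((2 : ℕ) : ℂ) = (Nat.card (Subgroup.centralizer ({u} : Set G)) : ℂ) := by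
        rw [← h2]
        norm_num
      exact_mod_cast h4.symm
    have hzle : Subgroup.zpowers u ≤ Subgroup.centralizer ({u} : Set G) := by
      rw [Subgroup.zpowers_le, Subgroup.mem_centralizer_singleton_iff]
    have hord : orderOf u = 2 := by
      have h1 : orderOf u ∣ 2 := by
        rw [← hcard, ← Nat.card_zpowers]
        exact Subgroup.card_dvd_of_le hzle
      rcases (Nat.dvd_prime Nat.prime_two).mp h1 with h | h
      · exact absurd (orderOf_eq_one_iff.mp h) hu
      · exact h
    have hcz : Subgroup.centralizer ({u} : Set G) = Subgroup.zpowers u := by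
      symm
      apply Subgroup.eq_of_le_of_card_ge hzle
      rw [hcard, Nat.card_zpowers, hord]
    haveI : Fact (Nat.Prime 2) := ⟨Nat.prime_two⟩
    have hpz : IsPGroup 2 (Subgroup.zpowers u) :=
      IsPGroup.of_card (n := 1) (by rw [Nat.card_zpowers, hord]; rfl)
    obtain ⟨S, hS⟩ := hpz.exists_le_sylow
    have huS : u ∈ (S : Subgroup G) := hS (Subgroup.mem_zpowers u)
    have hSle : (S : Subgroup G) ≤ Subgroup.centralizer ({u} : Set G) := by
      haveI : Nontrivial (S : Subgroup G) :=
        ⟨⟨⟨u, huS⟩, 1, fun h => hu (congrArg Subtype.val h)⟩⟩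
      haveI := IsPGroup.center_nontrivial S.isPGroup'
      obtain ⟨z, hz1⟩ := exists_ne (1 : Subgroup.center (S : Subgroup G))
      have hzc : ((z : (S : Subgroup G)) : G) * u = u * ((z : (S : Subgroup G)) : G) := by
        have h1 := Subgroup.mem_center_iff.mp z.2 ⟨u, huS⟩
        exact (congrArg Subtype.val h1).symm
      have hzmem : ((z : (S : Subgroup G)) : G) ∈ Subgroup.zpowers u := by
        rw [← hcz, Subgroup.mem_centralizer_singleton_iff]
        exact hzc
      have hzu : ((z : (S : Subgroup G)) : G) = u := by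
        rw [mem_zpowers_iff_mem_range_orderOf, hord] at hzmem
        obtain ⟨k, hk, hkz⟩ := Finset.mem_image.mp hzmem
        have hk2 : k < 2 := Finset.mem_range.mp hk
        have hk01 : k = 0 ∨ k = 1 := by omega
        rcases hk01 with rfl | rfl
        · exfalso
          apply hz1
          apply Subtype.ext
          apply Subtype.ext
          rw [← hkz]
          simp
        · rw [← hkz]
          simp
      intro s hs
      rw [Subgroup.mem_centralizer_singleton_iff]
      have h1 := Subgroup.mem_center_iff.mp z.2 ⟨s, hs⟩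
      have h2 := congrArg Subtype.val h1
      rw [← hzu]
      exact h2
    have hS2 : Nat.card (S : Subgroup G) = 2 := by
      have h1 : Nat.card (S : Subgroup G) ∣ 2 := by
        have h3 := Subgroup.card_dvd_of_le hSle
        rw [hcard] at h3
        exact h3
      have h2 : 2 ∣ Nat.card (S : Subgroup G) := by
        have h3 := Subgroup.card_dvd_of_le hS
        rw [Nat.card_zpowers, hord] at h3
        exact h3
      exact Nat.dvd_antisymm h1 h2
    have hv : (Nat.card G).factorization 2 = 1 := by
      have h1 := S.card_eq_multiplicity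
      rw [hS2] at h1
      have h2 : (2 : ℕ) ^ 1 = 2 ^ (Nat.card G).factorization 2 := by
        rw [pow_one]
        exact h1
      exact (Nat.pow_right_injective (le_refl 2) h2).symm
    have hKodd : ¬ 2 ∣ Nat.card μ.ker := by
      intro h2
      have hidx : 2 ∣ μ.ker.index := by
        rw [Subgroup.index_ker]
        have hmem : μ u ∈ μ.range := ⟨u, rfl⟩
        have ho : orderOf (μ u) = 2 := by
          apply orderOf_eq_prime
          · have h3 := congrArg (fun ν : G →* ℂˣ => ν u) hμμ
            simpa [sq] using h3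
          · intro h1
            have h3 := ha μ hμ
            rw [h1] at h3
            norm_num at h3
        have h3 := orderOf_dvd_natCard (⟨μ u, hmem⟩ : μ.range)
        rw [Subgroup.orderOf_mk, ho] at h3
        exact h3
      have h4 : 2 ^ 2 ∣ Nat.card G := by
        rw [← Subgroup.card_mul_index μ.ker, pow_two]
        exact Nat.mul_dvd_mul h2 hidx
      have h5 := (Nat.Prime.pow_dvd_iff_le_factorization Nat.prime_two Nat.card_pos.ne').mp h4
      omega
    have hKle : μ.ker ≤ Cfsg.oddCore G :=
      Helper9.le_pPrimeCore (MonoidHom.normal_ker μ)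
        ((Nat.Prime.coprime_iff_not_dvd Nat.prime_two).mpr hKodd).symm
    have htop : Subgroup.zpowers u ⊔ Cfsg.oddCore G = ⊤ := by
      rw [eq_top_iff]
      intro g _
      have hsq : ((μ g : ℂˣ) : ℂ) * ((μ g : ℂˣ) : ℂ) = 1 := by
        have h3 := congrArg (fun ν : G →* ℂˣ => ((ν g : ℂˣ) : ℂ)) hμμ
        simpa using h3
      have h12 : ((μ g : ℂˣ) : ℂ) = 1 ∨ ((μ g : ℂˣ) : ℂ) = -1 := by
        have h3 : (((μ g : ℂˣ) : ℂ) - 1) * (((μ g : ℂˣ) : ℂ) + 1) = 0 := by
          linear_combination hsq
        rcases mul_eq_zero.mp h3 with h | h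
        · exact Or.inl (by linear_combination h)
        · exact Or.inr (by linear_combination h)
      rcases h12 with h | h
      · have hk : g ∈ μ.ker := by
          rw [MonoidHom.mem_ker]
          exact Units.ext (by rw [h]; rfl)
        exact (le_sup_right : Cfsg.oddCore G ≤ _) (hKle hk)
      · have hk : u * g ∈ μ.ker := by
          rw [MonoidHom.mem_ker]
          apply Units.ext
          rw [map_mul, Units.val_mul, ha μ hμ, h]
          norm_num
        have hg : g = u⁻¹ * (u * g) := by group
        rw [hg]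
        exact Subgroup.mul_mem_sup (Subgroup.inv_mem _ (Subgroup.mem_zpowers u)) (hKle hk)
    exact ⟨hord, htop, hcz⟩
  have G4 : (orderOf u = 2 ∧ Subgroup.zpowers u ⊔ Cfsg.oddCore G = ⊤ ∧
      Subgroup.centralizer ({u} : Set G) = Subgroup.zpowers u) → commutator G ≠ ⊤ := by
    rintro ⟨hord, htop, -⟩ hcomm
    have hcyc : IsCyclic (G ⧸ Cfsg.oddCore G) := by
      refine ⟨⟨QuotientGroup.mk u, fun x => ?_⟩⟩
      induction x using QuotientGroup.induction_on with
      | _ g =>
        have hg : g ∈ Subgroup.zpowers u ⊔ Cfsg.oddCore G := by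
          rw [htop]
          exact Subgroup.mem_top g
        have hg' : g ∈ ((Subgroup.zpowers u : Set G) * (Cfsg.oddCore G : Set G)) := by
          rw [← Subgroup.mul_normal]
          exact hg
        obtain ⟨y, hy, z, hz, rfl⟩ := Set.mem_mul.mp hg'
        obtain ⟨k, rfl⟩ := Subgroup.mem_zpowers_iff.mp hy
        refine ⟨k, ?_⟩
        show (QuotientGroup.mk u : G ⧸ Cfsg.oddCore G) ^ k = QuotientGroup.mk (u ^ k * z)
        rw [QuotientGroup.mk_mul, (QuotientGroup.eq_one_iff z).mpr hz, mul_one,
          QuotientGroup.mk_zpow]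
    letI : CommGroup (G ⧸ Cfsg.oddCore G) := hcyc.commGroup
    have hle : commutator G ≤ (QuotientGroup.mk' (Cfsg.oddCore G)).ker :=
      Abelianization.commutator_subset_ker _
    rw [QuotientGroup.ker_mk', hcomm] at hle
    have hu' : u ∈ Cfsg.oddCore G := hle (Subgroup.mem_top u)
    have h1 : orderOf u ∣ Nat.card (Cfsg.oddCore G) := by
      have h3 := orderOf_dvd_natCard (⟨u, hu'⟩ : Cfsg.oddCore G)
      rw [Subgroup.orderOf_mk] at h3
      exact h3
    rw [hord] at h1
    have h2 := Helper9.pPrimeCore_coprime (G := G) 2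
    have h3 := Nat.Coprime.eq_one_of_dvd h2.symm h1
    omega
  exact ⟨⟨G4, G3⟩, ⟨G2, G1⟩⟩

end DegMinusVal

end Cfsg.Agent.Helper13
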