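import Mathlib
import Cfsg.Agent.Helper6.ExcAbel
import Cfsg.Agent.Helper6.ExcDiff
import Cfsg.Agent.Helper6.TISet
import Cfsg.Agent.Helper2.CharReg

set_option autoImplicit false

namespace Cfsg.Agent.Helper13

open Cfsg

section FrobN

variable {Γ : Type*} [Group Γ] [Fintype Γ] (K₀ : Subgroup Γ) [hK : K₀.Normal]

theorem excN_ind_apply_not_mem (ϑ : K₀ → ℂ) {g : Γ} (hg : g ∉ K₀) : indFun K₀ ϑ g = 0 := by
  apply Helper6.TISet.indFun_eq_zero_of_not_conj K₀ ϑ (K₀ : Set Γ) (fun v _ => v.2) g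
  intro x hx
  apply hg
  have h := hK.conj_mem _ hx x
  have e : x * (x⁻¹ * g * x) * x⁻¹ = g := by group
  rw [e] at h
  exact h

theorem excN_ind_apply_one (ϑ : K₀ → ℂ) :
    indFun K₀ ϑ 1 = (Nat.card Γ : ℂ) / (Nat.card K₀ : ℂ) * ϑ 1 := by
  rw [Helper2.indFun_apply]
  have h1 : ∀ x : Γ, extendByZero K₀ ϑ (x⁻¹ * 1 * x) = ϑ 1 := by
    intro x
    have e : x⁻¹ * 1 * x = ((1 : K₀) : Γ) := by simp
    rw [e, Helper2.extendByZero_apply_coe]
  rw [Finset.sum_congr rfl (fun x _ => h1 x), Finset.sum_const, Finset.card_univ, nsmul_eq_mul,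
    ← Nat.card_eq_fintype_card]
  ring

theorem excN_ind_one_apply_mem {k : Γ} (hk : k ∈ K₀) :
    indFun K₀ (fun _ => (1 : ℂ)) k = (Nat.card Γ : ℂ) / (Nat.card K₀ : ℂ) := by
  rw [Helper2.indFun_apply]
  have h1 : ∀ x : Γ, extendByZero K₀ (fun _ => (1 : ℂ)) (x⁻¹ * k * x) = 1 := by
    intro x
    have hm : x⁻¹ * k * x ∈ K₀ := by
      have h := hK.conj_mem k hk x⁻¹
      rw [inv_inv] at h
      exact h
    rw [Helper2.extendByZero_apply_mem _ _ hm]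
  rw [Finset.sum_congr rfl (fun x _ => h1 x), Finset.sum_const, Finset.card_univ, nsmul_eq_mul,
    ← Nat.card_eq_fintype_card]
  ring

/-- An irreducible character of a Frobenius-type group not containing the kernel `K₀` in its
kernel is induced from a non-principal irreducible character of `K₀`. -/
theorem excN_exists_ind (hC : ∀ w ∈ K₀, w ≠ 1 → ∀ c : Γ, c * w = w * c → c ∈ K₀)
    {χ : Γ → ℂ} (hχ : IsIrrCharacter Γ χ) (k : Γ) (hk : k ∈ K₀) (hχk : χ k ≠ χ 1) :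
    ∃ ϑ : ↥K₀ → ℂ, IsIrrCharacter ↥K₀ ϑ ∧ ϑ ≠ (fun _ => 1) ∧ χ = indFun K₀ ϑ := by
  classical
  haveI : Fintype ↥K₀ := Fintype.ofFinite _
  haveI := Helper24.finite_irrCharacter (G := ↥K₀)
  haveI := Fintype.ofFinite (IrrCharacter ↥K₀)
  obtain ⟨r, hr⟩ : ∃ r : ↥K₀ → ℂ, r = fun h : ↥K₀ => χ (h : Γ) := ⟨_, rfl⟩
  have hrchar : IsCharacter ↥K₀ r := by
    rw [hr]
    exact Helper24.isCharacter_restrict _ (Helper24.isCharacter_of_irr hχ)
  have hexp := Helper2.class_fn_expansion (Helper2.IsCharacter.isClassFunction hrchar)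
  by_contra hcon
  push Not at hcon
  have hzero : ∀ ϑ : IrrCharacter ↥K₀, (ϑ : ↥K₀ → ℂ) ≠ (fun _ => 1) → classInner r ϑ = 0 := by
    intro ϑ hϑ1
    by_contra hne
    have hirr := Helper10.frob_ind_irr K₀ hC ϑ.2 hϑ1
    have h1 := Helper2.frobenius_reciprocity K₀ (ϑ : ↥K₀ → ℂ) χ
      (Helper2.IsIrrCharacter.isClassFunction hχ)
    have h2 : classInner (ϑ : ↥K₀ → ℂ) r ≠ 0 := by
      rw [← Helper2.classInner_conj_symm]
      intro h
      apply hne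
      have := congrArg (starRingEnd ℂ) h
      simpa using this
    rw [hr, ← h1, Helper2.classInner_irr hirr hχ] at h2
    have h3 : indFun K₀ (ϑ : ↥K₀ → ℂ) = χ := by
      by_contra h
      rw [if_neg h] at h2
      exact h2 rfl
    exact hcon ϑ ϑ.2 hϑ1 h3.symm
  have hconst : r ⟨k, hk⟩ = r 1 := by
    have h1 := congrFun hexp ⟨k, hk⟩
    have h2 := congrFun hexp 1
    rw [h1, h2]
    simp only [Finset.sum_apply, Pi.smul_apply, smul_eq_mul]
    refine Finset.sum_congr rfl fun ϑ _ => ?_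
    by_cases h1 : (ϑ : ↥K₀ → ℂ) = fun _ => 1
    · rw [h1]
    · rw [hzero ϑ h1, zero_mul, zero_mul]
  apply hχk
  rw [hr] at hconst
  exact hconst

/-- Character theory of a Frobenius-type group `Γ` with abelian kernel `K₀` of index `e`:
degrees, number and value sums of the irreducible characters not containing `K₀` in their
kernel. -/
theorem excN_main [Fintype (IrrCharacter Γ)]
    (hC : ∀ w ∈ K₀, w ≠ 1 → ∀ c : Γ, c * w = w * c → c ∈ K₀)
    (hab : ∀ a ∈ K₀, ∀ b ∈ K₀, a * b = b * a)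
    (e : ℕ) (he : Nat.card Γ = Nat.card K₀ * e)
    (rel : IrrCharacter Γ → Prop)
    (hrel : ∀ ψ, rel ψ ↔ ∃ k : Γ, k ∈ K₀ ∧ (ψ : Γ → ℂ) k ≠ (ψ : Γ → ℂ) 1)
    [Fintype {ψ // rel ψ}] :
    (∀ χ : {ψ // rel ψ}, (χ.1 : Γ → ℂ) 1 = e ∧ ∀ g : Γ, g ∉ K₀ → (χ.1 : Γ → ℂ) g = 0) ∧
    (Fintype.card {ψ // rel ψ} : ℂ) * e = (Nat.card K₀ : ℂ) - 1 ∧
    ∀ x ∈ K₀, x ≠ 1 →
      ∑ χ : {ψ // rel ψ}, (χ.1 : Γ → ℂ) x = -1 ∧
      ∑ χ : {ψ // rel ψ}, (χ.1 : Γ → ℂ) x * (starRingEnd ℂ) ((χ.1 : Γ → ℂ) x)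
        = (Nat.card K₀ : ℂ) - e := by
  classical
  haveI : Fintype ↥K₀ := Fintype.ofFinite _
  have hK0 : (Nat.card K₀ : ℂ) ≠ 0 := by exact_mod_cast Nat.card_pos.ne'
  have hΓc : (Nat.card Γ : ℂ) = (Nat.card K₀ : ℂ) * e := by exact_mod_cast he
  have hquot : (Nat.card Γ : ℂ) / (Nat.card K₀ : ℂ) = e := by
    rw [hΓc]
    field_simp
  have he0 : (e : ℂ) ≠ 0 := by
    intro h
    have h1 : e = 0 := by exact_mod_cast h
    rw [h1, mul_zero] at he
    exact Nat.card_pos.ne' he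
  have hcommK : ∀ a b : ↥K₀, a * b = b * a := fun a b => Subtype.ext (hab a a.2 b b.2)
  have hrelind : ∀ ψ : IrrCharacter Γ, rel ψ → ∃ ϑ : ↥K₀ → ℂ, IsIrrCharacter ↥K₀ ϑ ∧
      ϑ ≠ (fun _ => 1) ∧ (ψ : Γ → ℂ) = indFun K₀ ϑ := by
    intro ψ hψ
    obtain ⟨k, hk, hne⟩ := (hrel ψ).mp hψ
    exact excN_exists_ind K₀ hC ψ.2 k hk hne
  have hdeg : ∀ ψ : IrrCharacter Γ, rel ψ → (ψ : Γ → ℂ) 1 = e := by
    intro ψ hψ
    obtain ⟨ϑ, hϑ, -, hψϑ⟩ := hrelind ψ hψ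
    rw [hψϑ, excN_ind_apply_one, hquot, Helper2.irr_abelian_linear hcommK hϑ, mul_one]
  have hvan : ∀ ψ : IrrCharacter Γ, rel ψ → ∀ g : Γ, g ∉ K₀ → (ψ : Γ → ℂ) g = 0 := by
    intro ψ hψ g hg
    obtain ⟨ϑ, -, -, hψϑ⟩ := hrelind ψ hψ
    rw [hψϑ]
    exact excN_ind_apply_not_mem K₀ ϑ hg
  have hnonrel : ∀ ψ : IrrCharacter Γ, ¬ rel ψ → ∀ k ∈ K₀, (ψ : Γ → ℂ) k = (ψ : Γ → ℂ) 1 := by
    intro ψ hψ k hk
    by_contra hne
    exact hψ ((hrel ψ).mpr ⟨k, hk, hne⟩)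
  have hconj1 : ∀ ψ : IrrCharacter Γ, (starRingEnd ℂ) ((ψ : Γ → ℂ) 1) = (ψ : Γ → ℂ) 1 := by
    intro ψ
    rw [Helper24.charDegree_spec (Helper24.isCharacter_of_irr ψ.2)]
    exact Complex.conj_natCast _
  -- the permutation character on the cosets of `K₀`
  obtain ⟨Φ, hΦ⟩ : ∃ Φ : Γ → ℂ, Φ = indFun K₀ (fun _ => (1 : ℂ)) := ⟨_, rfl⟩
  have hΦK : ∀ k ∈ K₀, Φ k = e := by
    intro k hk
    rw [hΦ, excN_ind_one_apply_mem K₀ hk, hquot]
  have hΦcf : IsClassFunction Γ Φ := by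
    rw [hΦ]
    exact Helper2.isClassFunction_indFun _ _
  have hΦψ : ∀ ψ : IrrCharacter Γ,
      classInner Φ ψ = if rel ψ then 0 else (ψ : Γ → ℂ) 1 := by
    intro ψ
    by_cases h : rel ψ
    · rw [if_pos h]
      obtain ⟨ϑ, hϑ, hϑ1, hψϑ⟩ := hrelind ψ h
      have h3 : classInner ϑ (fun h : ↥K₀ => Φ h)
          = (e : ℂ) * classInner ϑ (fun _ : ↥K₀ => (1 : ℂ)) := by
        unfold classInner
        have h4 : ∑ g : ↥K₀, ϑ g * (starRingEnd ℂ) (Φ g)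
            = (e : ℂ) * ∑ g : ↥K₀, ϑ g * (starRingEnd ℂ) (1 : ℂ) := by
          rw [Finset.mul_sum]
          refine Finset.sum_congr rfl fun h _ => ?_
          rw [hΦK h h.2, Complex.conj_natCast, map_one]
          ring
        rw [h4]
        ring
      have h2 : classInner ϑ (fun _ : ↥K₀ => (1 : ℂ)) = 0 := by
        rw [Helper2.classInner_irr hϑ Helper2.isIrrCharacter_one_fun, if_neg hϑ1]
      rw [← Helper2.classInner_conj_symm, hψϑ, Helper2.frobenius_reciprocity K₀ ϑ Φ hΦcf, h3, h2,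
        mul_zero, map_zero]
    · rw [if_neg h, hΦ,
        Helper2.frobenius_reciprocity K₀ _ ψ (Helper2.IsIrrCharacter.isClassFunction ψ.2)]
      unfold classInner
      have h1 : ∀ k : ↥K₀, (1 : ℂ) * (starRingEnd ℂ) ((ψ : Γ → ℂ) k) = (ψ : Γ → ℂ) 1 := by
        intro k
        rw [one_mul, hnonrel ψ h k k.2, hconj1]
      rw [Finset.sum_congr rfl (fun k _ => h1 k), Finset.sum_const, Finset.card_univ, nsmul_eq_mul,
        ← Nat.card_eq_fintype_card, ← mul_assoc, inv_mul_cancel₀ hK0, one_mul]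
  have hexpΦ := congrFun (Helper2.class_fn_expansion hΦcf) 1
  simp only [Finset.sum_apply, Pi.smul_apply, smul_eq_mul] at hexpΦ
  rw [hΦK 1 K₀.one_mem] at hexpΦ
  have hsumnon : ∑ ψ : IrrCharacter Γ,
      (if rel ψ then 0 else (ψ : Γ → ℂ) 1 * (ψ : Γ → ℂ) 1) = e := by
    rw [hexpΦ]
    refine Finset.sum_congr rfl fun ψ _ => ?_
    rw [hΦψ]
    by_cases h : rel ψ
    · rw [if_pos h, if_pos h, zero_mul]
    · rw [if_neg h, if_neg h]
  have hsub : ∀ F : IrrCharacter Γ → ℂ,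
      ∑ ψ : IrrCharacter Γ, (if rel ψ then F ψ else 0) = ∑ χ : {ψ // rel ψ}, F χ.1 := by
    intro F
    rw [← Finset.sum_filter]
    exact Finset.sum_subtype _ (by simp) F
  have hsplit : ∀ F : IrrCharacter Γ → ℂ, ∑ ψ : IrrCharacter Γ, F ψ
      = ∑ ψ : IrrCharacter Γ, (if rel ψ then F ψ else 0)
        + ∑ ψ : IrrCharacter Γ, (if rel ψ then 0 else F ψ) := by
    intro F
    rw [← Finset.sum_add_distrib]
    refine Finset.sum_congr rfl fun ψ _ => ?_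
    by_cases h : rel ψ
    · rw [if_pos h, if_pos h, add_zero]
    · rw [if_neg h, if_neg h, zero_add]
  refine ⟨fun χ => ⟨hdeg χ.1 χ.2, hvan χ.1 χ.2⟩, ?_, ?_⟩
  · have h1 := Helper2.sum_degree_sq (G := Γ)
    rw [hsplit, hsumnon, hsub] at h1
    have h2 : ∑ χ : {ψ // rel ψ}, (χ.1 : Γ → ℂ) 1 * (χ.1 : Γ → ℂ) 1
        = (Fintype.card {ψ // rel ψ} : ℂ) * ((e : ℂ) * e) := by
      rw [Finset.sum_congr rfl (fun χ _ => by rw [hdeg χ.1 χ.2]), Finset.sum_const,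
        Finset.card_univ, nsmul_eq_mul]
    rw [h2, hΓc] at h1
    apply mul_right_cancel₀ he0
    linear_combination h1
  · intro x hx hx1
    have hcent : Subgroup.centralizer ({x} : Set Γ) = K₀ := by
      ext c
      rw [Subgroup.mem_centralizer_iff]
      constructor
      · intro h
        exact hC x hx hx1 c (h x rfl).symm
      · intro hc y hy
        rw [Set.mem_singleton_iff] at hy
        rw [hy]
        exact hab x hx c hc
    have hnc : ¬ IsConj x (1 : Γ) := by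
      intro h
      exact hx1 (isConj_one_left.mp h)
    have h1 := Helper2.second_orthogonality (G := Γ) x 1
    rw [if_neg hnc, hsplit, hsub] at h1
    have h1a : ∑ χ : {ψ // rel ψ}, (χ.1 : Γ → ℂ) x * (starRingEnd ℂ) ((χ.1 : Γ → ℂ) 1)
        = (∑ χ : {ψ // rel ψ}, (χ.1 : Γ → ℂ) x) * e := by
      rw [Finset.sum_mul]
      refine Finset.sum_congr rfl fun χ _ => ?_
      rw [hconj1, hdeg χ.1 χ.2]
    have h1b : ∑ ψ : IrrCharacter Γ,
        (if rel ψ then 0 else (ψ : Γ → ℂ) x * (starRingEnd ℂ) ((ψ : Γ → ℂ) 1)) = e := by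
      rw [← hsumnon]
      refine Finset.sum_congr rfl fun ψ _ => ?_
      by_cases h : rel ψ
      · rw [if_pos h, if_pos h]
      · rw [if_neg h, if_neg h, hconj1, hnonrel ψ h x hx]
    rw [h1a, h1b] at h1
    have h2 := Helper2.second_orthogonality (G := Γ) x x
    rw [if_pos (IsConj.refl x), hcent, hsplit, hsub] at h2
    have h2b : ∑ ψ : IrrCharacter Γ,
        (if rel ψ then 0 else (ψ : Γ → ℂ) x * (starRingEnd ℂ) ((ψ : Γ → ℂ) x)) = e := by
      rw [← hsumnon]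
      refine Finset.sum_congr rfl fun ψ _ => ?_
      by_cases h : rel ψ
      · rw [if_pos h, if_pos h]
      · rw [if_neg h, if_neg h, hnonrel ψ h x hx, hconj1]
    rw [h2b] at h2
    constructor
    · apply mul_right_cancel₀ he0
      linear_combination h1
    · linear_combination h2

end FrobN

end Cfsg.Agent.Helper13
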