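import Mathlib
import Cfsg.Agent.Helper13.ExcN

set_option autoImplicit false

namespace Cfsg.Agent.Helper13

open Cfsg

theorem exc_rel_split {I : Type*} [Fintype I] (rel : I → Prop) [DecidablePred rel]
    [Fintype {i // rel i}] (F : I → ℂ) :
    ∑ i : I, F i = ∑ χ : {i // rel i}, F χ.1 + ∑ i : I, (if rel i then 0 else F i) := by
  classical
  have h1 : ∑ i : I, (if rel i then F i else 0) = ∑ χ : {i // rel i}, F χ.1 := by
    rw [← Finset.sum_filter]
    exact Finset.sum_subtype _ (by simp) F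
  rw [← h1, ← Finset.sum_add_distrib]
  refine Finset.sum_congr rfl fun i _ => ?_
  by_cases h : rel i
  · rw [if_pos h, if_pos h, add_zero]
  · rw [if_neg h, if_neg h, zero_add]

theorem exc_sum_split {X I : Type*} [Fintype X] [Fintype I] [DecidableEq I] (f : X → I)
    (hf : Function.Injective f) (F : I → ℂ) :
    ∑ i : I, F i = ∑ x : X, F (f x) + ∑ i : I, (if ∃ x, f x = i then 0 else F i) := by
  classical
  have h1 : ∑ i : I, (if ∃ x, f x = i then F i else 0) = ∑ x : X, F (f x) := by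
    rw [← Finset.sum_filter]
    have h2 : (Finset.univ.filter fun i : I => ∃ x, f x = i) = Finset.univ.image f := by
      ext i
      simp
    rw [h2, Finset.sum_image (fun x _ y _ h => hf h)]
  rw [← h1, ← Finset.sum_add_distrib]
  refine Finset.sum_congr rfl fun i _ => ?_
  by_cases h : ∃ x, f x = i
  · rw [if_pos h, if_pos h, add_zero]
  · rw [if_neg h, if_neg h, zero_add]

section ExcCore

variable {G : Type*} [Group G] [Fintype G]

theorem exc_val [Fintype (IrrCharacter G)]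
    (N K : Subgroup G) [Fintype ↥N] [Fintype (IrrCharacter ↥N)]
    (rel : IrrCharacter ↥N → Prop) [Fintype {ψ // rel ψ}] [Nonempty {ψ // rel ψ}]
    (hnrel : ∀ ψ : IrrCharacter ↥N, ¬ rel ψ → ∀ k : ↥N, (k : G) ∈ K →
      (ψ : ↥N → ℂ) k = (ψ : ↥N → ℂ) 1)
    (hsum : ∀ x : ↥N, (x : G) ∈ K → x ≠ 1 → ∑ χ : {ψ // rel ψ}, (χ.1 : ↥N → ℂ) x = -1)
    (ε : ℂ) (hε : ε = 1 ∨ ε = -1) (f : {ψ // rel ψ} → IrrCharacter G)
    (hcoh : ∀ χ ξ : {ψ // rel ψ}, indFun N ((χ.1 : ↥N → ℂ) - (ξ.1 : ↥N → ℂ)) =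
      ε • ((f χ : G → ℂ) - (f ξ : G → ℂ))) :
    ∃ B : IrrCharacter G → ℂ, ∀ θ : IrrCharacter G, ∀ x : ↥N, (x : G) ∈ K → x ≠ 1 →
      (θ : G → ℂ) x = B θ + ε * ∑ χ : {ψ // rel ψ},
        (if f χ = θ then (χ.1 : ↥N → ℂ) x else 0) := by
  classical
  obtain ⟨χ₀⟩ := ‹Nonempty {ψ // rel ψ}›
  have hεc : (starRingEnd ℂ) ε = ε := by
    rcases hε with rfl | rfl <;> simp
  have hm : ∀ (θ : IrrCharacter G) (χ ξ : {ψ // rel ψ}),
      classInner (fun n : ↥N => (θ : G → ℂ) n) (χ.1 : ↥N → ℂ) -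
        classInner (fun n : ↥N => (θ : G → ℂ) n) (ξ.1 : ↥N → ℂ) =
      ε * ((if f χ = θ then 1 else 0) - (if f ξ = θ then 1 else 0)) := by
    intro θ χ ξ
    have h1 := Helper2.frobenius_reciprocity N ((χ.1 : ↥N → ℂ) - (ξ.1 : ↥N → ℂ)) (θ : G → ℂ)
      (Helper2.IsIrrCharacter.isClassFunction θ.2)
    rw [hcoh, Helper2.classInner_smul_left, Helper2.classInner_sub_left,
      Helper2.classInner_sub_left, Helper2.classInner_irr (f χ).2 θ.2,
      Helper2.classInner_irr (f ξ).2 θ.2] at h1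
    have hc : ∀ χ : {ψ // rel ψ},
        (if ((f χ : IrrCharacter G) : G → ℂ) = (θ : G → ℂ) then (1 : ℂ) else 0)
        = (if f χ = θ then 1 else 0) := by
      intro χ
      by_cases h : f χ = θ
      · rw [if_pos h, if_pos (congrArg Subtype.val h)]
      · rw [if_neg h, if_neg (fun h' => h (Subtype.ext h'))]
    rw [hc, hc] at h1
    have h2 := congrArg (starRingEnd ℂ) h1
    simp only [map_sub, map_mul, Helper2.classInner_conj_symm, hεc, apply_ite (starRingEnd ℂ),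
      map_one, map_zero] at h2
    exact h2.symm
  obtain ⟨b, hb⟩ : ∃ b : IrrCharacter G → ℂ, ∀ θ, b θ =
      classInner (fun n : ↥N => (θ : G → ℂ) n) (χ₀.1 : ↥N → ℂ)
        - ε * (if f χ₀ = θ then 1 else 0) := ⟨_, fun _ => rfl⟩
  have hmb : ∀ (θ : IrrCharacter G) (χ : {ψ // rel ψ}),
      classInner (fun n : ↥N => (θ : G → ℂ) n) (χ.1 : ↥N → ℂ)
        = b θ + ε * (if f χ = θ then 1 else 0) := by
    intro θ χ
    rw [hb]
    linear_combination hm θ χ χ₀
  refine ⟨fun θ => (∑ ψ : IrrCharacter ↥N, (if rel ψ then 0 else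
    classInner (fun n : ↥N => (θ : G → ℂ) n) (ψ : ↥N → ℂ) * (ψ : ↥N → ℂ) 1)) - b θ, ?_⟩
  intro θ x hx hx1
  have hcf : IsClassFunction ↥N (fun n : ↥N => (θ : G → ℂ) n) :=
    Helper2.IsCharacter.isClassFunction
      (Helper24.isCharacter_restrict N (Helper24.isCharacter_of_irr θ.2))
  have hexp := congrFun (Helper2.class_fn_expansion hcf) x
  simp only [Finset.sum_apply, Pi.smul_apply, smul_eq_mul] at hexp
  rw [exc_rel_split rel (fun ψ : IrrCharacter ↥N =>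
    classInner (fun n : ↥N => (θ : G → ℂ) n) (ψ : ↥N → ℂ) * (ψ : ↥N → ℂ) x)] at hexp
  have h1 : ∑ χ : {ψ // rel ψ},
      classInner (fun n : ↥N => (θ : G → ℂ) n) (χ.1 : ↥N → ℂ) * (χ.1 : ↥N → ℂ) x
      = -b θ + ε * ∑ χ : {ψ // rel ψ}, (if f χ = θ then (χ.1 : ↥N → ℂ) x else 0) := by
    have h2 : ∀ χ : {ψ // rel ψ},
        classInner (fun n : ↥N => (θ : G → ℂ) n) (χ.1 : ↥N → ℂ) * (χ.1 : ↥N → ℂ) x
        = b θ * (χ.1 : ↥N → ℂ) x + ε * (if f χ = θ then (χ.1 : ↥N → ℂ) x else 0) := by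
      intro χ
      rw [hmb]
      by_cases h : f χ = θ
      · rw [if_pos h, if_pos h]
        ring
      · rw [if_neg h, if_neg h]
        ring
    rw [Finset.sum_congr rfl (fun χ _ => h2 χ), Finset.sum_add_distrib, ← Finset.mul_sum,
      ← Finset.mul_sum, hsum x hx hx1]
    ring
  have h3 : ∑ ψ : IrrCharacter ↥N, (if rel ψ then 0 else
      classInner (fun n : ↥N => (θ : G → ℂ) n) (ψ : ↥N → ℂ) * (ψ : ↥N → ℂ) x)
      = ∑ ψ : IrrCharacter ↥N, (if rel ψ then 0 else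
      classInner (fun n : ↥N => (θ : G → ℂ) n) (ψ : ↥N → ℂ) * (ψ : ↥N → ℂ) 1) := by
    refine Finset.sum_congr rfl fun ψ _ => ?_
    by_cases h : rel ψ
    · rw [if_pos h, if_pos h]
    · rw [if_neg h, if_neg h, hnrel ψ h x hx]
  rw [h1, h3] at hexp
  show (θ : G → ℂ) x = _
  linear_combination hexp

theorem exc_core [Fintype (IrrCharacter G)]
    (N K : Subgroup G) [Fintype ↥N] [Fintype (IrrCharacter ↥N)]
    (hKN : K ≤ N)
    (hti : ∀ y : G, ∀ x ∈ K, x ≠ 1 → y⁻¹ * x * y ∈ K → y ∈ N)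
    (rel : IrrCharacter ↥N → Prop) [Fintype {ψ // rel ψ}]
    (hrel1 : ∀ χ : {ψ // rel ψ}, (χ.1 : ↥N → ℂ) ≠ fun _ => 1)
    (hnrel : ∀ ψ : IrrCharacter ↥N, ¬ rel ψ → ∀ k : ↥N, (k : G) ∈ K →
      (ψ : ↥N → ℂ) k = (ψ : ↥N → ℂ) 1)
    (e : ℕ)
    (hdeg : ∀ χ : {ψ // rel ψ}, (χ.1 : ↥N → ℂ) 1 = e)
    (hvan : ∀ χ : {ψ // rel ψ}, ∀ g : ↥N, (g : G) ∉ K → (χ.1 : ↥N → ℂ) g = 0)
    (hcnt : (Fintype.card {ψ // rel ψ} : ℂ) * e = (Nat.card K : ℂ) - 1)
    (hsum : ∀ x : ↥N, (x : G) ∈ K → x ≠ 1 →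
      ∑ χ : {ψ // rel ψ}, (χ.1 : ↥N → ℂ) x = -1 ∧
      ∑ χ : {ψ // rel ψ}, (χ.1 : ↥N → ℂ) x * (starRingEnd ℂ) ((χ.1 : ↥N → ℂ) x)
        = (Nat.card K : ℂ) - e)
    (ε : ℂ) (hε : ε = 1 ∨ ε = -1) (f : {ψ // rel ψ} → IrrCharacter G)
    (hf : Function.Injective f)
    (hcoh : ∀ χ ξ : {ψ // rel ψ}, indFun N ((χ.1 : ↥N → ℂ) - (ξ.1 : ↥N → ℂ)) =
      ε • ((f χ : G → ℂ) - (f ξ : G → ℂ)))
    (he2 : (e + 2) * e ≤ Nat.card K - 1)
    (z : G) (hz : z ∈ K) (hz1 : z ≠ 1)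
    (hCz : Nat.card (Subgroup.centralizer ({z} : Set G)) = Nat.card K) :
    ∃ (a : IrrCharacter G → ℤ) (d : ℕ), d ∣ Nat.card G ∧
      (∀ θ : IrrCharacter G, (θ : G → ℂ) = (fun _ => 1) → a θ = 1) ∧
      ∑ θ : IrrCharacter G, (a θ) ^ 2 = (e : ℤ) ∧
      (∀ θ : IrrCharacter G, a θ ≠ 0 →
        (Nat.card K : ℤ) ∣ (charDegree (θ : G → ℂ) : ℤ) - a θ) ∧
      (∑ θ : IrrCharacter G, (charDegree (θ : G → ℂ) : ℤ) * a θ = d ∨
       ∑ θ : IrrCharacter G, (charDegree (θ : G → ℂ) : ℤ) * a θ = -d) := by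
  classical
  haveI : Fintype ↥K := Fintype.ofFinite _
  have hK1 : 1 < Nat.card K := by
    rw [Finite.one_lt_card_iff_nontrivial]
    exact ⟨⟨⟨z, hz⟩, 1, fun h => hz1 (congrArg Subtype.val h)⟩⟩
  have he0 : e ≠ 0 := by
    intro h
    rw [h, Nat.cast_zero, mul_zero] at hcnt
    have h1 : (Nat.card K : ℂ) = 1 := by linear_combination -hcnt
    have h2 : Nat.card K = 1 := by exact_mod_cast h1
    omega
  obtain ⟨t, ht⟩ : ∃ t : ℕ, t = Fintype.card {ψ // rel ψ} := ⟨_, rfl⟩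
  rw [← ht] at hcnt
  have hte : t * e + 1 = Nat.card K := by
    have h1 : ((t * e + 1 : ℕ) : ℂ) = (Nat.card K : ℂ) := by
      push_cast
      linear_combination hcnt
    exact_mod_cast h1
  have ht2 : e + 2 ≤ t := by
    have h1 : (e + 2) * e ≤ t * e := by omega
    exact Nat.le_of_mul_le_mul_right h1 (Nat.pos_of_ne_zero he0)
  have hnt : Nontrivial {ψ // rel ψ} := by
    rw [← Fintype.one_lt_card_iff_nontrivial, ← ht]
    omega
  obtain ⟨χ₀, χ₁, h01⟩ := exists_pair_ne {ψ // rel ψ}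
  haveI : Nonempty {ψ // rel ψ} := ⟨χ₀⟩
  have hε2 : ε * ε = 1 := by rcases hε with rfl | rfl <;> norm_num
  have hε0 : ε ≠ 0 := by rcases hε with rfl | rfl <;> norm_num
  have hεc : (starRingEnd ℂ) ε = ε := by rcases hε with rfl | rfl <;> simp
  obtain ⟨z', hz'⟩ : ∃ z' : ↥N, (z' : G) = z := ⟨⟨z, hKN hz⟩, rfl⟩
  have hz'K : (z' : G) ∈ K := by
    rw [hz']
    exact hz
  have hz'1 : z' ≠ 1 := by
    intro h
    apply hz1
    rw [← hz', h]
    rfl
  obtain ⟨B, hB⟩ := exc_val N K rel hnrel (fun x hx hx1 => (hsum x hx hx1).1) ε hε f hcoh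
  have hBoff : ∀ θ : IrrCharacter G, (¬ ∃ χ, f χ = θ) → ∀ x : ↥N, (x : G) ∈ K → x ≠ 1 →
      (θ : G → ℂ) x = B θ := by
    intro θ hθ x hx hx1
    rw [hB θ x hx hx1, Finset.sum_eq_zero, mul_zero, add_zero]
    intro χ _
    rw [if_neg (fun h => hθ ⟨χ, h⟩)]
  have hBon : ∀ χ : {ψ // rel ψ}, ∀ x : ↥N, (x : G) ∈ K → x ≠ 1 →
      (f χ : G → ℂ) x = B (f χ) + ε * (χ.1 : ↥N → ℂ) x := by
    intro χ x hx hx1
    rw [hB (f χ) x hx hx1]
    congr 2
    rw [Finset.sum_eq_single χ]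
    · rw [if_pos rfl]
    · intro ξ _ hξ
      rw [if_neg (fun h => hξ (hf h))]
    · intro h
      exact absurd (Finset.mem_univ χ) h
  have hBc : ∀ χ : {ψ // rel ψ}, B (f χ) = B (f χ₀) := by
    intro χ
    have h1 := congrFun (hcoh χ χ₀) (z' : G)
    have hcf : IsClassFunction ↥N ((χ.1 : ↥N → ℂ) - (χ₀.1 : ↥N → ℂ)) :=
      Helper2.IsClassFunction.sub (Helper2.IsIrrCharacter.isClassFunction χ.1.2)
        (Helper2.IsIrrCharacter.isClassFunction χ₀.1.2)
    have hv0 : ∀ n : ↥N, (n : G) ∉ K → ((χ.1 : ↥N → ℂ) - (χ₀.1 : ↥N → ℂ)) n = 0 := by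
      intro n hn
      rw [Pi.sub_apply, hvan χ n hn, hvan χ₀ n hn, sub_zero]
    rw [Helper10.ti_ind_apply N K hti _ hcf hv0 z' hz'K hz'1] at h1
    simp only [Pi.sub_apply, Pi.smul_apply, smul_eq_mul] at h1
    rw [hBon χ z' hz'K hz'1, hBon χ₀ z' hz'K hz'1] at h1
    have h2 : ε * (B (f χ) - B (f χ₀)) = 0 := by
      linear_combination -h1 - ((χ.1 : ↥N → ℂ) z' - (χ₀.1 : ↥N → ℂ) z') * hε2
    rcases mul_eq_zero.mp h2 with h | h
    · exact absurd h hε0
    · exact sub_eq_zero.mp h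
  obtain ⟨c, hc⟩ : ∃ c : ℂ, c = B (f χ₀) := ⟨_, rfl⟩
  have hBon' : ∀ χ : {ψ // rel ψ}, ∀ x : ↥N, (x : G) ∈ K → x ≠ 1 →
      (f χ : G → ℂ) x = c + ε * (χ.1 : ↥N → ℂ) x := by
    intro χ x hx hx1
    rw [hBon χ x hx hx1, hBc χ, hc]
  have htriv : ∀ χ : {ψ // rel ψ}, (f χ : G → ℂ) ≠ fun _ => 1 := by
    intro χ hχ
    obtain ⟨ξ, hξ⟩ : ∃ ξ : {ψ // rel ψ}, ξ ≠ χ := by
      by_cases h : χ₀ = χ
      · exact ⟨χ₁, fun h' => h01 (h.trans h'.symm)⟩
      · exact ⟨χ₀, h⟩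
    have hξ1 : (f ξ : G → ℂ) ≠ fun _ => 1 := by
      intro h
      exact hξ (hf (Subtype.ext (h.trans hχ.symm)))
    have h1 := Helper2.frobenius_reciprocity N ((χ.1 : ↥N → ℂ) - (ξ.1 : ↥N → ℂ))
      (fun _ : G => (1 : ℂ))
      (Helper2.IsIrrCharacter.isClassFunction Helper2.isIrrCharacter_one_fun)
    beta_reduce at h1
    rw [hcoh, Helper2.classInner_smul_left, Helper2.classInner_sub_left,
      Helper2.classInner_sub_left,
      Helper2.classInner_irr (f χ).2 Helper2.isIrrCharacter_one_fun,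
      Helper2.classInner_irr (f ξ).2 Helper2.isIrrCharacter_one_fun,
      Helper2.classInner_irr χ.1.2 Helper2.isIrrCharacter_one_fun,
      Helper2.classInner_irr ξ.1.2 Helper2.isIrrCharacter_one_fun,
      if_pos hχ, if_neg (hrel1 χ), if_neg (hrel1 ξ), if_neg hξ1] at h1
    apply hε0
    linear_combination h1
  have hBint : ∀ θ : IrrCharacter G, (¬ ∃ χ, f χ = θ) → ∃ n : ℤ, B θ = n := by
    intro θ hθ
    have hchar : IsCharacter ↥K (fun k : ↥K => (θ : G → ℂ) k) :=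
      Helper24.isCharacter_restrict K (Helper24.isCharacter_of_irr θ.2)
    exact Helper6.Exc.int_of_const_gen (Helper10.isGeneralizedCharacter_of_char hchar) (B θ)
      (fun h hh1 => hBoff θ hθ ⟨h, hKN h.2⟩ h.2
        (fun h' => hh1 (Subtype.ext (congrArg (Subtype.val : ↥N → G) h'))))
      ⟨z, hz⟩ (fun h => hz1 (congrArg Subtype.val h))
  have hcint : ∃ n : ℤ, c = n := by
    haveI : Fintype ↥(K.subgroupOf N) := Fintype.ofFinite _
    have hA : IsCharacter ↥(K.subgroupOf N)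
        (fun h : ↥(K.subgroupOf N) => (f χ₀ : G → ℂ) ((h : ↥N) : G)) :=
      Helper24.isCharacter_restrict (K.subgroupOf N)
        (Helper24.isCharacter_restrict N (Helper24.isCharacter_of_irr (f χ₀).2))
    have hB' : IsCharacter ↥(K.subgroupOf N)
        (fun h : ↥(K.subgroupOf N) => (χ₀.1 : ↥N → ℂ) (h : ↥N)) :=
      Helper24.isCharacter_restrict (K.subgroupOf N) (Helper24.isCharacter_of_irr χ₀.1.2)
    have hgen : IsGeneralizedCharacter ↥(K.subgroupOf N) (fun h : ↥(K.subgroupOf N) =>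
        (f χ₀ : G → ℂ) ((h : ↥N) : G) - ε * (χ₀.1 : ↥N → ℂ) (h : ↥N)) := by
      rcases hε with h | h
      · refine ⟨_, _, hA, hB', ?_⟩
        funext x
        simp only [Pi.sub_apply]
        rw [h]
        ring
      · refine ⟨_, 0, Helper2.IsCharacter.add hA hB', Helper2.isCharacter_zero, ?_⟩
        funext x
        simp only [Pi.sub_apply, Pi.add_apply, Pi.zero_apply]
        rw [h]
        ring
    exact Helper6.Exc.int_of_const_gen hgen c
      (fun h hh1 => by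
        show (f χ₀ : G → ℂ) ((h : ↥N) : G) - ε * (χ₀.1 : ↥N → ℂ) (h : ↥N) = c
        rw [hBon' χ₀ (h : ↥N) (Subgroup.mem_subgroupOf.mp h.2) (fun h' => hh1 (Subtype.ext h'))]
        ring)
      ⟨z', Subgroup.mem_subgroupOf.mpr hz'K⟩ (fun h => hz'1 (congrArg Subtype.val h))
  have hex : ∀ θ : IrrCharacter G, ∃ n : ℤ, ((∃ χ, f χ = θ) → n = 0) ∧
      ((¬ ∃ χ, f χ = θ) → B θ = n) := by
    intro θ
    by_cases h : ∃ χ, f χ = θ
    · exact ⟨0, fun _ => rfl, fun h' => absurd h h'⟩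
    · obtain ⟨n, hn⟩ := hBint θ h
      exact ⟨n, fun h' => absurd h' h, fun _ => hn⟩
  choose a ha using hex
  obtain ⟨n, hn⟩ := hcint
  obtain ⟨s, hs, hs1⟩ : ∃ s : ℤ, ε = s ∧ (s = 1 ∨ s = -1) := by
    rcases hε with h | h
    · exact ⟨1, by rw [h]; norm_num, Or.inl rfl⟩
    · exact ⟨-1, by rw [h]; norm_num, Or.inr rfl⟩
  have hconjc : (starRingEnd ℂ) c = c := by
    rw [hn]
    exact map_intCast (starRingEnd ℂ) n
  have hs1' := hsum z' hz'K hz'1
  have hsumc : ∑ χ : {ψ // rel ψ}, (starRingEnd ℂ) ((χ.1 : ↥N → ℂ) z') = -1 := by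
    rw [← map_sum, hs1'.1]
    simp
  obtain ⟨S, hS⟩ : ∃ S : ℤ, S = ∑ θ : IrrCharacter G, (a θ) ^ 2 := ⟨_, rfl⟩
  obtain ⟨T, hT⟩ : ∃ T : ℤ, T = ∑ θ : IrrCharacter G, (charDegree (θ : G → ℂ) : ℤ) * a θ :=
    ⟨_, rfl⟩
  -- second orthogonality at (z, z)
  have hzz := Helper2.second_orthogonality (G := G) z z
  rw [if_pos (IsConj.refl z), hCz, exc_sum_split f hf (fun θ : IrrCharacter G =>
    (θ : G → ℂ) z * (starRingEnd ℂ) ((θ : G → ℂ) z))] at hzz
  have h1 : ∑ χ : {ψ // rel ψ}, (f χ : G → ℂ) z * (starRingEnd ℂ) ((f χ : G → ℂ) z)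
      = (t : ℂ) * c * c - 2 * ε * c + (Nat.card K : ℂ) - e := by
    have h2 : ∀ χ : {ψ // rel ψ}, (f χ : G → ℂ) z * (starRingEnd ℂ) ((f χ : G → ℂ) z)
        = c * c + ε * c * ((χ.1 : ↥N → ℂ) z' + (starRingEnd ℂ) ((χ.1 : ↥N → ℂ) z'))
          + (χ.1 : ↥N → ℂ) z' * (starRingEnd ℂ) ((χ.1 : ↥N → ℂ) z') := by
      intro χ
      have h3 := hBon' χ z' hz'K hz'1
      rw [hz'] at h3
      rw [h3, map_add, map_mul, hεc, hconjc]
      linear_combination ((χ.1 : ↥N → ℂ) z' * (starRingEnd ℂ) ((χ.1 : ↥N → ℂ) z')) * hε2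
    rw [Finset.sum_congr rfl (fun χ _ => h2 χ), Finset.sum_add_distrib, Finset.sum_add_distrib,
      Finset.sum_const, Finset.card_univ, ← ht, nsmul_eq_mul, ← Finset.mul_sum,
      Finset.sum_add_distrib, hs1'.1, hsumc, hs1'.2]
    ring
  have h4 : ∑ θ : IrrCharacter G, (if ∃ χ, f χ = θ then 0 else
      (θ : G → ℂ) z * (starRingEnd ℂ) ((θ : G → ℂ) z)) = (S : ℂ) := by
    rw [hS, Int.cast_sum]
    refine Finset.sum_congr rfl fun θ _ => ?_
    by_cases h : ∃ χ, f χ = θ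
    · rw [if_pos h, (ha θ).1 h]
      norm_num
    · have h5 := hBoff θ h z' hz'K hz'1
      rw [hz'] at h5
      rw [if_neg h, h5, (ha θ).2 h, map_intCast (starRingEnd ℂ)]
      push_cast
      ring
  rw [h1, h4] at hzz
  have hsq : S = e - t * n * n + 2 * s * n := by
    have h5 : (S : ℂ) = ((e - t * n * n + 2 * s * n : ℤ) : ℂ) := by
      push_cast
      rw [← hn, ← hs]
      linear_combination hzz
    exact_mod_cast h5
  have htriv_a : ∀ θ : IrrCharacter G, (θ : G → ℂ) = (fun _ => 1) → a θ = 1 := by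
    intro θ hθ
    have hnot : ¬ ∃ χ, f χ = θ := by
      rintro ⟨χ, rfl⟩
      exact htriv χ hθ
    have h5 := hBoff θ hnot z' hz'K hz'1
    have h6 : (1 : ℂ) = (a θ : ℂ) := by
      rw [← (ha θ).2 hnot, ← h5, hθ]
    exact_mod_cast h6.symm
  obtain ⟨triv, htrivdef⟩ : ∃ o : IrrCharacter G, (o : G → ℂ) = fun _ => 1 :=
    ⟨⟨_, Helper2.isIrrCharacter_one_fun⟩, rfl⟩
  have hS1 : 1 ≤ S := by
    rw [hS]
    have h5 : (a triv) ^ 2 ≤ ∑ θ : IrrCharacter G, (a θ) ^ 2 :=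
      Finset.single_le_sum (f := fun θ => (a θ) ^ 2) (fun θ _ => sq_nonneg (a θ))
        (Finset.mem_univ triv)
    rw [htriv_a triv htrivdef] at h5
    linarith
  have hn0 : n = 0 := by
    by_contra hne
    have ht' : ((e : ℤ) + 2) ≤ (t : ℤ) := by exact_mod_cast ht2
    have hnn : n ≤ n * n ∧ -n ≤ n * n := by
      rcases lt_or_gt_of_ne hne with h | h
      · constructor <;> nlinarith
      · constructor <;> nlinarith
    have hn2 : 1 ≤ n * n := by
      rcases lt_or_gt_of_ne hne with h | h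
      · nlinarith
      · nlinarith
    have hsn : 2 * s * n ≤ 2 * (n * n) := by
      rcases hs1 with h | h
      · rw [h]
        linarith [hnn.1]
      · rw [h]
        linarith [hnn.2]
    have h6 : ((e : ℤ) + 2) * (n * n) ≤ (t : ℤ) * (n * n) :=
      mul_le_mul_of_nonneg_right ht' (by linarith)
    have h7 : (e : ℤ) ≤ (e : ℤ) * (n * n) :=
      le_mul_of_one_le_right (Int.natCast_nonneg e) hn2
    nlinarith
  have hSe : S = e := by
    rw [hsq, hn0]
    ring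
  have hc0 : c = 0 := by
    rw [hn, hn0]
    norm_num
  -- second orthogonality at (z, 1)
  have hz1o := Helper2.second_orthogonality (G := G) z 1
  rw [if_neg (fun h => hz1 (isConj_one_left.mp h)), exc_sum_split f hf (fun θ : IrrCharacter G =>
    (θ : G → ℂ) z * (starRingEnd ℂ) ((θ : G → ℂ) 1))] at hz1o
  obtain ⟨d, hd⟩ : ∃ d : ℕ, d = charDegree (f χ₀ : G → ℂ) := ⟨_, rfl⟩
  have hdeg1 : ∀ θ : IrrCharacter G,
      (starRingEnd ℂ) ((θ : G → ℂ) 1) = (charDegree (θ : G → ℂ) : ℂ) := by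
    intro θ
    rw [Helper24.charDegree_spec (Helper24.isCharacter_of_irr θ.2)]
    exact Complex.conj_natCast _
  have hfd : ∀ χ : {ψ // rel ψ}, charDegree (f χ : G → ℂ) = d := by
    intro χ
    have h1 := congrFun (hcoh χ χ₀) 1
    rw [Helper10.indFun_one] at h1
    simp only [Pi.sub_apply, Pi.smul_apply, smul_eq_mul] at h1
    rw [hdeg χ, hdeg χ₀, sub_self, mul_zero,
      Helper24.charDegree_spec (Helper24.isCharacter_of_irr (f χ).2),
      Helper24.charDegree_spec (Helper24.isCharacter_of_irr (f χ₀).2), ← hd] at h1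
    have h2 : ((charDegree (f χ : G → ℂ) : ℂ)) - d = 0 := by
      rcases mul_eq_zero.mp h1.symm with h | h
      · exact absurd h hε0
      · exact h
    have h3 : (charDegree (f χ : G → ℂ) : ℂ) = d := sub_eq_zero.mp h2
    exact_mod_cast h3
  have h7 : ∑ χ : {ψ // rel ψ}, (f χ : G → ℂ) z * (starRingEnd ℂ) ((f χ : G → ℂ) 1)
      = - ε * d := by
    have h8 : ∀ χ : {ψ // rel ψ}, (f χ : G → ℂ) z * (starRingEnd ℂ) ((f χ : G → ℂ) 1)
        = ε * d * (χ.1 : ↥N → ℂ) z' := by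
      intro χ
      have h3 := hBon' χ z' hz'K hz'1
      rw [hz'] at h3
      rw [h3, hdeg1, hfd χ, hc0]
      ring
    rw [Finset.sum_congr rfl (fun χ _ => h8 χ), ← Finset.mul_sum, hs1'.1]
    ring
  have h9 : ∑ θ : IrrCharacter G, (if ∃ χ, f χ = θ then 0 else
      (θ : G → ℂ) z * (starRingEnd ℂ) ((θ : G → ℂ) 1)) = (T : ℂ) := by
    rw [hT, Int.cast_sum]
    refine Finset.sum_congr rfl fun θ _ => ?_
    by_cases h : ∃ χ, f χ = θ
    · rw [if_pos h, (ha θ).1 h]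
      norm_num
    · have h5 := hBoff θ h z' hz'K hz'1
      rw [hz'] at h5
      rw [if_neg h, h5, (ha θ).2 h, hdeg1]
      push_cast
      ring
  rw [h7, h9] at hz1o
  have hTd : T = s * d := by
    have h5 : (T : ℂ) = ((s * d : ℤ) : ℂ) := by
      push_cast
      rw [← hs]
      linear_combination hz1o
    exact_mod_cast h5
  have hcong : ∀ θ : IrrCharacter G, a θ ≠ 0 →
      (Nat.card K : ℤ) ∣ (charDegree (θ : G → ℂ) : ℤ) - a θ := by
    intro θ haθ
    have hnot : ¬ ∃ χ, f χ = θ := fun h => haθ ((ha θ).1 h)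
    have hchar : IsCharacter ↥K (fun k : ↥K => (θ : G → ℂ) k) :=
      Helper24.isCharacter_restrict K (Helper24.isCharacter_of_irr θ.2)
    obtain ⟨m, hm⟩ := Helper10.classInner_char_irr hchar
      (Helper2.isIrrCharacter_one_fun (G := ↥K))
    unfold classInner at hm
    have hsumK : ∑ g : ↥K, (fun k : ↥K => (θ : G → ℂ) k) g *
        (starRingEnd ℂ) ((fun _ : ↥K => (1 : ℂ)) g)
        = (charDegree (θ : G → ℂ) : ℂ) + ((Nat.card K : ℂ) - 1) * (a θ : ℂ) := by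
      rw [← Finset.add_sum_erase Finset.univ _ (Finset.mem_univ (1 : ↥K))]
      have h1 : ∀ x ∈ (Finset.univ : Finset ↥K).erase 1,
          (fun k : ↥K => (θ : G → ℂ) k) x * (starRingEnd ℂ) ((fun _ : ↥K => (1 : ℂ)) x)
          = (a θ : ℂ) := by
        intro x hx
        have hx1 : x ≠ 1 := Finset.ne_of_mem_erase hx
        have h2 := hBoff θ hnot ⟨x, hKN x.2⟩ x.2
          (fun h' => hx1 (Subtype.ext (congrArg (Subtype.val : ↥N → G) h')))
        show (θ : G → ℂ) (x : G) * (starRingEnd ℂ) (1 : ℂ) = _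
        rw [map_one, mul_one, ← (ha θ).2 hnot]
        exact h2
      rw [Finset.sum_congr rfl h1, Finset.sum_const,
        Finset.card_erase_of_mem (Finset.mem_univ _), Finset.card_univ, nsmul_eq_mul,
        Nat.cast_sub Fintype.card_pos, ← Nat.card_eq_fintype_card]
      show (θ : G → ℂ) ((1 : ↥K) : G) * (starRingEnd ℂ) (1 : ℂ) + _ = _
      rw [map_one, mul_one, Subgroup.coe_one,
        Helper24.charDegree_spec (Helper24.isCharacter_of_irr θ.2)]
      push_cast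
      ring
    rw [hsumK] at hm
    have hK0 : (Nat.card K : ℂ) ≠ 0 := by exact_mod_cast Nat.card_pos.ne'
    have h3 : ((charDegree (θ : G → ℂ) : ℤ) - a θ : ℤ) = (Nat.card K : ℤ) * ((m : ℤ) - a θ) := by
      have h4 : (((charDegree (θ : G → ℂ) : ℤ) - a θ : ℤ) : ℂ)
          = (((Nat.card K : ℤ) * ((m : ℤ) - a θ) : ℤ) : ℂ) := by
        push_cast
        field_simp at hm
        linear_combination hm
      exact_mod_cast h4
    exact ⟨_, h3⟩
  refine ⟨a, d, ?_, htriv_a, ?_, hcong, ?_⟩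
  · rw [hd]
    exact Helper2.irr_degree_dvd_card (f χ₀).2
  · rw [← hS, hSe]
  · rw [← hT, hTd]
    rcases hs1 with h | h
    · left
      rw [h]
      ring
    · right
      rw [h]
      ring

end ExcCore

/-- The exceptional character theorem for a self-centralizing abelian TI subgroup `K` whose
normalizer has order `|K| e` with `(e + 2) e ≤ |K| - 1`. -/
theorem exc_general {G : Type*} [Group G] [Fintype G] [Fintype (IrrCharacter G)]
    (K : Subgroup G)
    (hTI : ∀ g : G, g ∉ Subgroup.normalizer (K : Set G) → ∀ k ∈ K, g * k * g⁻¹ ∈ K → k = 1)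
    (hC : ∀ k ∈ K, k ≠ 1 → Subgroup.centralizer ({k} : Set G) ≤ K)
    (hab : ∀ a ∈ K, ∀ b ∈ K, a * b = b * a)
    (e : ℕ) (he : Nat.card (Subgroup.normalizer (K : Set G)) = Nat.card K * e)
    (he2 : (e + 2) * e ≤ Nat.card K - 1)
    (z : G) (hz : z ∈ K) (hz1 : z ≠ 1) :
    ∃ (a : IrrCharacter G → ℤ) (d : ℕ), d ∣ Nat.card G ∧
      (∀ θ : IrrCharacter G, (θ : G → ℂ) = (fun _ => 1) → a θ = 1) ∧
      ∑ θ : IrrCharacter G, (a θ) ^ 2 = (e : ℤ) ∧
      (∀ θ : IrrCharacter G, a θ ≠ 0 →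
        (Nat.card K : ℤ) ∣ (charDegree (θ : G → ℂ) : ℤ) - a θ) ∧
      (∑ θ : IrrCharacter G, (charDegree (θ : G → ℂ) : ℤ) * a θ = d ∨
       ∑ θ : IrrCharacter G, (charDegree (θ : G → ℂ) : ℤ) * a θ = -d) := by
  classical
  haveI : Fintype ↥(Subgroup.normalizer (K : Set G)) := Fintype.ofFinite _
  haveI := Helper24.finite_irrCharacter (G := ↥(Subgroup.normalizer (K : Set G)))
  haveI : Fintype (IrrCharacter ↥(Subgroup.normalizer (K : Set G))) := Fintype.ofFinite _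
  haveI : Fintype {χ : IrrCharacter ↥(Subgroup.normalizer (K : Set G)) //
      ∃ k : ↥(Subgroup.normalizer (K : Set G)), (k : G) ∈ K ∧
        (χ : ↥(Subgroup.normalizer (K : Set G)) → ℂ) k ≠
          (χ : ↥(Subgroup.normalizer (K : Set G)) → ℂ) 1} := Fintype.ofFinite _
  obtain ⟨ε, f, hε, hf, hcoh⟩ := Helper6.Exc.abel_coh K hTI hC hab
  haveI : (K.subgroupOf (Subgroup.normalizer (K : Set G))).Normal :=
    Subgroup.normal_in_normalizer
  have hcardK : Nat.card ↥(K.subgroupOf (Subgroup.normalizer (K : Set G))) = Nat.card K :=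
    Nat.card_congr (Subgroup.subgroupOfEquivOfLe Subgroup.le_normalizer).toEquiv
  have hmain := excN_main (K.subgroupOf (Subgroup.normalizer (K : Set G)))
    (Helper6.Exc.frob_of_hC K hC)
    (fun a ha b hb => Subtype.ext (hab _ (Subgroup.mem_subgroupOf.mp ha) _
      (Subgroup.mem_subgroupOf.mp hb))) e (by rw [hcardK]; exact he)
    (fun ψ : IrrCharacter ↥(Subgroup.normalizer (K : Set G)) =>
      ∃ k : ↥(Subgroup.normalizer (K : Set G)), (k : G) ∈ K ∧
        (ψ : ↥(Subgroup.normalizer (K : Set G)) → ℂ) k ≠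
          (ψ : ↥(Subgroup.normalizer (K : Set G)) → ℂ) 1) (fun ψ => Iff.rfl)
  obtain ⟨h1, h2, h3⟩ := hmain
  rw [hcardK] at h2
  have hCz : Nat.card (Subgroup.centralizer ({z} : Set G)) = Nat.card K := by
    have h4 : Subgroup.centralizer ({z} : Set G) = K := by
      apply le_antisymm (hC z hz hz1)
      intro k hk
      rw [Subgroup.mem_centralizer_iff]
      intro y hy
      rw [Set.mem_singleton_iff] at hy
      rw [hy]
      exact hab z hz k hk
    rw [h4]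
  exact exc_core (Subgroup.normalizer (K : Set G)) K Subgroup.le_normalizer
    (Helper6.Exc.ti_of_hTI K hTI) _
    (fun χ h => by
      obtain ⟨k, -, hk⟩ := χ.2
      apply hk
      rw [h])
    (fun ψ hψ k hk => by
      by_contra h
      exact hψ ⟨k, hk, h⟩)
    e (fun χ => (h1 χ).1)
    (fun χ g hg => (h1 χ).2 g (fun h => hg (Subgroup.mem_subgroupOf.mp h))) h2
    (fun x hx hx1 => by
      have h5 := h3 x (Subgroup.mem_subgroupOf.mpr hx) hx1
      rw [hcardK] at h5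
      exact h5)
    ε hε f hf hcoh he2 z hz hz1 hCz

/-- The exceptional character theorem for a self-centralizing Sylow subgroup of prime order. -/
theorem exc_sylow_prime {G : Type*} [Group G] [Fintype G] [Fintype (IrrCharacter G)]
    (p : ℕ) [hp : Fact p.Prime] (P : Sylow p G) (hP : Nat.card (P : Subgroup G) = p) (e : ℕ)
    (hN : Nat.card (Subgroup.normalizer ((P : Subgroup G) : Set G)) = p * e)
    (hCP : Nat.card (Subgroup.centralizer ((P : Subgroup G) : Set G)) = p)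
    (he2 : (e + 2) * e ≤ p - 1) :
    ∃ (a : IrrCharacter G → ℤ) (d : ℕ), d ∣ Nat.card G ∧
      (∀ θ : IrrCharacter G, (θ : G → ℂ) = (fun _ => 1) → a θ = 1) ∧
      ∑ θ : IrrCharacter G, (a θ) ^ 2 = (e : ℤ) ∧
      (∀ θ : IrrCharacter G, a θ ≠ 0 → (p : ℤ) ∣ (charDegree (θ : G → ℂ) : ℤ) - a θ) ∧
      (∑ θ : IrrCharacter G, (charDegree (θ : G → ℂ) : ℤ) * a θ = d ∨
       ∑ θ : IrrCharacter G, (charDegree (θ : G → ℂ) : ℤ) * a θ = -d) := by
  classical
  have hcyc : IsCyclic ↥(P : Subgroup G) := isCyclic_of_prime_card hP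
  have hab : ∀ a ∈ (P : Subgroup G), ∀ b ∈ (P : Subgroup G), a * b = b * a := by
    intro a ha b hb
    obtain ⟨g, hg⟩ := IsCyclic.exists_generator (α := ↥(P : Subgroup G))
    obtain ⟨i, hi⟩ := Subgroup.mem_zpowers_iff.mp (hg ⟨a, ha⟩)
    obtain ⟨j, hj⟩ := Subgroup.mem_zpowers_iff.mp (hg ⟨b, hb⟩)
    have h1 : (⟨a, ha⟩ : ↥(P : Subgroup G)) * ⟨b, hb⟩ = ⟨b, hb⟩ * ⟨a, ha⟩ := by
      rw [← hi, ← hj]
      exact zpow_mul_comm g i j
    exact congrArg Subtype.val h1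
  have hPC : (P : Subgroup G) ≤ Subgroup.centralizer ((P : Subgroup G) : Set G) := by
    intro x hx
    rw [Subgroup.mem_centralizer_iff]
    intro y hy
    exact hab y hy x hx
  have hCPeq : (P : Subgroup G) = Subgroup.centralizer ((P : Subgroup G) : Set G) :=
    Subgroup.eq_of_le_of_card_ge hPC (by rw [hCP, hP])
  have hzp : ∀ k ∈ (P : Subgroup G), k ≠ 1 → Subgroup.zpowers k = (P : Subgroup G) := by
    intro k hk hk1
    apply Subgroup.eq_of_le_of_card_ge ((Subgroup.zpowers_le).mpr hk)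
    rw [Nat.card_zpowers, hP]
    have h1 : orderOf k ∣ p := by
      rw [← hP]
      exact Subgroup.orderOf_dvd_natCard _ hk
    rcases (Nat.dvd_prime hp.out).mp h1 with h | h
    · exact absurd (orderOf_eq_one_iff.mp h) hk1
    · rw [h]
  have hC : ∀ k ∈ (P : Subgroup G), k ≠ 1 →
      Subgroup.centralizer ({k} : Set G) ≤ (P : Subgroup G) := by
    intro k hk hk1 c hc
    rw [hCPeq, Subgroup.mem_centralizer_iff]
    intro y hy
    have hy' : y ∈ Subgroup.zpowers k := by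
      rw [hzp k hk hk1]
      exact hy
    obtain ⟨i, rfl⟩ := Subgroup.mem_zpowers_iff.mp hy'
    rw [Subgroup.mem_centralizer_iff] at hc
    have h1 : Commute k c := hc k rfl
    exact (h1.zpow_left i).eq
  have hTI : ∀ g : G, g ∉ Subgroup.normalizer ((P : Subgroup G) : Set G) →
      ∀ k ∈ (P : Subgroup G), g * k * g⁻¹ ∈ (P : Subgroup G) → k = 1 := by
    intro g hg k hk hgk
    by_contra hk1
    apply hg
    have hgk1 : g * k * g⁻¹ ≠ 1 := by
      intro h
      apply hk1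
      have h2 : k = g⁻¹ * (g * k * g⁻¹) * g := by group
      rw [h2, h]
      group
    rw [Subgroup.mem_normalizer_iff]
    intro h
    constructor
    · intro hh
      have hh' : h ∈ Subgroup.zpowers k := by
        rw [hzp k hk hk1]
        exact hh
      obtain ⟨i, rfl⟩ := Subgroup.mem_zpowers_iff.mp hh'
      have h2 : g * k ^ i * g⁻¹ = (g * k * g⁻¹) ^ i := by
        rw [conj_zpow]
      rw [h2]
      exact Subgroup.zpow_mem _ hgk i
    · intro hh
      have hh' : g * h * g⁻¹ ∈ Subgroup.zpowers (g * k * g⁻¹) := by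
        rw [hzp _ hgk hgk1]
        exact hh
      obtain ⟨i, hi⟩ := Subgroup.mem_zpowers_iff.mp hh'
      rw [conj_zpow] at hi
      have h2 : h = k ^ i := by
        have h3 : h = g⁻¹ * (g * h * g⁻¹) * g := by group
        rw [h3, ← hi]
        group
      rw [h2]
      exact Subgroup.zpow_mem _ hk i
  have hne : (P : Subgroup G) ≠ ⊥ := by
    intro h
    rw [h, Subgroup.card_bot] at hP
    exact hp.out.one_lt.ne hP
  obtain ⟨z, hz1⟩ := (Subgroup.ne_bot_iff_exists_ne_one).mp hne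
  have hres := exc_general (P : Subgroup G) hTI hC hab e (by rw [hP]; exact hN)
    (by rw [hP]; exact he2) (z : G) z.2 (fun h => hz1 (Subtype.ext h))
  rw [hP] at hres
  exact hres

end Cfsg.Agent.Helper13
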