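import Mathlib

set_option autoImplicit false

namespace Cfsg.Agent.Helper13

open Matrix

theorem gl52_vadd_self {n : ℕ} (v : Fin n → ZMod 2) : v + v = 0 := by
  funext i
  exact CharTwo.add_self_eq_zero (v i)

theorem gl52_fix_pow {n : ℕ} (B : Matrix (Fin n) (Fin n) (ZMod 2)) (v : Fin n → ZMod 2)
    (h : B *ᵥ v = v) (k : ℕ) : (B ^ k) *ᵥ v = v := by
  induction k with
  | zero => rw [pow_zero, Matrix.one_mulVec]
  | succ k ih => rw [pow_succ, ← Matrix.mulVec_mulVec, h, ih]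

/-- No element of order `7` or `31` of `GL₅(2)` is conjugate to its inverse (matrix form). -/
theorem gl52_no_real (p : ℕ) (hp : p = 7 ∨ p = 31) (A T Ti : Matrix (Fin 5) (Fin 5) (ZMod 2))
    (hA : A ^ p = 1) (hA1 : A ≠ 1) (hT : Ti * T = 1) (hTA : T * A = A ^ (p - 1) * T) : False := by
  classical
  have hpp : p.Prime := by rcases hp with rfl | rfl <;> norm_num
  haveI : Fact p.Prime := ⟨hpp⟩
  have hp2 : 2 ≤ p := hpp.two_le
  obtain ⟨B, hB⟩ : ∃ B : Matrix (Fin 5) (Fin 5) (ZMod 2), B = A ^ (p - 1) := ⟨_, rfl⟩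
  have hAB : A * B = 1 := by rw [hB, ← pow_succ', Nat.sub_add_cancel (by omega), hA]
  have hBA : B * A = 1 := by rw [hB, ← pow_succ, Nat.sub_add_cancel (by omega), hA]
  have hcomm : Commute A B := by rw [hB]; exact (Commute.refl A).pow_right _
  have hTA' : T * A = B * T := by rw [hB]; exact hTA
  have hBAk : ∀ k : ℕ, B ^ k * A ^ k = 1 := by
    intro k
    rw [← hcomm.symm.mul_pow, hBA, one_pow]
  have hABk : ∀ k : ℕ, A ^ k * B ^ k = 1 := by
    intro k
    rw [← hcomm.mul_pow, hAB, one_pow]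
  have hfix : ∀ (j : ℕ), Nat.Coprime j p → ∀ v : Fin 5 → ZMod 2, (A ^ j) *ᵥ v = v → A *ᵥ v = v := by
    intro j hj v hv
    obtain ⟨m, -, hm⟩ := Nat.exists_mul_mod_eq_one_of_coprime hj (by omega)
    have h1 : A ^ (j * m) = A := by
      have h2 : j * m = p * (j * m / p) + 1 := by
        have := Nat.div_add_mod (j * m) p
        omega
      rw [h2, pow_succ, pow_mul, hA, one_pow, one_mul]
    have h3 := gl52_fix_pow (A ^ j) v hv m
    rw [← pow_mul, h1] at h3
    exact h3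
  obtain ⟨L, hL⟩ : ∃ L : (Fin 5 → ZMod 2) →ₗ[ZMod 2] (Fin 5 → ZMod 2), L = (A + 1).mulVecLin :=
    ⟨_, rfl⟩
  have hLv : ∀ v, L v = A *ᵥ v + v := by
    intro v
    rw [hL, Matrix.mulVecLin_apply, Matrix.add_mulVec, Matrix.one_mulVec]
  have hker : ∀ v, v ∈ LinearMap.ker L ↔ A *ᵥ v = v := by
    intro v
    rw [LinearMap.mem_ker, hLv]
    constructor
    · intro h
      have h1 : A *ᵥ v = A *ᵥ v + (v + v) := by rw [gl52_vadd_self, add_zero]
      rw [h1, ← add_assoc, h, zero_add]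
    · intro h
      rw [h]
      exact gl52_vadd_self v
  have hWmem : ∀ w, w ∈ LinearMap.range L ↔ ∃ v, A *ᵥ v + v = w := by
    intro w
    rw [LinearMap.mem_range]
    constructor
    · rintro ⟨v, hv⟩
      exact ⟨v, by rw [← hLv]; exact hv⟩
    · rintro ⟨v, hv⟩
      exact ⟨v, by rw [hLv]; exact hv⟩
  have hrk := LinearMap.finrank_range_add_finrank_ker L
  have hV : Module.finrank (ZMod 2) (Fin 5 → ZMod 2) = 5 := by simp
  rw [hV] at hrk
  have hcK : Nat.card (LinearMap.ker L) = 2 ^ Module.finrank (ZMod 2) (LinearMap.ker L) := by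
    rw [Module.natCard_eq_pow_finrank (K := ZMod 2), Nat.card_zmod]
  have hcR : Nat.card (LinearMap.range L) = 2 ^ Module.finrank (ZMod 2) (LinearMap.range L) := by
    rw [Module.natCard_eq_pow_finrank (K := ZMod 2), Nat.card_zmod]
  -- fixed point congruence
  obtain ⟨f, hf⟩ : ∃ f : Function.End (Fin 5 → ZMod 2), f = fun v => A *ᵥ v := ⟨_, rfl⟩
  have hfpow : ∀ k : ℕ, ∀ v, (f ^ k) v = (A ^ k) *ᵥ v := by
    intro k
    induction k with
    | zero =>
      intro v
      rw [pow_zero, pow_zero, Matrix.one_mulVec]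
      rfl
    | succ k ih =>
      intro v
      rw [pow_succ, pow_succ]
      show (f ^ k) (f v) = _
      rw [ih, hf, Matrix.mulVec_mulVec]
  have hfp : f ^ p ^ 1 = 1 := by
    rw [pow_one]
    funext v
    rw [hfpow, hA, Matrix.one_mulVec]
    rfl
  have hmod := Equiv.Perm.card_fixedPoints_modEq (f := f) (p := p) (n := 1) hfp
  have hcV : Nat.card (Fin 5 → ZMod 2) = 32 := by
    rw [Nat.card_eq_fintype_card, Fintype.card_fun, ZMod.card, Fintype.card_fin]
    norm_num
  have hfixc : Nat.card (Function.fixedPoints f) = Nat.card (LinearMap.ker L) := by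
    apply Nat.card_congr
    apply Equiv.subtypeEquivRight
    intro v
    rw [hker]
    show f v = v ↔ _
    rw [hf]
  rw [Fintype.card_eq_nat_card, Fintype.card_eq_nat_card, hcV, hfixc, hcK] at hmod
  -- the kernel is not everything
  have hk5 : Module.finrank (ZMod 2) (LinearMap.ker L) ≠ 5 := by
    intro h5
    have htop : LinearMap.ker L = ⊤ := by
      apply Submodule.eq_top_of_finrank_eq
      rw [h5, hV]
    apply hA1
    have h1 : ∀ v : Fin 5 → ZMod 2, A *ᵥ v = v := by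
      intro v
      rw [← hker, htop]
      exact Submodule.mem_top
    ext i j
    have h2 := congrFun (h1 (Pi.single j 1)) i
    rw [Matrix.mulVec_single_one] at h2
    rw [Matrix.one_apply]
    rw [Pi.single_apply] at h2
    exact h2
  have hcardW : Nat.card (LinearMap.range L) = p + 1 := by
    rw [hcR]
    obtain ⟨k, hk⟩ : ∃ k, k = Module.finrank (ZMod 2) (LinearMap.ker L) := ⟨_, rfl⟩
    obtain ⟨r, hr⟩ : ∃ r, r = Module.finrank (ZMod 2) (LinearMap.range L) := ⟨_, rfl⟩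
    rw [← hk] at hmod hk5
    rw [← hk, ← hr] at hrk
    rw [← hr]
    have hk4 : k ≤ 4 := by omega
    rcases hp with rfl | rfl
    · interval_cases k
      · exact absurd hmod (by decide)
      · exact absurd hmod (by decide)
      · have : r = 3 := by omega
        rw [this]
        norm_num
      · exact absurd hmod (by decide)
      · exact absurd hmod (by decide)
    · interval_cases k
      · have : r = 5 := by omega
        rw [this]
        norm_num
      · exact absurd hmod (by decide)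
      · exact absurd hmod (by decide)
      · exact absurd hmod (by decide)
      · exact absurd hmod (by decide)
  -- W ∩ Fix = 0
  have hc2 : Nat.Coprime 2 p := by rcases hp with rfl | rfl <;> norm_num
  have hc3 : Nat.Coprime 3 p := by rcases hp with rfl | rfl <;> norm_num
  have hWF : ∀ w, w ∈ LinearMap.range L → A *ᵥ w = w → w = 0 := by
    intro w hw hAw
    obtain ⟨v, rfl⟩ := (hWmem w).mp hw
    have h1 : (A ^ 2) *ᵥ v = v := by
      rw [Matrix.mulVec_add, Matrix.mulVec_mulVec, ← sq, add_comm] at hAw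
      exact add_left_cancel hAw
    have h2 := hfix 2 hc2 v h1
    rw [h2]
    exact gl52_vadd_self v
  have hWpow : ∀ (k : ℕ) w, w ∈ LinearMap.range L → (A ^ k) *ᵥ w ∈ LinearMap.range L := by
    intro k w hw
    obtain ⟨v, rfl⟩ := (hWmem w).mp hw
    rw [hWmem]
    refine ⟨(A ^ k) *ᵥ v, ?_⟩
    rw [Matrix.mulVec_mulVec, Matrix.mulVec_add, Matrix.mulVec_mulVec, ← pow_succ', ← pow_succ]
  have hpowinj : ∀ (k : ℕ) w, (A ^ k) *ᵥ w = 0 → w = 0 := by
    intro k w h
    have h1 : (B ^ k) *ᵥ ((A ^ k) *ᵥ w) = w := by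
      rw [Matrix.mulVec_mulVec, hBAk, Matrix.one_mulVec]
    rw [h, Matrix.mulVec_zero] at h1
    exact h1.symm
  -- a nonzero vector of W
  have hrpos : 0 < Module.finrank (ZMod 2) (LinearMap.range L) := by
    by_contra h0
    have h00 : Module.finrank (ZMod 2) (LinearMap.range L) = 0 := by omega
    rw [hcR, h00] at hcardW
    omega
  obtain ⟨x0, hx0⟩ := Module.finrank_pos_iff_exists_ne_zero.mp hrpos
  obtain ⟨w₀, hw₀⟩ : ∃ w₀ : Fin 5 → ZMod 2, w₀ = x0.1 := ⟨_, rfl⟩
  have hw₀W : w₀ ∈ LinearMap.range L := by rw [hw₀]; exact x0.2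
  have hw₀0 : w₀ ≠ 0 := by
    rw [hw₀]
    intro h
    exact hx0 (Subtype.ext h)
  have hAw₀ : A *ᵥ w₀ ≠ w₀ := fun h => hw₀0 (hWF w₀ hw₀W h)
  have horb : ∀ i j : ℕ, i ≤ j → j < p → (A ^ i) *ᵥ w₀ = (A ^ j) *ᵥ w₀ → i = j := by
    intro i j hij hjp h
    by_contra hne
    have hd : j = i + (j - i) := by omega
    rw [hd, pow_add, ← Matrix.mulVec_mulVec] at h
    have h1 : (B ^ i) *ᵥ ((A ^ i) *ᵥ w₀) = (B ^ i) *ᵥ ((A ^ i) *ᵥ ((A ^ (j - i)) *ᵥ w₀)) := by
      rw [← h]
    rw [Matrix.mulVec_mulVec, Matrix.mulVec_mulVec, hBAk, Matrix.one_mulVec, Matrix.one_mulVec] at h1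
    have hcop : Nat.Coprime (j - i) p := by
      apply Nat.Coprime.symm
      rw [Nat.Prime.coprime_iff_not_dvd hpp]
      exact Nat.not_dvd_of_pos_of_lt (by omega) (by omega)
    exact hAw₀ (hfix (j - i) hcop w₀ h1.symm)
  obtain ⟨o, ho⟩ : ∃ o : Option (Fin p) → ↥(LinearMap.range L),
      o = fun x => x.elim 0 (fun i => ⟨(A ^ (i : ℕ)) *ᵥ w₀, hWpow i w₀ hw₀W⟩) := ⟨_, rfl⟩
  have hoinj : Function.Injective o := by
    intro x y hxy
    rw [ho] at hxy
    cases x with
    | none =>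
      cases y with
      | none => rfl
      | some j =>
        exfalso
        have h1 := congrArg Subtype.val hxy
        simp only [Option.elim] at h1
        exact hw₀0 (hpowinj j w₀ h1.symm)
    | some i =>
      cases y with
      | none =>
        exfalso
        have h1 := congrArg Subtype.val hxy
        simp only [Option.elim] at h1
        exact hw₀0 (hpowinj i w₀ h1)
      | some j =>
        have h1 := congrArg Subtype.val hxy
        simp only [Option.elim] at h1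
        congr 1
        apply Fin.ext
        rcases Nat.le_total (i : ℕ) (j : ℕ) with hij | hij
        · exact horb i j hij j.2 h1
        · exact (horb j i hij i.2 h1.symm).symm
  have hobij : Function.Bijective o := by
    apply hoinj.bijective_of_nat_card_le
    rw [hcardW, Nat.card_eq_fintype_card, Fintype.card_option, Fintype.card_fin]
  have hsurj : ∀ w, w ∈ LinearMap.range L → w ≠ 0 → ∃ i : ℕ, w = (A ^ i) *ᵥ w₀ := by
    intro w hw hw0
    obtain ⟨x, hx⟩ := hobij.2 ⟨w, hw⟩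
    rw [ho] at hx
    cases x with
    | none =>
      exfalso
      have h1 := congrArg Subtype.val hx
      simp only [Option.elim] at h1
      exact hw0 h1.symm
    | some i =>
      have h1 := congrArg Subtype.val hx
      simp only [Option.elim] at h1
      exact ⟨i, h1.symm⟩
  -- `T` preserves `W`
  have hTW : ∀ w, w ∈ LinearMap.range L → T *ᵥ w ∈ LinearMap.range L := by
    intro w hw
    obtain ⟨v, rfl⟩ := (hWmem w).mp hw
    rw [hWmem]
    refine ⟨B *ᵥ (T *ᵥ v), ?_⟩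
    rw [Matrix.mulVec_mulVec _ A, hAB, Matrix.one_mulVec, Matrix.mulVec_add, Matrix.mulVec_mulVec _ T,
      hTA', ← Matrix.mulVec_mulVec, add_comm]
  have hTinj : ∀ w, T *ᵥ w = 0 → w = 0 := by
    intro w h
    have h1 : Ti *ᵥ (T *ᵥ w) = w := by rw [Matrix.mulVec_mulVec, hT, Matrix.one_mulVec]
    rw [h, Matrix.mulVec_zero] at h1
    exact h1.symm
  obtain ⟨j, hTj⟩ := hsurj (T *ᵥ w₀) (hTW w₀ hw₀W) (fun h => hw₀0 (hTinj w₀ h))
  obtain ⟨s, hs⟩ : ∃ s : Matrix (Fin 5) (Fin 5) (ZMod 2), s = B ^ j * T := ⟨_, rfl⟩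
  have hsw : s *ᵥ w₀ = w₀ := by
    rw [hs, ← Matrix.mulVec_mulVec, hTj, Matrix.mulVec_mulVec, hBAk, Matrix.one_mulVec]
  have hsA : s * A = B * s := by
    rw [hs, mul_assoc, hTA', ← mul_assoc, ← mul_assoc, ← pow_succ, ← pow_succ']
  have hsAk : ∀ k : ℕ, s * A ^ k = B ^ k * s := by
    intro k
    induction k with
    | zero => rw [pow_zero, pow_zero, mul_one, one_mul]
    | succ k ih => rw [pow_succ, ← mul_assoc, ih, mul_assoc, hsA, ← mul_assoc, ← pow_succ]
  have hu0 : A *ᵥ w₀ + w₀ ≠ 0 := by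
    intro h
    apply hAw₀
    rw [← hker, LinearMap.mem_ker, hLv]
    exact h
  obtain ⟨k, hk⟩ := hsurj (A *ᵥ w₀ + w₀) ((hWmem _).mpr ⟨w₀, rfl⟩) hu0
  have h1 : B *ᵥ w₀ + w₀ = (B ^ k) *ᵥ w₀ := by
    have h := congrArg (fun v => s *ᵥ v) hk
    rw [Matrix.mulVec_add, Matrix.mulVec_mulVec, Matrix.mulVec_mulVec, hsA, hsAk,
      ← Matrix.mulVec_mulVec, ← Matrix.mulVec_mulVec, hsw] at h
    exact h
  have h2 : (w₀ + B *ᵥ w₀) + (A *ᵥ w₀ + w₀) = w₀ := by
    have h := congrArg (fun v => (A ^ k) *ᵥ v) h1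
    rw [Matrix.mulVec_add, Matrix.mulVec_mulVec _ (A ^ k) (B ^ k), hABk, Matrix.one_mulVec,
      Matrix.mulVec_mulVec _ (A ^ k) B, (hcomm.pow_left k).eq, ← Matrix.mulVec_mulVec, ← hk,
      Matrix.mulVec_add, Matrix.mulVec_mulVec, hBA, Matrix.one_mulVec] at h
    exact h
  have h3 : (A *ᵥ w₀ + w₀) + ((A ^ 2) *ᵥ w₀ + A *ᵥ w₀) = A *ᵥ w₀ := by
    have h := congrArg (fun v => A *ᵥ v) h2
    rw [Matrix.mulVec_add, Matrix.mulVec_add, Matrix.mulVec_add, Matrix.mulVec_mulVec _ A B, hAB,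
      Matrix.one_mulVec, Matrix.mulVec_mulVec, ← sq] at h
    exact h
  have h4 : (A ^ 2) *ᵥ w₀ = A *ᵥ w₀ + w₀ := by
    linear_combination h3 - gl52_vadd_self (A *ᵥ w₀) - gl52_vadd_self w₀
  have h5 : (A ^ 3) *ᵥ w₀ = w₀ := by
    have h6 : (A ^ 3) *ᵥ w₀ = A *ᵥ ((A ^ 2) *ᵥ w₀) := by
      rw [Matrix.mulVec_mulVec, ← pow_succ']
    rw [h6, h4, Matrix.mulVec_add, Matrix.mulVec_mulVec, ← sq, h4]
    linear_combination gl52_vadd_self (A *ᵥ w₀)
  exact hAw₀ (hfix 3 hc3 w₀ h5)

end Cfsg.Agent.Helper13
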