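import Mathlib
import Cfsg.Agent.Helper13.GL52Real

set_option autoImplicit false

namespace Cfsg.Agent.Helper13

theorem gl52_card : Nat.card (GL (Fin 5) (ZMod 2)) = 9999360 := by
  rw [Matrix.card_GL_field, Fin.prod_univ_five, ZMod.card]
  norm_num

theorem gl52_no_real_grp (p : ℕ) (hp : p = 7 ∨ p = 31) (g t : GL (Fin 5) (ZMod 2))
    (hg : orderOf g = p) (ht : t * g * t⁻¹ = g⁻¹) : False := by
  have hp2 : 2 ≤ p := by rcases hp with rfl | rfl <;> norm_num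
  have hgp : g ^ p = 1 := by rw [← hg]; exact pow_orderOf_eq_one g
  have hg1 : g ≠ 1 := by
    intro h
    rw [h, orderOf_one] at hg
    omega
  have hginv : g⁻¹ = g ^ (p - 1) :=
    inv_eq_of_mul_eq_one_right (by rw [← pow_succ', Nat.sub_add_cancel (by omega), hgp])
  apply gl52_no_real p hp (g : Matrix (Fin 5) (Fin 5) (ZMod 2)) (t : Matrix (Fin 5) (Fin 5) (ZMod 2))
    ((t⁻¹ : GL (Fin 5) (ZMod 2)) : Matrix (Fin 5) (Fin 5) (ZMod 2))
  · rw [← Units.val_pow_eq_pow_val, hgp, Units.val_one]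
  · intro h
    exact hg1 (Units.ext h)
  · rw [← Units.val_mul, inv_mul_cancel, Units.val_one]
  · rw [← Units.val_pow_eq_pow_val, ← Units.val_mul, ← Units.val_mul, ← hginv, ← ht]
    congr 1
    group

theorem gl52_subgroup_card (H : Subgroup (GL (Fin 5) (ZMod 2))) : Nat.card ↥H ∣ 9999360 := by
  rw [← gl52_card]
  exact Subgroup.card_subgroup_dvd_card H

theorem gl52_section_card {H : Subgroup (GL (Fin 5) (ZMod 2))} {K : Subgroup ↥H} [K.Normal] :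
    Nat.card (↥H ⧸ K) ∣ 9999360 :=
  dvd_trans (Subgroup.card_quotient_dvd_card K) (gl52_subgroup_card H)

/-- No section of `GL₅(2)` contains an element of order `7` or `31` inverted by another element. -/
theorem gl52_no_dihedral_section (p : ℕ) (hp : p = 7 ∨ p = 31)
    {H : Subgroup (GL (Fin 5) (ZMod 2))} {K : Subgroup ↥H} [K.Normal] (x w : ↥H ⧸ K)
    (hx : orderOf x = p) (hw : w * x * w⁻¹ = x⁻¹) : False := by
  classical
  have hpp : p.Prime := by rcases hp with rfl | rfl <;> norm_num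
  haveI : Fact p.Prime := ⟨hpp⟩
  have hp2 : ¬ p ^ 2 ∣ 9999360 := by rcases hp with rfl | rfl <;> norm_num
  have hcardH : Nat.card ↥H ∣ 9999360 := gl52_subgroup_card H
  obtain ⟨x₀, hx₀⟩ := QuotientGroup.mk_surjective x
  obtain ⟨t₀, ht₀⟩ := QuotientGroup.mk_surjective w
  have hpn : p ∣ orderOf x₀ := by
    rw [← hx, ← hx₀]
    exact orderOf_map_dvd (QuotientGroup.mk' K) x₀
  obtain ⟨c, hc⟩ := hpn
  have hn0 : 0 < orderOf x₀ := orderOf_pos x₀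
  have hc0 : 0 < c := by
    rcases Nat.eq_zero_or_pos c with h | h
    · rw [h, mul_zero] at hc
      omega
    · exact h
  have hcp : Nat.Coprime c p := by
    rw [Nat.coprime_comm, Nat.Prime.coprime_iff_not_dvd hpp]
    intro hpc
    apply hp2
    have h1 : p ^ 2 ∣ orderOf x₀ := by
      rw [hc, sq]
      exact mul_dvd_mul_left p hpc
    exact dvd_trans h1 (dvd_trans (orderOf_dvd_natCard x₀) hcardH)
  obtain ⟨g, hg⟩ : ∃ g : ↥H, g = x₀ ^ c := ⟨_, rfl⟩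
  have hgo : orderOf g = p := by
    rw [hg, orderOf_pow' x₀ hc0.ne', hc, Nat.gcd_eq_right (dvd_mul_left c p)]
    exact Nat.mul_div_cancel _ hc0
  obtain ⟨xg, hxg⟩ : ∃ xg : ↥H ⧸ K, xg = x ^ c := ⟨_, rfl⟩
  have hgx : (QuotientGroup.mk g : ↥H ⧸ K) = xg := by
    rw [hg, hxg, ← hx₀]
    rfl
  have hxgo : orderOf xg = p := by
    rw [hxg, orderOf_pow' x hc0.ne', hx, Nat.Coprime.gcd_eq_one hcp.symm, Nat.div_one]
  have hwxg : w * xg * w⁻¹ = xg⁻¹ := by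
    rw [hxg, ← inv_pow, ← hw, conj_pow]
  have hwxg' : w⁻¹ * xg * w = xg⁻¹ := by
    have h1 : xg = w⁻¹ * xg⁻¹ * w := by
      rw [← hwxg]
      group
    have h2 : xg⁻¹ = (w⁻¹ * xg⁻¹ * w)⁻¹ := by rw [← h1]
    rw [h2]
    group
  -- the preimage of `⟨xg⟩`
  obtain ⟨M, hM⟩ : ∃ M : Subgroup ↥H, M = (Subgroup.zpowers xg).comap (QuotientGroup.mk' K) :=
    ⟨_, rfl⟩
  have hMmem : ∀ a : ↥H, a ∈ M ↔ (QuotientGroup.mk a : ↥H ⧸ K) ∈ Subgroup.zpowers xg := by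
    intro a
    rw [hM, Subgroup.mem_comap]
    rfl
  have hgM : g ∈ M := by
    rw [hMmem, hgx]
    exact Subgroup.mem_zpowers xg
  obtain ⟨y, hy⟩ : ∃ y : ↥H, y = t₀ * g * t₀⁻¹ := ⟨_, rfl⟩
  have hyM : y ∈ M := by
    rw [hMmem, hy]
    have h1 : (QuotientGroup.mk (t₀ * g * t₀⁻¹) : ↥H ⧸ K) = w * xg * w⁻¹ := by
      rw [← hgx, ← ht₀]
      rfl
    rw [h1, hwxg]
    exact inv_mem (Subgroup.mem_zpowers xg)
  have hyo : orderOf y = p := by
    rw [hy, ← hgo]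
    exact (MulAut.conj t₀).orderOf_eq g
  obtain ⟨gM, hgM'⟩ : ∃ gM : ↥M, gM = ⟨g, hgM⟩ := ⟨_, rfl⟩
  obtain ⟨yM, hyM'⟩ : ∃ yM : ↥M, yM = ⟨y, hyM⟩ := ⟨_, rfl⟩
  have hgMo : orderOf gM = p := by
    rw [hgM', Subgroup.orderOf_mk, hgo]
  have hyMo : orderOf yM = p := by
    rw [hyM', Subgroup.orderOf_mk, hyo]
  have hcardM : Nat.card ↥M ∣ 9999360 := dvd_trans (Subgroup.card_subgroup_dvd_card M) hcardH
  have hsyl : ∀ a : ↥M, orderOf a = p → ∃ Q : Sylow p ↥M, (Q : Subgroup ↥M) = Subgroup.zpowers a := by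
    intro a ha
    have hPa : IsPGroup p (Subgroup.zpowers a) :=
      IsPGroup.of_card (n := 1) (by rw [Nat.card_zpowers, ha, pow_one])
    obtain ⟨Q, hQ⟩ := hPa.exists_le_sylow
    refine ⟨Q, ?_⟩
    obtain ⟨k, hk⟩ := (IsPGroup.iff_card (p := p) (G := ↥(Q : Subgroup ↥M))).mp Q.2
    have hk1 : k ≤ 1 := by
      by_contra hk2
      apply hp2
      have h1 : p ^ 2 ∣ p ^ k := pow_dvd_pow p (by omega)
      rw [← hk] at h1
      exact dvd_trans h1 (dvd_trans (Subgroup.card_subgroup_dvd_card (Q : Subgroup ↥M)) hcardM)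
    symm
    apply Subgroup.eq_of_le_of_card_ge hQ
    rw [Nat.card_zpowers, ha, hk]
    calc p ^ k ≤ p ^ 1 := Nat.pow_le_pow_right hpp.pos hk1
      _ = p := pow_one p
  obtain ⟨Q₁, hQ₁⟩ := hsyl gM hgMo
  obtain ⟨Q₂, hQ₂⟩ := hsyl yM hyMo
  obtain ⟨m, hm⟩ := MulAction.exists_smul_eq ↥M Q₂ Q₁
  have h1 : gM ∈ (Q₁ : Subgroup ↥M) := by
    rw [hQ₁]
    exact Subgroup.mem_zpowers gM
  rw [← hm, Sylow.smul_def, Sylow.pointwise_smul_def,
    Subgroup.mem_pointwise_smul_iff_inv_smul_mem, hQ₂] at h1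
  have h2 : m⁻¹ * gM * m ∈ Subgroup.zpowers yM := by
    simpa [MulAut.smul_def, mul_assoc] using h1
  obtain ⟨k, hk⟩ := Subgroup.mem_zpowers_iff.mp h2
  -- back in `H`
  have h3 : (m : ↥H)⁻¹ * g * (m : ↥H) = t₀ * g ^ k * t₀⁻¹ := by
    have h4 := congrArg (Subtype.val : ↥M → ↥H) hk
    rw [hyM', hgM'] at h4
    rw [Subgroup.coe_zpow, Subgroup.coe_mul, Subgroup.coe_mul, Subgroup.coe_inv] at h4
    rw [← h4]
    show y ^ k = _
    rw [hy, conj_zpow]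
  obtain ⟨t, ht⟩ : ∃ t : ↥H, t = t₀⁻¹ * (m : ↥H)⁻¹ := ⟨_, rfl⟩
  have h5 : t * g * t⁻¹ = g ^ k := by
    rw [ht]
    have h6 : g ^ k = t₀⁻¹ * ((m : ↥H)⁻¹ * g * (m : ↥H)) * t₀ := by
      rw [h3]
      group
    rw [h6]
    group
  -- image in the quotient
  have hmz : (QuotientGroup.mk (m : ↥H) : ↥H ⧸ K) ∈ Subgroup.zpowers xg := (hMmem _).mp m.2
  obtain ⟨j, hj⟩ := Subgroup.mem_zpowers_iff.mp hmz
  have h7 : (QuotientGroup.mk (t * g * t⁻¹) : ↥H ⧸ K) = xg⁻¹ := by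
    have h8 : (QuotientGroup.mk (t * g * t⁻¹) : ↥H ⧸ K)
        = w⁻¹ * ((xg ^ j)⁻¹ * xg * xg ^ j) * w := by
      rw [ht, hj, ← hgx, ← ht₀]
      have h9 : t₀⁻¹ * (m : ↥H)⁻¹ * g * (t₀⁻¹ * (m : ↥H)⁻¹)⁻¹
          = t₀⁻¹ * ((m : ↥H)⁻¹ * g * (m : ↥H)) * t₀ := by group
      rw [h9]
      rfl
    rw [h8]
    have h10 : (xg ^ j)⁻¹ * xg * xg ^ j = xg := by
      rw [mul_assoc, ← zpow_one_add, add_comm, zpow_add_one, ← mul_assoc, inv_mul_cancel, one_mul]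
    rw [h10, hwxg']
  have h11 : xg ^ (k + 1) = 1 := by
    have h12 : (QuotientGroup.mk (g ^ k) : ↥H ⧸ K) = xg ^ k := by
      rw [← hgx]
      rfl
    rw [h5, h12] at h7
    rw [zpow_add_one, h7, inv_mul_cancel]
  have h13 : ((p : ℕ) : ℤ) ∣ k + 1 := by
    rw [← hxgo]
    exact orderOf_dvd_iff_zpow_eq_one.mpr h11
  have h14 : g ^ (k + 1) = 1 := by
    rw [← hgo] at h13
    exact orderOf_dvd_iff_zpow_eq_one.mp h13
  have h15 : g ^ k = g⁻¹ := by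
    rw [zpow_add_one] at h14
    exact eq_inv_of_mul_eq_one_left h14
  rw [h15] at h5
  apply gl52_no_real_grp p hp (g : GL (Fin 5) (ZMod 2)) (t : GL (Fin 5) (ZMod 2))
  · rw [Subgroup.orderOf_coe, hgo]
  · have h16 := congrArg (Subtype.val : ↥H → GL (Fin 5) (ZMod 2)) h5
    rw [Subgroup.coe_mul, Subgroup.coe_mul, Subgroup.coe_inv, Subgroup.coe_inv] at h16
    exact h16

theorem gl52_section_card' {H : Subgroup (GL (Fin 5) (ZMod 2))} {K : Subgroup ↥H} [K.Normal]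
    {G' : Type*} [Group G'] (e : ↥H ⧸ K ≃* G') : Nat.card G' ∣ 9999360 := by
  rw [← Nat.card_congr e.toEquiv]
  exact gl52_section_card

theorem gl52_no_dihedral_section' (p : ℕ) (hp : p = 7 ∨ p = 31)
    {H : Subgroup (GL (Fin 5) (ZMod 2))} {K : Subgroup ↥H} [K.Normal]
    {G' : Type*} [Group G'] (e : ↥H ⧸ K ≃* G') (d w : G')
    (hd : orderOf d = p) (hw : w * d * w⁻¹ = d⁻¹) : False := by
  apply gl52_no_dihedral_section p hp (e.symm d) (e.symm w)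
  · rw [MulEquiv.orderOf_eq]
    exact hd
  · rw [← map_inv, ← map_mul, ← map_mul, hw, map_inv]

end Cfsg.Agent.Helper13
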