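import Mathlib
import Cfsg.Prelude.Def_Sz
import Cfsg.Prelude.Def_Classical
import Cfsg.Agent.Helper13.GL52Section
import Cfsg.Agent.Helper22.SzElems
import Cfsg.Agent.Helper2.LinGroups2
import Cfsg.Agent.S2301
import Cfsg.Agent.S0280

set_option autoImplicit false

namespace Cfsg.Agent.Helper13

open Matrix

/-- The diagonal torus of `SL₂`. -/
def bdDiag (F : Type*) [Field F] : Fˣ →* Matrix.SpecialLinearGroup (Fin 2) F where
  toFun u := ⟨!![(u : F), 0; 0, ((u⁻¹ : Fˣ) : F)], by rw [Matrix.det_fin_two_of]; simp⟩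
  map_one' := by
    ext i j
    fin_cases i <;> fin_cases j <;> simp
  map_mul' u v := by
    apply Subtype.ext
    show (!![((u * v : Fˣ) : F), 0; 0, (((u * v)⁻¹ : Fˣ) : F)] : Matrix (Fin 2) (Fin 2) F)
      = !![(u : F), 0; 0, ((u⁻¹ : Fˣ) : F)] * !![(v : F), 0; 0, ((v⁻¹ : Fˣ) : F)]
    rw [Matrix.mul_fin_two]
    simp [mul_comm]

theorem bdDiag_coe {F : Type*} [Field F] (u : Fˣ) :
    ((bdDiag F u : Matrix.SpecialLinearGroup (Fin 2) F) : Matrix (Fin 2) (Fin 2) F)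
      = !![(u : F), 0; 0, ((u⁻¹ : Fˣ) : F)] := rfl

/-- The Weyl element of `SL₂`. -/
def bdW (F : Type*) [Field F] : Matrix.SpecialLinearGroup (Fin 2) F :=
  ⟨!![0, 1; -1, 0], by rw [Matrix.det_fin_two_of]; simp⟩

theorem bdW_conj {F : Type*} [Field F] (u : Fˣ) :
    bdW F * bdDiag F u * (bdW F)⁻¹ = (bdDiag F u)⁻¹ := by
  have h1 : bdW F * bdDiag F u = bdDiag F u⁻¹ * bdW F := by
    apply Subtype.ext
    show (!![0, 1; -1, 0] : Matrix (Fin 2) (Fin 2) F) * !![(u : F), 0; 0, ((u⁻¹ : Fˣ) : F)]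
      = !![((u⁻¹ : Fˣ) : F), 0; 0, (((u⁻¹)⁻¹ : Fˣ) : F)] * !![0, 1; -1, 0]
    rw [Matrix.mul_fin_two, Matrix.mul_fin_two]
    simp
  rw [h1, mul_inv_cancel_right, map_inv]

theorem bd_psl2_dihedral {F : Type*} [Field F] (κ : Fˣ) (hκ : κ ^ 2 ≠ 1) (n : ℕ) (hn : n.Prime)
    (hκn : κ ^ n = 1) :
    ∃ d w : Matrix.ProjectiveSpecialLinearGroup (Fin 2) F, orderOf d = n ∧ w * d * w⁻¹ = d⁻¹ := by
  haveI : Fact n.Prime := ⟨hn⟩
  refine ⟨QuotientGroup.mk (bdDiag F κ), QuotientGroup.mk (bdW F), ?_, ?_⟩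
  · apply orderOf_eq_prime
    · rw [← QuotientGroup.mk_pow, ← map_pow, hκn, map_one]
      rfl
    · intro h
      rw [QuotientGroup.eq_one_iff] at h
      obtain ⟨r, -, hr⟩ := Matrix.SpecialLinearGroup.mem_center_iff.mp h
      have h0 : r = (κ : F) := by
        have := congrFun (congrFun hr 0) 0
        rw [bdDiag_coe] at this
        simpa using this
      have h1 : r = ((κ⁻¹ : Fˣ) : F) := by
        have := congrFun (congrFun hr 1) 1
        rw [bdDiag_coe] at this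
        simpa using this
      have h2 : (κ : F) = ((κ⁻¹ : Fˣ) : F) := h0.symm.trans h1
      apply hκ
      apply Units.ext
      rw [Units.val_pow_eq_pow_val, Units.val_one, sq]
      calc (κ : F) * (κ : F) = (κ : F) * ((κ⁻¹ : Fˣ) : F) := by rw [← h2]
        _ = 1 := Units.mul_inv κ
  · rw [← QuotientGroup.mk_inv, ← QuotientGroup.mk_mul, ← QuotientGroup.mk_mul, bdW_conj,
      QuotientGroup.mk_inv]

open Cfsg.Agent.Helper22 in
/-- A dihedral subgroup `⟨d, w⟩` of the Suzuki group, `d` of the order of a given field unit. -/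
theorem bd_sz_dihedral {F : Type*} [Field F] (e : ℕ) (he0 : e ≠ 0)
    (hθ : ∀ x : F, (x ^ e) ^ e = x ^ 2) (φ : ZMod 2 →+* F) (κ : Fˣ) :
    ∃ d w : ↥(Cfsg.Lie.Sz F e), orderOf d = orderOf κ ∧ w * d * w⁻¹ = d⁻¹ := by
  obtain ⟨L, hL⟩ : ∃ L : Fˣ, L = κ⁻¹ * κ ^ e := ⟨_, rfl⟩
  have hKL : κ * L = κ ^ e := by rw [hL, mul_inv_cancel_left]
  obtain ⟨du, hdu⟩ : ∃ du : Fin 4 → Fˣ, du = ![κ, L, L⁻¹, κ⁻¹] := ⟨_, rfl⟩
  obtain ⟨du', hdu'⟩ : ∃ du' : Fin 4 → Fˣ, du' = ![κ⁻¹, L⁻¹, L, κ] := ⟨_, rfl⟩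
  have hdu0 : du 0 = κ := by rw [hdu]; rfl
  have hdu1 : du 1 = L := by rw [hdu]; rfl
  have hdu2 : du 2 = L⁻¹ := by rw [hdu]; rfl
  have hdu3 : du 3 = κ⁻¹ := by rw [hdu]; rfl
  obtain ⟨d, hd⟩ : ∃ d : Fin 4 → F, d = fun i => ((du i : Fˣ) : F) := ⟨_, rfl⟩
  have htval : (tG du).val = Matrix.diagonal d := by rw [hd]; rfl
  have hd0 : d 0 = (κ : F) := by rw [hd]; show ((du 0 : Fˣ) : F) = κ; rw [hdu0]
  have hd1 : d 1 = (L : F) := by rw [hd]; show ((du 1 : Fˣ) : F) = L; rw [hdu1]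
  have hd2 : d 2 = ((L⁻¹ : Fˣ) : F) := by
    rw [hd]; show ((du 2 : Fˣ) : F) = ((L⁻¹ : Fˣ) : F); rw [hdu2]
  have hd3 : d 3 = ((κ⁻¹ : Fˣ) : F) := by
    rw [hd]; show ((du 3 : Fˣ) : F) = ((κ⁻¹ : Fˣ) : F); rw [hdu3]
  have habF : (κ : F) * (L : F) = (κ : F) ^ e := by
    rw [← Units.val_mul, hKL, Units.val_pow_eq_pow_val]
  obtain ⟨g1, g2, g3⟩ := sz_torus_rel e (κ : F) (L : F) ((κ⁻¹ : Fˣ) : F) ((L⁻¹ : Fˣ) : F)
    (Units.mul_inv κ) (Units.mul_inv L) habF (hθ _)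
  have htSz : tG du ∈ Cfsg.Lie.Sz F e := by
    refine mem_Sz_of e _ (diag_mem_Sp4 _ d htval ?_ ?_) ?_
    · rw [hd0, hd3]; exact Units.mul_inv κ
    · rw [hd1, hd2]; exact Units.mul_inv L
    · rw [htval]
      refine star4_diag d e he0 ?_ ?_ ?_ ?_
      · rw [hd0, hd1]; exact habF
      · rw [hd0, hd2, hd1]; exact g1
      · rw [hd1, hd3, hd2]; exact g2
      · rw [hd2, hd3]; exact g3
  have hwSz : wG φ ∈ Cfsg.Lie.Sz F e := wG_mem_Sz φ e he0
  have hinv : (tG du)⁻¹ = tG du' := by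
    apply inv_eq_of_mul_eq_one_right
    apply Units.ext
    rw [Units.val_mul, tG_val, tG_val, Matrix.diagonal_mul_diagonal, Units.val_one,
      ← Matrix.diagonal_one]
    congr 1
    funext i
    rw [hdu, hdu']
    fin_cases i <;> simp
  have hconj : wG φ * tG du = tG du' * wG φ := by
    apply Units.ext
    rw [Units.val_mul, Units.val_mul, tG_val, tG_val]
    show (wM.map φ) * Matrix.diagonal _ = Matrix.diagonal _ * (wM.map φ)
    ext i j
    rw [Matrix.mul_diagonal, Matrix.diagonal_mul, hdu, hdu']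
    fin_cases i <;> fin_cases j <;> simp [wM]
  have hord : orderOf (tG du) = orderOf κ := by
    rw [orderOf_eq_orderOf_iff]
    intro n
    constructor
    · intro h
      have h1 := congrArg (fun g : GL (Fin 4) F => g.val 0 0) h
      rw [Units.val_pow_eq_pow_val, htval, Matrix.diagonal_pow, Matrix.diagonal_apply_eq,
        Units.val_one, Matrix.one_apply_eq, Pi.pow_apply, hd0] at h1
      apply Units.ext
      rw [Units.val_pow_eq_pow_val, Units.val_one]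
      exact h1
    · intro h
      have hLn : L ^ n = 1 := by
        rw [hL, mul_pow, inv_pow, h, inv_one, one_mul, ← pow_mul, mul_comm, pow_mul, h, one_pow]
      apply tG_pow_eq_one
      refine fin4_forall ?_ ?_ ?_ ?_
      · rw [hdu0]; exact h
      · rw [hdu1]; exact hLn
      · rw [hdu2, inv_pow, hLn, inv_one]
      · rw [hdu3, inv_pow, h, inv_one]
  refine ⟨⟨tG du, htSz⟩, ⟨wG φ, hwSz⟩, ?_, ?_⟩
  · rw [Subgroup.orderOf_mk, hord]
  · apply Subtype.ext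
    show wG φ * tG du * (wG φ)⁻¹ = (tG du)⁻¹
    rw [hconj, mul_inv_cancel_right, hinv]

end Cfsg.Agent.Helper13
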