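import Mathlib
import Cfsg.Agent.Helper6.Kernel
import Cfsg.Agent.Helper2.CharOrtho
import Cfsg.Agent.Helper2.CharLinear
import Cfsg.Agent.Helper2.CharComplete
import Cfsg.Agent.Helper2.ConjClass
import Cfsg.Agent.Helper24.CharBasic

/-!
# Characters nonzero on exactly two conjugacy classes (Gagola)

Let `χ` be an irreducible character whose support is a normal subgroup `N` whose nonidentity
elements form one class. Then `χ` is the only irreducible character not trivial on `N`, the
pair `(G, N)` has the Camina property, and the standard consequences for a Sylow subgroup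
follow.
-/

set_option autoImplicit false

namespace Cfsg.Agent.Helper13.Gagola

open Cfsg
open scoped ComplexConjugate Pointwise commutatorElement

variable {G : Type*} [Group G] [Finite G]

/-- The nonidentity elements of the support form one class. -/
theorem conj_of_card_two (χ : G → ℂ)
    (hχ : Nat.card {C : ConjClasses G // ∃ g ∈ C.carrier, χ g ≠ 0} = 2)
    (h1 : χ 1 ≠ 0) (a b : G) (ha : χ a ≠ 0) (hb : χ b ≠ 0) (ha1 : a ≠ 1) (hb1 : b ≠ 1) :
    IsConj a b := by
  obtain ⟨u, v, huv, huniv⟩ := Nat.card_eq_two_iff.mp hχ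
  have hall : ∀ c : {C : ConjClasses G // ∃ g ∈ C.carrier, χ g ≠ 0}, c = u ∨ c = v := by
    intro c
    have h2 : c ∈ ({u, v} : Set _) := by rw [huniv]; trivial
    simpa using h2
  obtain ⟨c1, hc1⟩ : ∃ c : {C : ConjClasses G // ∃ g ∈ C.carrier, χ g ≠ 0},
      c.1 = ConjClasses.mk 1 := ⟨⟨ConjClasses.mk 1, 1, ConjClasses.mem_carrier_mk, h1⟩, rfl⟩
  obtain ⟨ca, hca⟩ : ∃ c : {C : ConjClasses G // ∃ g ∈ C.carrier, χ g ≠ 0},
      c.1 = ConjClasses.mk a := ⟨⟨ConjClasses.mk a, a, ConjClasses.mem_carrier_mk, ha⟩, rfl⟩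
  obtain ⟨cb, hcb⟩ : ∃ c : {C : ConjClasses G // ∃ g ∈ C.carrier, χ g ≠ 0},
      c.1 = ConjClasses.mk b := ⟨⟨ConjClasses.mk b, b, ConjClasses.mem_carrier_mk, hb⟩, rfl⟩
  have h1a : c1 ≠ ca := by
    intro h
    have h2 : ConjClasses.mk (1 : G) = ConjClasses.mk a := by rw [← hc1, ← hca, h]
    rw [ConjClasses.mk_eq_mk_iff_isConj] at h2
    exact ha1 (isConj_one_right.mp h2)
  have h1b : c1 ≠ cb := by
    intro h
    have h2 : ConjClasses.mk (1 : G) = ConjClasses.mk b := by rw [← hc1, ← hcb, h]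
    rw [ConjClasses.mk_eq_mk_iff_isConj] at h2
    exact hb1 (isConj_one_right.mp h2)
  have hab : ca = cb := by
    rcases hall c1 with h | h <;> rcases hall ca with h' | h' <;> rcases hall cb with h'' | h'' <;>
      first
        | exact h'.trans h''.symm
        | exact absurd (h.trans h'.symm) h1a
        | exact absurd (h.trans h''.symm) h1b
  have h2 : ConjClasses.mk a = ConjClasses.mk b := by rw [← hca, ← hcb, hab]
  exact ConjClasses.mk_eq_mk_iff_isConj.mp h2

/-- A nontrivial subgroup has a nonidentity element. -/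
theorem exists_ne_one (N : Subgroup G) (hN1 : N ≠ ⊥) : ∃ a ∈ N, a ≠ 1 := by
  by_contra hno
  apply hN1
  rw [eq_bot_iff]
  intro g hg
  rw [Subgroup.mem_bot]
  by_contra hg1
  exact hno ⟨g, hg, hg1⟩

/-- If the nonidentity elements of `N` form one class and `G` has more than two elements,
then `N` is proper. -/
theorem ne_top (N : Subgroup G) (hN1 : N ≠ ⊥)
    (hconj : ∀ a b : G, a ∈ N → b ∈ N → a ≠ 1 → b ≠ 1 → IsConj a b) (hG : 2 < Nat.card G) :
    N ≠ ⊤ := by
  classical
  intro htop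
  obtain ⟨a, haN, ha1⟩ := exists_ne_one N hN1
  have hcls : Nat.card G ≤ Nat.card {x : G // IsConj x a} + 1 := by
    rw [← Finite.card_option]
    apply Nat.card_le_card_of_injective (fun g : G =>
      if h : g = 1 then (none : Option {x : G // IsConj x a})
      else some ⟨g, hconj g a (by rw [htop]; trivial) haN h ha1⟩)
    intro g g' hgg
    by_cases h : g = 1 <;> by_cases h' : g' = 1
    · rw [h, h']
    · simp [h, h'] at hgg
    · simp [h, h'] at hgg
    · simp only [dif_neg h, dif_neg h'] at hgg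
      exact congrArg Subtype.val (Option.some.inj hgg)
  have hcc := Helper2.card_conj_mul_card_centralizer a
  have h2 : 2 ≤ Nat.card (Subgroup.centralizer ({a} : Set G)) := by
    have h3 : 1 < Nat.card (Subgroup.centralizer ({a} : Set G)) := by
      rw [Subgroup.one_lt_card_iff_ne_bot]
      intro hbot
      have ha : a ∈ Subgroup.centralizer ({a} : Set G) :=
        Subgroup.mem_centralizer_singleton_iff.mpr rfl
      rw [hbot, Subgroup.mem_bot] at ha
      exact ha1 ha
    omega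
  have h4 := Nat.mul_le_mul_left (Nat.card {x : G // IsConj x a}) h2
  omega

/-- The sum formula for the inner product with a character supported on `N`. -/
theorem sum_formula [Fintype G] (χ : G → ℂ) (hχc : IsClassFunction G χ)
    (N : Subgroup G) (hN : ∀ g : G, g ∈ N ↔ χ g ≠ 0)
    (hconj : ∀ a b : G, a ∈ N → b ∈ N → a ≠ 1 → b ≠ 1 → IsConj a b)
    (a : G) (ha : a ∈ N) (ha1 : a ≠ 1) :
    ∃ m : ℂ, ∀ ψ : G → ℂ, IsClassFunction G ψ →
      ∑ g : G, ψ g * conj (χ g) = ψ 1 * conj (χ 1) + m * (ψ a * conj (χ a)) := by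
  classical
  refine ⟨((Finset.univ.filter (fun g : G => g ∈ N ∧ g ≠ 1)).card : ℂ), ?_⟩
  intro ψ hψc
  have hval : ∀ (f : G → ℂ), IsClassFunction G f → ∀ g : G, g ∈ N → g ≠ 1 → f g = f a := by
    intro f hf g hg hg1
    obtain ⟨c, hc⟩ := isConj_iff.mp (hconj a g ha hg ha1 hg1)
    rw [← hc]; exact hf a c
  have h1 : ∀ g : G, ψ g * conj (χ g) = (if g = 1 then ψ 1 * conj (χ 1) else 0)
      + (if g ∈ N ∧ g ≠ 1 then ψ a * conj (χ a) else 0) := by
    intro g
    by_cases hg1 : g = 1
    · rw [if_pos hg1, if_neg (fun h => h.2 hg1), hg1, add_zero]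
    · by_cases hg : g ∈ N
      · rw [if_neg hg1, if_pos ⟨hg, hg1⟩, zero_add, hval ψ hψc g hg hg1, hval χ hχc g hg hg1]
      · rw [if_neg hg1, if_neg (fun h => hg h.1), add_zero]
        have h0 : χ g = 0 := by
          by_contra h
          exact hg ((hN g).mpr h)
        rw [h0, map_zero, mul_zero]
  rw [Finset.sum_congr rfl (fun g _ => h1 g), Finset.sum_add_distrib, Finset.sum_ite_eq',
    if_pos (Finset.mem_univ _), Finset.sum_ite, Finset.sum_const_zero, add_zero,
    Finset.sum_const, nsmul_eq_mul]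

/-- Irreducible characters other than `χ` are trivial on `N`. -/
theorem eq_degree_of_ne [Fintype G] (χ ψ : G → ℂ) (hχ : IsIrrCharacter G χ)
    (hψ : IsIrrCharacter G ψ) (hne : ψ ≠ χ) (N : Subgroup G) (hN : ∀ g : G, g ∈ N ↔ χ g ≠ 0)
    (hconj : ∀ a b : G, a ∈ N → b ∈ N → a ≠ 1 → b ≠ 1 → IsConj a b) (hNtop : N ≠ ⊤)
    (a : G) (ha : a ∈ N) : ψ a = ψ 1 := by
  classical
  by_cases ha1 : a = 1
  · rw [ha1]
  have hχc := Helper2.IsIrrCharacter.isClassFunction hχ
  have hψc := Helper2.IsIrrCharacter.isClassFunction hψ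
  have h1c := Helper2.IsIrrCharacter.isClassFunction (Helper2.isIrrCharacter_one_fun (G := G))
  obtain ⟨m, hm⟩ := sum_formula χ hχc N hN hconj a ha ha1
  have hcard : (Nat.card G : ℂ) ≠ 0 := by exact_mod_cast Nat.card_pos.ne'
  have hone_ne : (fun _ : G => (1 : ℂ)) ≠ χ := by
    intro h
    apply hNtop
    rw [eq_top_iff]
    intro g _
    rw [hN, ← h]
    exact one_ne_zero
  have e1 : (1 : ℂ) * conj (χ 1) + m * ((1 : ℂ) * conj (χ a)) = 0 := by
    have h := Helper2.classInner_irr (Helper2.isIrrCharacter_one_fun (G := G)) hχ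
    rw [if_neg hone_ne] at h
    have h' : (Nat.card G : ℂ)⁻¹ * ∑ g : G, (fun _ : G => (1 : ℂ)) g * conj (χ g) = 0 := h
    have h3 := (mul_eq_zero.mp h').resolve_left (inv_ne_zero hcard)
    have hs := hm (fun _ : G => (1 : ℂ)) h1c
    exact hs.symm.trans h3
  have e2 : ψ 1 * conj (χ 1) + m * (ψ a * conj (χ a)) = 0 := by
    have h := Helper2.classInner_irr hψ hχ
    rw [if_neg hne] at h
    have h' : (Nat.card G : ℂ)⁻¹ * ∑ g : G, ψ g * conj (χ g) = 0 := h
    have h3 := (mul_eq_zero.mp h').resolve_left (inv_ne_zero hcard)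
    have hs := hm ψ hψc
    exact hs.symm.trans h3
  have hχ1 : conj (χ 1) ≠ 0 := by
    rw [Ne, map_eq_zero]
    exact (hN 1).mp N.one_mem
  have e3 : (ψ 1 - ψ a) * conj (χ 1) = 0 := by linear_combination e2 - ψ a * e1
  have e4 := (mul_eq_zero.mp e3).resolve_right hχ1
  exact (sub_eq_zero.mp e4).symm

/-- Camina property: outside `N`, elements are conjugate to their translates by `N`. -/
theorem isConj_mul (χ : G → ℂ) (hχ : IsIrrCharacter G χ) (N : Subgroup G)
    (hN : ∀ g : G, g ∈ N ↔ χ g ≠ 0)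
    (hconj : ∀ a b : G, a ∈ N → b ∈ N → a ≠ 1 → b ≠ 1 → IsConj a b) (hNtop : N ≠ ⊤)
    (x : G) (hx : x ∉ N) (n : G) (hn : n ∈ N) : IsConj x (n * x) := by
  classical
  haveI := Fintype.ofFinite G
  haveI : Finite (IrrCharacter G) := Helper24.finite_irrCharacter
  haveI := Fintype.ofFinite (IrrCharacter G)
  have h1 := Helper2.second_orthogonality x (n * x)
  have h2 := Helper2.second_orthogonality x x
  rw [if_pos (IsConj.refl x)] at h2
  have hterm : ∀ ψ : IrrCharacter G, (ψ : G → ℂ) x * conj ((ψ : G → ℂ) (n * x))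
      = (ψ : G → ℂ) x * conj ((ψ : G → ℂ) x) := by
    intro ψ
    by_cases hψ : (ψ : G → ℂ) = χ
    · have h0 : χ x = 0 := by
        by_contra h
        exact hx ((hN x).mpr h)
      rw [hψ, h0, zero_mul, zero_mul]
    · rw [Helper6.char_mul_of_eq_degree (Helper24.isCharacter_of_irr ψ.2)
        (eq_degree_of_ne χ ψ hχ ψ.2 hψ N hN hconj hNtop n hn) x]
  rw [Finset.sum_congr rfl (fun ψ _ => hterm ψ), h2] at h1
  by_contra hnc
  rw [if_neg hnc] at h1
  have hpos : 0 < Nat.card (Subgroup.centralizer ({x} : Set G)) := Nat.card_pos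
  exact hpos.ne' (by exact_mod_cast h1)

/-- Camina pairs: centralizer orders outside `N` agree with those in the quotient. -/
theorem card_centralizer_eq (N : Subgroup G) [hNn : N.Normal]
    (x : G) (hcam : ∀ n ∈ N, IsConj x (n * x)) :
    Nat.card (Subgroup.centralizer ({x} : Set G))
      = Nat.card (Subgroup.centralizer ({(x : G ⧸ N)} : Set (G ⧸ N))) := by
  classical
  obtain ⟨L, hL⟩ : ∃ L : Subgroup G, L = (Subgroup.centralizer
      ({(x : G ⧸ N)} : Set (G ⧸ N))).comap (QuotientGroup.mk' N) := ⟨_, rfl⟩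
  have hmemL : ∀ g : G, g ∈ L ↔ ∃ n ∈ N, g * x * g⁻¹ = n * x := by
    intro g
    rw [hL, Subgroup.mem_comap, Subgroup.mem_centralizer_singleton_iff]
    have e1 : ((QuotientGroup.mk' N) g * (x : G ⧸ N) = (x : G ⧸ N) * (QuotientGroup.mk' N) g)
        ↔ ((g * x * g⁻¹ : G) : G ⧸ N) = (x : G ⧸ N) := by
      show ((g : G ⧸ N) * (x : G ⧸ N) = (x : G ⧸ N) * (g : G ⧸ N)) ↔ _
      rw [QuotientGroup.mk_mul, QuotientGroup.mk_mul, QuotientGroup.mk_inv]
      constructor
      · intro h
        rw [h, mul_inv_cancel_right]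
      · intro h
        calc (g : G ⧸ N) * (x : G ⧸ N)
            = ((g : G ⧸ N) * (x : G ⧸ N) * (g : G ⧸ N)⁻¹) * (g : G ⧸ N) := by group
          _ = (x : G ⧸ N) * (g : G ⧸ N) := by rw [h]
    rw [e1, QuotientGroup.eq_iff_div_mem]
    constructor
    · intro h
      exact ⟨_, h, (div_mul_cancel _ _).symm⟩
    · rintro ⟨n, hn, hgn⟩
      rw [hgn]
      rw [mul_div_cancel_right]; exact hn
  choose y hy using (fun n : N => isConj_iff.mp (hcam n.1 n.2))
  have hcx : ∀ c : Subgroup.centralizer ({x} : Set G), (c : G) * x * (c : G)⁻¹ = x := by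
    intro c
    have h1 := Subgroup.mem_centralizer_singleton_iff.mp c.2
    rw [h1, mul_inv_cancel_right]
  have hfmem : ∀ nc : N × Subgroup.centralizer ({x} : Set G), y nc.1 * (nc.2 : G) ∈ L := by
    intro nc
    rw [hmemL]
    refine ⟨nc.1.1, nc.1.2, ?_⟩
    have e : y nc.1 * (nc.2 : G) * x * (y nc.1 * (nc.2 : G))⁻¹
        = y nc.1 * ((nc.2 : G) * x * (nc.2 : G)⁻¹) * (y nc.1)⁻¹ := by group
    rw [e, hcx, hy]
  have hbij : Function.Bijective (fun nc : N × Subgroup.centralizer ({x} : Set G) =>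
      (⟨y nc.1 * (nc.2 : G), hfmem nc⟩ : L)) := by
    constructor
    · rintro ⟨n, c⟩ ⟨n', c'⟩ h
      have h1 : y n * (c : G) = y n' * (c' : G) := congrArg Subtype.val h
      have h2 : (n : G) * x = (n' : G) * x := by
        calc (n : G) * x = y n * ((c : G) * x * (c : G)⁻¹) * (y n)⁻¹ := by rw [hcx, hy]
          _ = (y n * (c : G)) * x * (y n * (c : G))⁻¹ := by group
          _ = (y n' * (c' : G)) * x * (y n' * (c' : G))⁻¹ := by rw [h1]
          _ = y n' * ((c' : G) * x * (c' : G)⁻¹) * (y n')⁻¹ := by group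
          _ = (n' : G) * x := by rw [hcx, hy]
      have h3 : n = n' := Subtype.ext (mul_right_cancel h2)
      subst h3
      have h4 : c = c' := Subtype.ext (mul_left_cancel h1)
      rw [h4]
    · rintro ⟨g, hg⟩
      obtain ⟨n, hn, hgn⟩ := (hmemL g).mp hg
      have hc : (y ⟨n, hn⟩)⁻¹ * g ∈ Subgroup.centralizer ({x} : Set G) := by
        rw [Subgroup.mem_centralizer_singleton_iff]
        have h5 := hy ⟨n, hn⟩
        have h6 : x = (y ⟨n, hn⟩)⁻¹ * (n * x) * y ⟨n, hn⟩ := by
          rw [← h5]; group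
        calc (y ⟨n, hn⟩)⁻¹ * g * x = (y ⟨n, hn⟩)⁻¹ * (g * x * g⁻¹) * g := by group
          _ = ((y ⟨n, hn⟩)⁻¹ * (n * x) * y ⟨n, hn⟩) * ((y ⟨n, hn⟩)⁻¹ * g) := by
            rw [hgn]; group
          _ = x * ((y ⟨n, hn⟩)⁻¹ * g) := by rw [← h6]
      refine ⟨(⟨n, hn⟩, ⟨_, hc⟩), ?_⟩
      apply Subtype.ext
      show y ⟨n, hn⟩ * ((y ⟨n, hn⟩)⁻¹ * g) = g
      group
  have hcardL : Nat.card L = Nat.card N * Nat.card (Subgroup.centralizer ({x} : Set G)) := by
    rw [← Nat.card_prod]
    exact (Nat.card_congr (Equiv.ofBijective _ hbij)).symm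
  have hidx : L.index = (Subgroup.centralizer ({(x : G ⧸ N)} : Set (G ⧸ N))).index := by
    rw [hL]
    exact Subgroup.index_comap_of_surjective _ (QuotientGroup.mk'_surjective N)
  have h1 := L.card_mul_index
  have h2 := (Subgroup.centralizer ({(x : G ⧸ N)} : Set (G ⧸ N))).card_mul_index
  have h3 := N.card_mul_index
  rw [← Subgroup.index_eq_card] at h2
  obtain ⟨i, hi⟩ : ∃ i : ℕ,
      i = (Subgroup.centralizer ({(x : G ⧸ N)} : Set (G ⧸ N))).index := ⟨_, rfl⟩
  rw [← hi] at h2 hidx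
  have hi0 : 0 < i := by
    rw [hi]
    exact Nat.pos_of_ne_zero (Subgroup.index_ne_zero_of_finite)
  rw [hidx, hcardL] at h1
  have h4 : Nat.card N * Nat.card (Subgroup.centralizer ({x} : Set G)) * i
      = Nat.card N * Nat.card (Subgroup.centralizer ({(x : G ⧸ N)} : Set (G ⧸ N))) * i := by
    rw [h1, mul_assoc, h2, h3]
  have h5 := Nat.eq_of_mul_eq_mul_right hi0 h4
  exact Nat.eq_of_mul_eq_mul_left Nat.card_pos h5

/-- A normal `p`-subgroup lies in every Sylow `p`-subgroup. -/
theorem normal_le_sylow (N : Subgroup G) [hNn : N.Normal] (p : ℕ) [Fact p.Prime]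
    (hNp : IsPGroup p N) (P : Sylow p G) : N ≤ (P : Subgroup G) := by
  obtain ⟨Q, hQ⟩ := hNp.exists_le_sylow
  obtain ⟨g, hg⟩ := MulAction.exists_smul_eq G Q P
  intro h hh
  rw [← hg, Sylow.coe_subgroup_smul, Subgroup.mem_pointwise_smul_iff_inv_smul_mem]
  have h1 : g⁻¹ * h * g⁻¹⁻¹ ∈ N := hNn.conj_mem h hh g⁻¹
  have h2 : (MulAut.conj g)⁻¹ • h = g⁻¹ * h * g⁻¹⁻¹ := by
    simp [MulAut.smul_def]
  rw [h2]
  exact hQ h1

/-- The centre of a Sylow `p`-subgroup lies in `N`. -/
theorem center_le (N : Subgroup G) [N.Normal] (p : ℕ) [hp : Fact p.Prime] (hNp : IsPGroup p N)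
    (hN1 : N ≠ ⊥)
    (hcent : ∀ x : G, x ∉ N → Nat.card (Subgroup.centralizer ({x} : Set G))
      = Nat.card (Subgroup.centralizer ({(x : G ⧸ N)} : Set (G ⧸ N))))
    (P : Sylow p G) (z : G) (hzc : ∀ y ∈ (P : Subgroup G), y * z = z * y) : z ∈ N := by
  by_contra hzN
  have h1 : (P : Subgroup G) ≤ Subgroup.centralizer ({z} : Set G) := by
    intro y hy
    rw [Subgroup.mem_centralizer_singleton_iff]
    exact hzc y hy
  have h2 : Nat.card (P : Subgroup G) ∣ Nat.card (Subgroup.centralizer ({z} : Set G)) :=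
    Subgroup.card_dvd_of_le h1
  rw [hcent z hzN] at h2
  have h3 : Nat.card (Subgroup.centralizer ({(z : G ⧸ N)} : Set (G ⧸ N))) ∣ Nat.card (G ⧸ N) :=
    Subgroup.card_subgroup_dvd_card _
  have h4 : Nat.card (P : Subgroup G) ∣ N.index := by
    rw [Subgroup.index_eq_card]; exact h2.trans h3
  have h5 : p ∣ Nat.card N := by
    obtain ⟨k, hk⟩ := hNp.exists_card_eq
    have hk0 : k ≠ 0 := by
      intro h0
      rw [h0, pow_zero] at hk
      exact hN1 (Subgroup.eq_bot_of_card_eq _ hk)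
    rw [hk]; exact dvd_pow_self p hk0
  have h6 : Nat.card (P : Subgroup G) * p ∣ Nat.card N * N.index := by
    rw [mul_comm (Nat.card N)]
    exact Nat.mul_dvd_mul h4 h5
  rw [N.card_mul_index] at h6
  have h7 : Nat.card (P : Subgroup G) = p ^ (Nat.card G).factorization p :=
    P.card_eq_multiplicity
  rw [h7, ← pow_succ] at h6
  exact Nat.pow_succ_factorization_not_dvd Nat.card_pos.ne' hp.out h6

/-- If the Sylow subgroup is normal, `N` is central in it. -/
theorem le_center_of_normal (N : Subgroup G) (p : ℕ) [Fact p.Prime] (P : Sylow p G)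
    (hNP : N ≤ (P : Subgroup G)) (hN1 : N ≠ ⊥)
    (hconj : ∀ a b : G, a ∈ N → b ∈ N → a ≠ 1 → b ≠ 1 → IsConj a b)
    (hZN : ∀ z : G, (∀ y ∈ (P : Subgroup G), y * z = z * y) → z ∈ N)
    (hPn : (P : Subgroup G).Normal) (n : G) (hn : n ∈ N) (y : G) (hy : y ∈ (P : Subgroup G)) :
    y * n = n * y := by
  by_cases hn1 : n = 1
  · rw [hn1, mul_one, one_mul]
  obtain ⟨a, haN, ha1⟩ := exists_ne_one N hN1
  haveI : Nontrivial (P : Subgroup G) :=
    ⟨⟨⟨a, hNP haN⟩, 1, fun h => ha1 (congrArg Subtype.val h)⟩⟩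
  have hcen : Nontrivial (Subgroup.center (P : Subgroup G)) :=
    IsPGroup.center_nontrivial P.isPGroup'
  obtain ⟨z₀, hz₀⟩ := exists_ne (1 : Subgroup.center (P : Subgroup G))
  have hzG1 : ((z₀ : (P : Subgroup G)) : G) ≠ 1 := by
    intro h
    apply hz₀
    apply Subtype.ext
    apply Subtype.ext
    exact h
  have hzc : ∀ y ∈ (P : Subgroup G), y * ((z₀ : (P : Subgroup G)) : G)
      = ((z₀ : (P : Subgroup G)) : G) * y := by
    intro y hy
    have h1 := Subgroup.mem_center_iff.mp z₀.2 ⟨y, hy⟩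
    exact congrArg Subtype.val h1
  have hzN := hZN _ hzc
  obtain ⟨c, hc⟩ := isConj_iff.mp (hconj _ n hzN hn hzG1 hn1)
  have h2 := hzc (c⁻¹ * y * c) (by
    have h3 := hPn.conj_mem y hy c⁻¹
    rwa [inv_inv] at h3)
  rw [← hc]
  calc y * (c * ((z₀ : (P : Subgroup G)) : G) * c⁻¹)
      = c * ((c⁻¹ * y * c) * ((z₀ : (P : Subgroup G)) : G)) * c⁻¹ := by group
    _ = c * (((z₀ : (P : Subgroup G)) : G) * (c⁻¹ * y * c)) * c⁻¹ := by rw [h2]
    _ = c * ((z₀ : (P : Subgroup G)) : G) * c⁻¹ * y := by group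

/-- If `N` is central in the Sylow subgroup, the Sylow subgroup is normal. -/
theorem normal_of_central (N : Subgroup G) [hNn : N.Normal] (p : ℕ) [hp : Fact p.Prime]
    (hNp : IsPGroup p N) (hN1 : N ≠ ⊥) (P : Sylow p G)
    (hcam : ∀ x : G, x ∉ N → ∀ n ∈ N, IsConj x (n * x))
    (hcentral : ∀ n ∈ N, ∀ y ∈ (P : Subgroup G), y * n = n * y) :
    (P : Subgroup G).Normal := by
  obtain ⟨C, hC⟩ : ∃ C : Subgroup G, C = Subgroup.centralizer (N : Set G) := ⟨_, rfl⟩
  have hmemC : ∀ g : G, g ∈ C ↔ ∀ n ∈ N, n * g = g * n := by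
    intro g; rw [hC, Subgroup.mem_centralizer_iff]; rfl
  have hCn : C.Normal := by
    constructor
    intro g hg c
    rw [hmemC] at hg ⊢
    intro n hn
    have h1 := hg (c⁻¹ * n * c) (by
      have h3 := hNn.conj_mem n hn c⁻¹
      rwa [inv_inv] at h3)
    calc n * (c * g * c⁻¹) = c * ((c⁻¹ * n * c) * g) * c⁻¹ := by group
      _ = c * (g * (c⁻¹ * n * c)) * c⁻¹ := by rw [h1]
      _ = c * g * c⁻¹ * n := by group
  have hPC : (P : Subgroup G) ≤ C := by
    intro y hy
    rw [hmemC]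
    intro n hn
    exact (hcentral n hn y hy).symm
  obtain ⟨a, haN, ha1⟩ := exists_ne_one N hN1
  have hpq : ∀ (q k : ℕ), q.Prime → q = p ^ k → q = p := by
    intro q k hq hk
    have h1 : p ∣ q := by
      rw [hk]
      apply dvd_pow_self
      intro hk0
      rw [hk0, pow_zero] at hk
      exact hq.one_lt.ne' hk
    exact ((Nat.prime_dvd_prime_iff_eq hp.out hq).mp h1).symm
  have hCp : IsPGroup p C := by
    have hprime : ∀ q : ℕ, q.Prime → q ∣ Nat.card C → q = p := by
      intro q hq hqd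
      by_contra hqp
      haveI : Fact q.Prime := ⟨hq⟩
      obtain ⟨x', hx'⟩ := exists_prime_orderOf_dvd_card' (G := C) q hqd
      have hxo : orderOf (x' : G) = q := by rw [Subgroup.orderOf_coe]; exact hx'
      have hxC := (hmemC _).mp x'.2
      have hxN : (x' : G) ∉ N := by
        intro hxN
        obtain ⟨k, hk⟩ := (IsPGroup.iff_orderOf.mp hNp) ⟨(x' : G), hxN⟩
        rw [Subgroup.orderOf_mk, hxo] at hk
        exact hqp (hpq q k hq hk)
      obtain ⟨c, hc⟩ := isConj_iff.mp (hcam _ hxN a haN)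
      have ho : orderOf (a * (x' : G)) = q := by
        rw [← hc]
        have h1 := MulEquiv.orderOf_eq (MulAut.conj c) (x' : G)
        rw [MulAut.conj_apply] at h1
        rw [h1, hxo]
      have hcomm : Commute a (x' : G) := hxC a haN
      have hxq : (x' : G) ^ q = 1 := by rw [← hxo]; exact pow_orderOf_eq_one _
      have hpow : (a * (x' : G)) ^ q = 1 := by rw [← ho]; exact pow_orderOf_eq_one _
      rw [hcomm.mul_pow, hxq, mul_one] at hpow
      have h2 : orderOf a ∣ q := orderOf_dvd_of_pow_eq_one hpow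
      obtain ⟨k, hk⟩ := (IsPGroup.iff_orderOf.mp hNp) ⟨a, haN⟩
      rw [Subgroup.orderOf_mk] at hk
      rcases (Nat.dvd_prime hq).mp h2 with h3 | h3
      · exact ha1 (orderOf_eq_one_iff.mp h3)
      · rw [h3] at hk
        exact hqp (hpq q k hq hk)
    have hcard := Nat.eq_prime_pow_of_unique_prime_dvd (n := Nat.card C) Nat.card_pos.ne'
      (fun {d} hd hdd => hprime d hd hdd)
    exact IsPGroup.of_card hcard
  have hCP : C = (P : Subgroup G) := P.is_maximal' hCp hPC
  rw [← hCP]; exact hCn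

/-- One step up the upper central series stays inside `N` until `N` is reached. -/
theorem upper_step (N : Subgroup G) [N.Normal] (p : ℕ) [hp : Fact p.Prime] (hNp : IsPGroup p N)
    (hcent : ∀ x : G, x ∉ N → Nat.card (Subgroup.centralizer ({x} : Set G))
      = Nat.card (Subgroup.centralizer ({(x : G ⧸ N)} : Set (G ⧸ N))))
    (P : Sylow p G) (hNP : N ≤ (P : Subgroup G)) (i : ℕ)
    (hle : Subgroup.upperCentralSeries (P : Subgroup G) i ≤ N.subgroupOf (P : Subgroup G))
    (hne : Subgroup.upperCentralSeries (P : Subgroup G) i ≠ N.subgroupOf (P : Subgroup G)) :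
    Subgroup.upperCentralSeries (P : Subgroup G) (i + 1) ≤ N.subgroupOf (P : Subgroup G) := by
  classical
  intro z hz
  rw [Subgroup.mem_subgroupOf]
  by_contra hzN
  rw [Subgroup.mem_upperCentralSeries_succ_iff] at hz
  have hinj : Nat.card {w : (P : Subgroup G) // IsConj w z}
      ≤ Nat.card (Subgroup.upperCentralSeries (P : Subgroup G) i) := by
    have hmem : ∀ w : {w : (P : Subgroup G) // IsConj w z},
        (w : (P : Subgroup G)) * z⁻¹ ∈ Subgroup.upperCentralSeries (P : Subgroup G) i := by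
      rintro ⟨w, hw⟩
      obtain ⟨c, hc⟩ := isConj_iff.mp hw
      have h1 := Subgroup.inv_mem _ (hz c⁻¹)
      have e : w * z⁻¹ = ⁅z, c⁻¹⁆⁻¹ := by
        rw [commutatorElement_def, ← hc]; group
      show w * z⁻¹ ∈ _
      rw [e]; exact h1
    apply Nat.card_le_card_of_injective (fun (w : {w : (P : Subgroup G) // IsConj w z}) =>
      (⟨w.1 * z⁻¹, hmem w⟩ : Subgroup.upperCentralSeries (P : Subgroup G) i))
    intro w w' hww
    have h1 : (w : (P : Subgroup G)) * z⁻¹ = (w' : (P : Subgroup G)) * z⁻¹ :=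
      congrArg Subtype.val hww
    exact Subtype.ext (mul_right_cancel h1)
  have hclass := Helper2.card_conj_mul_card_centralizer (G := (P : Subgroup G)) z
  have hZlt : Nat.card (Subgroup.upperCentralSeries (P : Subgroup G) i)
      < Nat.card (N.subgroupOf (P : Subgroup G)) := by
    by_contra hge
    exact hne (Subgroup.eq_of_le_of_card_ge hle (Nat.le_of_not_lt hge))
  have hN'card : Nat.card (N.subgroupOf (P : Subgroup G)) = Nat.card N :=
    Nat.card_congr (Subgroup.subgroupOfEquivOfLe hNP).toEquiv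
  have hCdvd : Nat.card (Subgroup.centralizer ({z} : Set (P : Subgroup G)))
      ∣ Nat.card (Subgroup.centralizer ({(z : G)} : Set G)) := by
    have h1 : Nat.card ((Subgroup.centralizer ({z} : Set (P : Subgroup G))).map
        (P : Subgroup G).subtype) = Nat.card (Subgroup.centralizer ({z} : Set (P : Subgroup G))) :=
      Subgroup.card_map_of_injective (Subgroup.subtype_injective _)
    rw [← h1]
    apply Subgroup.card_dvd_of_le
    rintro _ ⟨y, hy, rfl⟩
    have hy' : y ∈ Subgroup.centralizer ({z} : Set (P : Subgroup G)) := hy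
    rw [Subgroup.mem_centralizer_singleton_iff] at hy' ⊢
    exact congrArg Subtype.val hy'
  have h3 : Nat.card (Subgroup.centralizer ({z} : Set (P : Subgroup G))) ∣ N.index := by
    rw [Subgroup.index_eq_card]
    rw [hcent _ hzN] at hCdvd
    exact hCdvd.trans (Subgroup.card_subgroup_dvd_card _)
  have h4 : Nat.card (Subgroup.centralizer ({z} : Set (P : Subgroup G))) * Nat.card N
      ∣ Nat.card N * N.index := by
    rw [mul_comm]
    exact Nat.mul_dvd_mul (dvd_refl _) h3
  rw [N.card_mul_index] at h4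
  obtain ⟨a, ha⟩ := (P.isPGroup'.to_subgroup
    (Subgroup.centralizer ({z} : Set (P : Subgroup G)))).exists_card_eq
  obtain ⟨b, hb⟩ := hNp.exists_card_eq
  have hPcard : Nat.card (P : Subgroup G) = p ^ (Nat.card G).factorization p :=
    P.card_eq_multiplicity
  rw [ha, hb, ← pow_add] at h4
  have h5 := (hp.out.pow_dvd_iff_le_factorization Nat.card_pos.ne').mp h4
  have h6 : p ^ (a + b) ≤ p ^ (Nat.card G).factorization p :=
    Nat.pow_le_pow_right hp.out.pos h5
  rw [← hPcard, pow_add, ← ha, ← hb] at h6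
  rw [hN'card] at hZlt
  have hcpos : 0 < Nat.card (Subgroup.centralizer ({z} : Set (P : Subgroup G))) := Nat.card_pos
  have h7 := Nat.mul_le_mul_right (Nat.card (Subgroup.centralizer ({z} : Set (P : Subgroup G))))
    hinj
  have h8 := Nat.mul_lt_mul_of_pos_right hZlt hcpos
  rw [mul_comm (Nat.card N)] at h8
  omega

/-- `N` is a term of the upper central series of the Sylow subgroup. -/
theorem exists_upper (N : Subgroup G) [N.Normal] (p : ℕ) [hp : Fact p.Prime]
    (hNp : IsPGroup p N)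
    (hcent : ∀ x : G, x ∉ N → Nat.card (Subgroup.centralizer ({x} : Set G))
      = Nat.card (Subgroup.centralizer ({(x : G ⧸ N)} : Set (G ⧸ N))))
    (P : Sylow p G) (hNP : N ≤ (P : Subgroup G)) :
    ∃ i : ℕ, Subgroup.upperCentralSeries (P : Subgroup G) i = N.subgroupOf (P : Subgroup G) := by
  haveI : Group.IsNilpotent (P : Subgroup G) := P.isPGroup'.isNilpotent
  obtain ⟨k, hk⟩ := Group.IsNilpotent.nilpotent' (G := (P : Subgroup G))
  have key : ∀ i : ℕ, (∃ j, Subgroup.upperCentralSeries (P : Subgroup G) j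
      = N.subgroupOf (P : Subgroup G))
      ∨ Subgroup.upperCentralSeries (P : Subgroup G) i ≤ N.subgroupOf (P : Subgroup G) := by
    intro i
    induction i with
    | zero => right; rw [Subgroup.upperCentralSeries_zero]; exact bot_le
    | succ i ih =>
      rcases ih with h | h
      · left; exact h
      · by_cases he : Subgroup.upperCentralSeries (P : Subgroup G) i
            = N.subgroupOf (P : Subgroup G)
        · left; exact ⟨i, he⟩
        · right; exact upper_step N p hNp hcent P hNP i h he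
  rcases key k with h | h
  · exact h
  · refine ⟨k, le_antisymm h ?_⟩
    rw [hk]; exact le_top

end Cfsg.Agent.Helper13.Gagola
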