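import Mathlib
import Cfsg.Prelude.Def_Classical
import Cfsg.Agent.S2167

/-! Glue for S2584 (team sprint), forward direction: an isometry of a nondegenerate
alternating matrix (any finite index type, any field) has even rank of `(A - 1) ^ k` for even
`k`; in characteristic two this applies to the isometries of a quadratic form with
nondegenerate polar form. -/

set_option autoImplicit false

open Matrix

namespace Cfsg.Agent.Helper13

theorem alt_twist_gen {ι F : Type*} [Fintype ι] [DecidableEq ι] [Field F]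
    (A P : Matrix ι ι F) (hA : Aᵀ * P * A = P) (i : ℕ) :
    ((A - 1)ᵀ) ^ i * P * A ^ i = (-1 : F) ^ i • (P * (A - 1) ^ i) := by
  have h1 : (A - 1)ᵀ * P * A = -(P * (A - 1)) := by
    rw [Matrix.transpose_sub, Matrix.transpose_one, sub_mul, sub_mul, hA, one_mul, mul_sub,
      mul_one]
    abel
  have hc : Commute A (A - 1) := (Commute.refl A).sub_right (Commute.one_right A)
  induction i with
  | zero => simp
  | succ i ih =>
    have hci : A * (A - 1) ^ i = (A - 1) ^ i * A := (hc.pow_right i).eq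
    calc ((A - 1)ᵀ) ^ (i + 1) * P * A ^ (i + 1)
        = (A - 1)ᵀ * (((A - 1)ᵀ) ^ i * P * A ^ i) * A := by
          rw [pow_succ' ((A - 1)ᵀ) i, pow_succ A i]
          simp only [mul_assoc]
      _ = (A - 1)ᵀ * ((-1 : F) ^ i • (P * (A - 1) ^ i)) * A := by rw [ih]
      _ = (-1 : F) ^ i • ((A - 1)ᵀ * P * ((A - 1) ^ i * A)) := by
          rw [Matrix.mul_smul, Matrix.smul_mul]
          simp only [mul_assoc]
      _ = (-1 : F) ^ i • (((A - 1)ᵀ * P * A) * (A - 1) ^ i) := by
          rw [← hci]
          simp only [mul_assoc]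
      _ = (-1 : F) ^ i • ((-(P * (A - 1))) * (A - 1) ^ i) := by rw [h1]
      _ = (-1 : F) ^ (i + 1) • (P * (A - 1) ^ (i + 1)) := by
          rw [pow_succ (-1 : F) i, pow_succ' (A - 1) i, neg_mul, smul_neg, mul_neg_one,
            neg_smul, mul_assoc]

/-- General-index version of `symp_rank_even`. -/
theorem alt_rank_even_gen {ι F : Type*} [Fintype ι] [DecidableEq ι] [Field F]
    (A P : Matrix ι ι F) (halt : ∀ v, v ⬝ᵥ P *ᵥ v = 0)
    (hdet : P.det ≠ 0) (hA : Aᵀ * P * A = P) (k : ℕ) (hk : Even k) :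
    Even ((A - 1) ^ k).rank := by
  obtain ⟨i, rfl⟩ := hk
  have hdetA : A.det ≠ 0 := by
    intro h0
    apply hdet
    have h := congrArg Matrix.det hA
    rw [Matrix.det_mul, Matrix.det_mul, h0, mul_zero] at h
    exact h.symm
  have hS : Even (((A - 1) ^ i)ᵀ * P * (A - 1) ^ i).rank := by
    apply Cfsg.Agent.S2167.even_rank_of_alt
    intro v
    rw [← Matrix.mulVec_mulVec, ← Matrix.mulVec_mulVec, Matrix.dotProduct_mulVec,
      Matrix.vecMul_transpose]
    exact halt _
  have hc : Commute A (A - 1) := (Commute.refl A).sub_right (Commute.one_right A)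
  have hci : (A - 1) ^ i * A ^ i = A ^ i * (A - 1) ^ i := ((hc.pow_pow i i).eq).symm
  have hkey : ((A - 1) ^ i)ᵀ * P * (A - 1) ^ i * A ^ i
      = ((-1 : F) ^ i • P) * (A - 1) ^ (i + i) := by
    calc ((A - 1) ^ i)ᵀ * P * (A - 1) ^ i * A ^ i
        = (((A - 1)ᵀ) ^ i * P * A ^ i) * (A - 1) ^ i := by
          rw [Matrix.transpose_pow, mul_assoc _ ((A - 1) ^ i) (A ^ i), hci]
          simp only [mul_assoc]
      _ = ((-1 : F) ^ i • P) * (A - 1) ^ (i + i) := by
          rw [alt_twist_gen A P hA i, pow_add, Matrix.smul_mul, Matrix.smul_mul, mul_assoc]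
  have hu1 : IsUnit (A ^ i).det := by
    rw [Matrix.det_pow]
    exact (isUnit_iff_ne_zero.mpr hdetA).pow i
  have hu2 : IsUnit ((-1 : F) ^ i • P).det := by
    rw [Matrix.det_smul]
    exact isUnit_iff_ne_zero.mpr
      (mul_ne_zero (pow_ne_zero _ (pow_ne_zero _ (neg_ne_zero.mpr one_ne_zero))) hdet)
  have hr : (((A - 1) ^ i)ᵀ * P * (A - 1) ^ i).rank = ((A - 1) ^ (i + i)).rank := by
    rw [← Matrix.rank_mul_eq_left_of_isUnit_det (A ^ i) _ hu1, hkey,
      Matrix.rank_mul_eq_right_of_isUnit_det _ _ hu2]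
  rw [← hr]
  exact hS

/-- In characteristic two, a quadratic form with nondegenerate polar form has an alternating
invertible Gram matrix preserved by every element of its isometry group. -/
theorem quad_char2_gram {F : Type*} [Field F] [CharP F 2] {n : ℕ}
    (Q : QuadraticForm F (Fin n → F)) (hQ : (QuadraticMap.polarBilin Q).Nondegenerate) :
    ∃ P : Matrix (Fin n) (Fin n) F, (∀ v, v ⬝ᵥ P *ᵥ v = 0) ∧ P.det ≠ 0 ∧
      ∀ g : Matrix.GeneralLinearGroup (Fin n) F, g ∈ Cfsg.isometryGroup F ⇑Q →
        (g : Matrix (Fin n) (Fin n) F)ᵀ * P * (g : Matrix (Fin n) (Fin n) F) = P := by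
  classical
  refine ⟨LinearMap.BilinForm.toMatrix' (QuadraticMap.polarBilin Q), ?_, ?_, ?_⟩
  · intro v
    rw [← Matrix.toBilin'_apply', Matrix.toBilin'_toMatrix',
      QuadraticMap.polarBilin_apply_apply, QuadraticMap.polar_self, two_nsmul]
    exact CharTwo.add_self_eq_zero _
  · rw [← Matrix.nondegenerate_iff_det_ne_zero]
    exact LinearMap.BilinForm.nondegenerate_toMatrix'_iff.mpr hQ
  · intro g hg
    have h1 : ∀ u : Fin n → F, Q ((g : Matrix (Fin n) (Fin n) F) *ᵥ u) = Q u := fun u => hg u u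
    have h2 : LinearMap.BilinForm.comp (QuadraticMap.polarBilin Q)
        (Matrix.toLin' (g : Matrix (Fin n) (Fin n) F))
        (Matrix.toLin' (g : Matrix (Fin n) (Fin n) F)) = QuadraticMap.polarBilin Q := by
      apply LinearMap.ext₂
      intro u w
      simp only [LinearMap.BilinForm.comp_apply, Matrix.toLin'_apply,
        QuadraticMap.polarBilin_apply_apply, QuadraticMap.polar, ← Matrix.mulVec_add, h1]
    have h3 := congrArg LinearMap.BilinForm.toMatrix' h2
    rw [LinearMap.BilinForm.toMatrix'_comp] at h3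
    simpa using h3

/-- Forward analytic half of S2584: in characteristic two, for an isometry `g` of a quadratic
form with nondegenerate polar form, `(g - 1) ^ k` has even rank for every even `k`. -/
theorem quad_char2_rank_even {F : Type*} [Field F] [CharP F 2] {n : ℕ}
    (Q : QuadraticForm F (Fin n → F)) (hQ : (QuadraticMap.polarBilin Q).Nondegenerate)
    (g : Matrix.GeneralLinearGroup (Fin n) F) (hg : g ∈ Cfsg.isometryGroup F ⇑Q)
    (k : ℕ) (hk : Even k) :
    Even (((g : Matrix (Fin n) (Fin n) F) - 1) ^ k).rank := by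
  obtain ⟨P, halt, hdet, hP⟩ := quad_char2_gram Q hQ
  exact alt_rank_even_gen _ P halt hdet (hP g hg) k hk

end Cfsg.Agent.Helper13
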