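import Mathlib
import Cfsg.Prelude.Def_Classical
import Cfsg.Prelude.Def_JordanBlocks
import Cfsg.Agent.Helper13.JordChar2
import Cfsg.Agent.Helper2.JordOrth
import Cfsg.Agent.Helper24.JordSymp
import Cfsg.Agent.Helper21.JordSympFwd

/-! S2584 (team sprint): part [T1] `orth2_rank_even` and the whole forward direction
`s2584_fwd` (backup), on top of `Helper13/JordChar2.lean`. -/

set_option autoImplicit false

open Matrix

namespace Cfsg.Agent.Helper13

/-- [T1] In characteristic two, a matrix preserving a quadratic form with nondegenerate polar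
form has even rank of `(A - 1) ^ k` for every even `k`. -/
theorem orth2_rank_even {F : Type*} [Field F] [CharP F 2] {n : ℕ}
    (Q : QuadraticForm F (Fin n → F)) (hQ : (QuadraticMap.polarBilin Q).Nondegenerate)
    (A : Matrix (Fin n) (Fin n) F) (hA : ∀ v, Q (A *ᵥ v) = Q v) (k : ℕ) (hk : Even k) :
    Even ((A - 1) ^ k).rank := by
  classical
  have halt : ∀ v : Fin n → F,
      v ⬝ᵥ (LinearMap.BilinForm.toMatrix' (QuadraticMap.polarBilin Q)) *ᵥ v = 0 := by
    intro v
    rw [← Matrix.toBilin'_apply', Matrix.toBilin'_toMatrix',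
      QuadraticMap.polarBilin_apply_apply, QuadraticMap.polar_self, two_nsmul]
    exact CharTwo.add_self_eq_zero _
  have hdet : (LinearMap.BilinForm.toMatrix' (QuadraticMap.polarBilin Q)).det ≠ 0 := by
    rw [← Matrix.nondegenerate_iff_det_ne_zero]
    exact LinearMap.BilinForm.nondegenerate_toMatrix'_iff.mpr hQ
  have hAP : Aᵀ * (LinearMap.BilinForm.toMatrix' (QuadraticMap.polarBilin Q)) * A
      = LinearMap.BilinForm.toMatrix' (QuadraticMap.polarBilin Q) := by
    have h2 : LinearMap.BilinForm.comp (QuadraticMap.polarBilin Q)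
        (Matrix.toLin' A) (Matrix.toLin' A) = QuadraticMap.polarBilin Q := by
      apply LinearMap.ext₂
      intro u w
      simp only [LinearMap.BilinForm.comp_apply, Matrix.toLin'_apply,
        QuadraticMap.polarBilin_apply_apply, QuadraticMap.polar, ← Matrix.mulVec_add, hA]
    have h3 := congrArg LinearMap.BilinForm.toMatrix' h2
    rw [LinearMap.BilinForm.toMatrix'_comp] at h3
    simpa using h3
  exact alt_rank_even_gen A _ halt hdet hAP k hk

/-- Forward direction of S2584 (for any `n`). -/
theorem s2584_fwd {F : Type*} [Field F] [CharP F 2] {n t : ℕ} (d : Fin t → ℕ)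
    (Q : QuadraticForm F (Fin n → F)) (hQ : (QuadraticMap.polarBilin Q).Nondegenerate)
    (e : ((k : Fin t) × Fin (d k)) ≃ Fin n) (A : ↥(Cfsg.isometryGroup F ⇑Q))
    (hconj : IsConj (Matrix.reindex e e (Cfsg.jordanTypeMatrix d F))
      ((A : Matrix.GeneralLinearGroup (Fin n) F) : Matrix (Fin n) (Fin n) F)) :
    ∀ j : ℕ, Odd j → Even (Finset.univ.filter (fun k : Fin t => d k = j)).card := by
  intro j hj
  apply Cfsg.Agent.Helper24.count_even_of_rank_even_odd d _ j hj
  intro k hk
  rw [← Cfsg.Agent.Helper2.jordanType_rank (F := F) d k,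
    ← Cfsg.Agent.Helper21.js21_rank_conj e _ _ hconj k]
  exact quad_char2_rank_even Q hQ (A : Matrix.GeneralLinearGroup (Fin n) F) A.2 k hk

end Cfsg.Agent.Helper13
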