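import Cfsg.Agent.Helper25.Gallagher
import Cfsg.Agent.Helper25.Frobenius
import Cfsg.Agent.Helper6.GoingDown
import Cfsg.Agent.Helper10.LinCharInner

set_option autoImplicit false

namespace Cfsg.Agent.Helper13

open Cfsg
open scoped ComplexConjugate

section MinNormLin

variable {G : Type*} [Group G]

/-- The sum of the squared absolute values of a function, through `classInner`. -/
theorem sum_normSq_eq_card_mul [Fintype G] (f : G → ℂ) :
    ((∑ g : G, Complex.normSq (f g) : ℝ) : ℂ) = (Nat.card G : ℂ) * classInner f f := by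
  have hG0 : (Nat.card G : ℂ) ≠ 0 := by exact_mod_cast Nat.card_pos.ne'
  unfold classInner
  rw [← mul_assoc, mul_inv_cancel₀ hG0, one_mul, Complex.ofReal_sum]
  exact Finset.sum_congr rfl fun g _ => (Complex.mul_conj (f g)).symm

/-- The squared absolute values of a character over a coset of a normal subgroup sum to at most
the value over the subgroup itself. -/
theorem coset_normSq_le [Fintype G] (N : Subgroup G) [hN : N.Normal] [Fintype N] {χ : G → ℂ}
    (hχ : IsCharacter G χ) (t : ℕ)
    (ht : classInner (fun n : N => χ n) (fun n : N => χ n) = (t : ℂ)) (g : G) :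
    ∑ n : N, Complex.normSq (χ ((n : G) * g)) ≤ (Nat.card N : ℝ) * t := by
  have hN0 : (0 : ℝ) < Nat.card N := by exact_mod_cast Nat.card_pos
  have hΛ := Helper25.isCharacter_cosetPair N hχ hχ
  have h1 := Helper25.char_norm_le hΛ g
  have hv : ∀ x : G, Helper25.cosetPair N χ χ x =
      (((Nat.card N : ℝ)⁻¹ * ∑ n : N, Complex.normSq (χ ((n : G) * x)) : ℝ) : ℂ) := by
    intro x
    unfold Helper25.cosetPair
    rw [Complex.ofReal_mul, Complex.ofReal_inv, Complex.ofReal_natCast, Complex.ofReal_sum]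
    congr 1
    exact Finset.sum_congr rfl fun n _ => Complex.mul_conj _
  have h11 : Helper25.cosetPair N χ χ 1 = (t : ℂ) := by
    rw [← ht]
    unfold Helper25.cosetPair classInner
    congr 1
    exact Finset.sum_congr rfl fun n _ => by rw [mul_one]
  rw [h11, hv g, Complex.norm_real, Complex.norm_natCast, Real.norm_of_nonneg
    (mul_nonneg (inv_nonneg.mpr hN0.le) (Finset.sum_nonneg fun n _ => Complex.normSq_nonneg _)),
    inv_mul_le_iff₀ hN0] at h1
  exact h1

/-- Linear characters agreeing after multiplication by an irreducible character whose restriction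
to a normal subgroup in their kernels has norm `t`: there are at most `t` of them. -/
theorem linear_fiber_le [Fintype G] (N : Subgroup G) [hN : N.Normal] [Fintype N] {χ₀ : G → ℂ}
    (hχ₀ : IsIrrCharacter G χ₀) (t : ℕ)
    (ht : classInner (fun n : N => χ₀ n) (fun n : N => χ₀ n) = (t : ℂ))
    (L : Finset (IrrCharacter G)) (μ : G → ℂ) (hμ : ∀ g, Complex.normSq (μ g) = 1)
    (hLN : ∀ l ∈ L, ∀ (n : N) (g : G), (l : G → ℂ) ((n : G) * g) = (l : G → ℂ) g)
    (hL : ∀ l ∈ L, ∀ g, (l : G → ℂ) g * χ₀ g = μ g * χ₀ g) : L.card ≤ t := by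
  classical
  rcases Nat.eq_zero_or_pos L.card with h0 | h0
  · rw [h0]
    exact Nat.zero_le _
  have hχc := Helper24.isCharacter_of_irr hχ₀
  obtain ⟨f, hf⟩ : ∃ f : G → ℂ, f = ∑ l ∈ L, (l : G → ℂ) := ⟨_, rfl⟩
  have hfv : ∀ g, f g = ∑ l ∈ L, (l : G → ℂ) g := by
    intro g
    rw [hf, Finset.sum_apply]
  have hff : classInner f f = (L.card : ℂ) := by
    rw [hf, Helper2.classInner_sum_left]
    have h1 : ∀ i ∈ L, classInner (i : G → ℂ) (∑ l ∈ L, (l : G → ℂ)) = 1 := by
      intro i hi
      rw [Helper2.classInner_sum_right, Finset.sum_eq_single i]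
      · rw [Helper2.classInner_irr i.2 i.2, if_pos rfl]
      · intro b _ hb
        rw [Helper2.classInner_irr i.2 b.2, if_neg (fun h => hb (Subtype.ext h).symm)]
      · intro h
        exact absurd hi h
    rw [Finset.sum_congr rfl h1, Finset.sum_const, nsmul_eq_mul, mul_one]
  have hfN : ∀ (n : N) (g : G), f ((n : G) * g) = f g := by
    intro n g
    rw [hfv, hfv]
    exact Finset.sum_congr rfl fun l hl => hLN l hl n g
  have key1 : ∀ g, Complex.normSq (f g) * Complex.normSq (χ₀ g) =
      (L.card : ℝ) ^ 2 * Complex.normSq (χ₀ g) := by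
    intro g
    have h1 : f g * χ₀ g = (L.card : ℂ) * (μ g * χ₀ g) := by
      rw [hfv, Finset.sum_mul, Finset.sum_congr rfl (fun l hl => hL l hl g), Finset.sum_const,
        nsmul_eq_mul]
    have h2 := congrArg Complex.normSq h1
    rw [Complex.normSq_mul, Complex.normSq_mul, Complex.normSq_mul, hμ, one_mul,
      Complex.normSq_natCast] at h2
    rw [h2]
    ring
  have key2 : ∑ g : G, Complex.normSq (χ₀ g) = (Nat.card G : ℝ) := by
    have h := sum_normSq_eq_card_mul χ₀
    rw [Helper2.classInner_irr hχ₀ hχ₀, if_pos rfl, mul_one] at h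
    exact_mod_cast h
  have key3 : ∑ g : G, Complex.normSq (f g) = (Nat.card G : ℝ) * L.card := by
    have h := sum_normSq_eq_card_mul f
    rw [hff] at h
    exact_mod_cast h
  have key5 : (Nat.card N : ℝ) * ∑ g : G, Complex.normSq (f g) * Complex.normSq (χ₀ g) =
      ∑ g : G, Complex.normSq (f g) * ∑ n : N, Complex.normSq (χ₀ ((n : G) * g)) := by
    have h1 : ∀ n : N, ∑ g : G, Complex.normSq (f g) * Complex.normSq (χ₀ g) =
        ∑ g : G, Complex.normSq (f g) * Complex.normSq (χ₀ ((n : G) * g)) := by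
      intro n
      refine (Fintype.sum_equiv (Equiv.mulLeft (n : G)) _ _ (fun g => ?_)).symm
      rw [Equiv.coe_mulLeft, hfN]
    calc (Nat.card N : ℝ) * ∑ g : G, Complex.normSq (f g) * Complex.normSq (χ₀ g)
        = ∑ n : N, ∑ g : G, Complex.normSq (f g) * Complex.normSq (χ₀ g) := by
          rw [Finset.sum_const, Finset.card_univ, nsmul_eq_mul, Nat.card_eq_fintype_card]
      _ = ∑ n : N, ∑ g : G, Complex.normSq (f g) * Complex.normSq (χ₀ ((n : G) * g)) :=
          Finset.sum_congr rfl fun n _ => h1 n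
      _ = _ := by
          rw [Finset.sum_comm]
          exact Finset.sum_congr rfl fun g _ => (Finset.mul_sum _ _ _).symm
  have key6 : ∑ g : G, Complex.normSq (f g) * ∑ n : N, Complex.normSq (χ₀ ((n : G) * g)) ≤
      ∑ g : G, Complex.normSq (f g) * ((Nat.card N : ℝ) * t) :=
    Finset.sum_le_sum fun g _ =>
      mul_le_mul_of_nonneg_left (coset_normSq_le N hχc t ht g) (Complex.normSq_nonneg _)
  have key7 : ∑ g : G, Complex.normSq (f g) * Complex.normSq (χ₀ g) =
      (L.card : ℝ) ^ 2 * Nat.card G := by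
    rw [Finset.sum_congr rfl (fun g _ => key1 g), ← Finset.mul_sum, key2]
  rw [← Finset.sum_mul, key3] at key6
  rw [← key5, key7] at key6
  have hN0 : (0 : ℝ) < Nat.card N := by exact_mod_cast Nat.card_pos
  have hG0 : (0 : ℝ) < Nat.card G := by exact_mod_cast Nat.card_pos
  have hL0 : (0 : ℝ) < L.card := by exact_mod_cast h0
  have h8 : ((Nat.card N : ℝ) * Nat.card G * L.card) * L.card ≤
      ((Nat.card N : ℝ) * Nat.card G * L.card) * t := by
    calc ((Nat.card N : ℝ) * Nat.card G * L.card) * L.card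
        = (Nat.card N : ℝ) * ((L.card : ℝ) ^ 2 * Nat.card G) := by ring
      _ ≤ (Nat.card G : ℝ) * L.card * ((Nat.card N : ℝ) * t) := key6
      _ = _ := by ring
  have h9 := le_of_mul_le_mul_left h8 (by positivity)
  exact_mod_cast h9

/-- If an irreducible character `φ` of a normal subgroup extends to its inertia group `I`, there
is an irreducible character of the group of degree `φ(1)[G:I]` whose restriction has norm
`[G:I]`. -/
theorem exists_irr_over_ext [Fintype G] (N : Subgroup G) [hN : N.Normal] [Fintype N] {φ : N → ℂ}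
    (hφ : IsIrrCharacter N φ) (I : Subgroup G) [Fintype I]
    (hI : ∀ g, g ∈ I ↔ ∀ n : N, φ ⟨g * n * g⁻¹, hN.conj_mem (n : G) n.2 g⟩ = φ n) (hNI : N ≤ I)
    {ψ : I → ℂ} (hψ : IsIrrCharacter I ψ) (hext : ∀ n : N, ψ (Subgroup.inclusion hNI n) = φ n) :
    ∃ χ₀ : G → ℂ, IsIrrCharacter G χ₀ ∧ charDegree χ₀ = charDegree φ * I.index ∧
      classInner (fun n : N => χ₀ n) (fun n : N => χ₀ n) = (I.index : ℂ) := by
  classical
  have hψc := Helper24.isCharacter_of_irr hψ
  have hφc := Helper24.isCharacter_of_irr hφ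
  have hθ : IsCharacter G (indFun I ψ) := Helper2.isCharacter_indFun I hψc
  have hθ1 : indFun I ψ 1 = (Nat.card G : ℂ) / (Nat.card I : ℂ) * ψ 1 := Helper6.indFun_one I ψ
  have hψ1 : ψ 1 = φ 1 := by
    have h := hext 1
    rw [map_one] at h
    exact h
  have hidx : Nat.card I * I.index = Nat.card G := Subgroup.card_mul_index I
  have hI0 : 0 < Nat.card I := Nat.card_pos
  have hG0 : 0 < Nat.card G := Nat.card_pos
  have hi0 : 0 < I.index := by
    rcases Nat.eq_zero_or_pos I.index with h | h
    · rw [h, mul_zero] at hidx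
      omega
    · exact h
  have hd0 : 0 < charDegree φ := Helper24.irr_degree_pos hφ
  have hθdeg : charDegree (indFun I ψ) = charDegree φ * I.index := by
    have h1 := Helper24.charDegree_spec hθ
    have h2 := Helper24.charDegree_spec hφc
    rw [hθ1, hψ1, h2] at h1
    have hI0' : (Nat.card I : ℂ) ≠ 0 := by exact_mod_cast hI0.ne'
    have h3 : ((charDegree (indFun I ψ) : ℕ) : ℂ) = ((charDegree φ * I.index : ℕ) : ℂ) := by
      rw [← h1, ← hidx]
      push_cast
      field_simp
    exact_mod_cast h3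
  have hθ0 : indFun I ψ ≠ 0 := by
    intro h0
    have h1 := Helper24.charDegree_spec hθ
    rw [hθdeg, h0, Pi.zero_apply] at h1
    have h2 : (0 : ℕ) = charDegree φ * I.index := by exact_mod_cast h1
    have h3 := Nat.mul_pos hd0 hi0
    omega
  obtain ⟨χ₀, hχ₀, hne0⟩ :=
    Helper2.exists_irr_constituent (Helper2.IsCharacter.isClassFunction hθ) hθ0
  have hχc := Helper24.isCharacter_of_irr hχ₀
  have hne : classInner (fun h : I => χ₀ h) ψ ≠ 0 := by
    rw [← Helper6.classInner_indFun_eq I hψc hχc]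
    exact hne0
  have hsub := Helper2.isCharacter_sub_of_constituent (Helper24.isCharacter_restrict I hχc) hψ hne
  have hsubN : IsCharacter N (((fun h : I => χ₀ h) - ψ) ∘ (Subgroup.inclusion hNI)) :=
    Helper6.isCharacter_comp_hom (Subgroup.inclusion hNI) hsub
  have heqN : (((fun h : I => χ₀ h) - ψ) ∘ (Subgroup.inclusion hNI)) =
      (fun n : N => χ₀ n) - φ := by
    funext n
    rw [Function.comp_apply, Pi.sub_apply, Pi.sub_apply, hext n]
    rfl
  rw [heqN] at hsubN
  obtain ⟨m, hm⟩ := Helper2.classInner_char_nat hsubN hφc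
  have hne' : classInner (fun n : N => χ₀ n) φ ≠ 0 := by
    have h1 : classInner (fun n : N => χ₀ n) φ = ((m + 1 : ℕ) : ℂ) := by
      have h := Helper2.classInner_sub_left (fun n : N => χ₀ n) φ φ
      rw [hm, Helper2.classInner_irr hφ hφ, if_pos rfl] at h
      push_cast
      linear_combination -h
    rw [h1]
    exact_mod_cast Nat.succ_ne_zero m
  obtain ⟨e, F, he0, hFconj, hφF, hFcard, hres, _, hnorm⟩ :=
    Helper6.clifford_finset N hχ₀ hφ hne'
  have hin : Helper6.inertia N φ = I := by
    ext g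
    rw [Helper6.mem_inertia, hI]
  rw [hin] at hFcard
  have hFt : F.card = I.index := by
    have h1 : F.card * Nat.card I = I.index * Nat.card I := by
      rw [hFcard, mul_comm, hidx]
    exact Nat.eq_of_mul_eq_mul_right hI0 h1
  have hdeg : charDegree χ₀ = e * (F.card * charDegree φ) := by
    have h1 := congrFun hres 1
    rw [Pi.smul_apply, Finset.sum_apply, smul_eq_mul] at h1
    have h2 : ∀ ψ' ∈ F, ψ' 1 = (charDegree φ : ℂ) := by
      intro ψ' hψ'
      obtain ⟨g, rfl⟩ := hFconj ψ' hψ'
      rw [Helper6.conjFun_one_apply, Helper24.charDegree_spec hφc]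
    rw [Finset.sum_congr rfl h2, Finset.sum_const, nsmul_eq_mul] at h1
    have h3 := Helper24.charDegree_spec hχc
    have h4 : ((charDegree χ₀ : ℕ) : ℂ) = ((e * (F.card * charDegree φ) : ℕ) : ℂ) := by
      rw [← h3]
      push_cast
      exact h1
    exact_mod_cast h4
  have hle := Helper2.charDegree_le_of_constituent hθ hχ₀ hne0
  rw [hθdeg, hdeg, hFt] at hle
  have he1 : e = 1 := by
    have h1 : e * (I.index * charDegree φ) ≤ 1 * (I.index * charDegree φ) := by
      rw [one_mul]
      exact hle.trans (le_of_eq (mul_comm _ _))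
    have h2 := Nat.le_of_mul_le_mul_right h1 (Nat.mul_pos hi0 hd0)
    omega
  refine ⟨χ₀, hχ₀, ?_, ?_⟩
  · rw [hdeg, he1, hFt, one_mul, mul_comm]
  · rw [hnorm, he1, hFt]
    push_cast
    ring

end MinNormLin

end Cfsg.Agent.Helper13
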