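import Mathlib

set_option autoImplicit false

namespace Cfsg.Agent.Helper13

open Equiv

/-- Restriction of an involution to an invariant finset, as a permutation. -/
theorem nilalt_restr {α : Type} [DecidableEq α] (x : Perm α) (hx2 : x * x = 1) (T : Finset α)
    (hT : ∀ a ∈ T, x a ∈ T) : ∃ t : Perm α, ∀ a, t a = if a ∈ T then x a else a := by
  have hxx : ∀ a, x (x a) = a := fun a => by
    have := congrArg (fun f : Perm α => f a) hx2
    simpa using this
  have hinv : Function.Involutive (fun a => if a ∈ T then x a else a) := by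
    intro a
    by_cases h : a ∈ T
    · simp [h, hT a h, hxx]
    · simp [h]
  exact ⟨hinv.toPerm _, fun a => rfl⟩

/-- Such a restriction squares to one. -/
theorem nilalt_restr_sq {α : Type} [DecidableEq α] (x : Perm α) (hx2 : x * x = 1) (T : Finset α)
    (hT : ∀ a ∈ T, x a ∈ T) (t : Perm α) (ht : ∀ a, t a = if a ∈ T then x a else a) :
    t ^ 2 = 1 := by
  have hxx : ∀ a, x (x a) = a := fun a => by
    have := congrArg (fun f : Perm α => f a) hx2
    simpa using this
  ext b
  simp only [pow_two, Perm.mul_apply, Perm.one_apply]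
  by_cases hb : b ∈ T
  · rw [ht b, if_pos hb, ht (x b), if_pos (hT b hb), hxx]
  · rw [ht b, if_neg hb, ht b, if_neg hb]

theorem exists_odd_perm_commuting {α : Type} [Fintype α] [DecidableEq α]
    (Q : Subgroup (Equiv.Perm α)) (hQ : Odd (Nat.card Q)) (x : Equiv.Perm α) (hx1 : x ≠ 1)
    (hx2 : x * x = 1) (hxQ : ∀ q ∈ Q, x * q = q * x) :
    ∃ t : Equiv.Perm α, (∀ q ∈ Q, t * q = q * t) ∧ Equiv.Perm.sign t = -1 := by
  classical
  have hxx : ∀ a, x (x a) = a := fun a => by
    have := congrArg (fun f : Perm α => f a) hx2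
    simpa using this
  have hxq : ∀ q ∈ Q, ∀ a, x (q a) = q (x a) := fun q hq a => by
    have := congrArg (fun f : Perm α => f a) (hxQ q hq)
    simpa using this
  obtain ⟨w, hw⟩ : ∃ w, x w ≠ w := by
    by_contra h
    exact hx1 (Equiv.ext fun a => by
      by_contra ha
      exact h ⟨a, ha⟩)
  let O : Finset α := Finset.univ.filter (fun a => ∃ q ∈ Q, q w = a)
  have hO : ∀ a, a ∈ O ↔ ∃ q ∈ Q, q w = a := by
    intro a; simp [O]
  have hwO : w ∈ O := (hO w).2 ⟨1, Q.one_mem, rfl⟩
  have hOQ : ∀ q ∈ Q, ∀ a ∈ O, q a ∈ O := by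
    intro q hq a ha
    obtain ⟨r, hr, rfl⟩ := (hO a).1 ha
    exact (hO _).2 ⟨q * r, Q.mul_mem hq hr, rfl⟩
  have hOodd : Odd O.card := by
    have h1 : (MulAction.stabilizer Q w).index = (MulAction.orbit Q w).ncard :=
      MulAction.index_stabilizer Q w
    have h2 : (MulAction.orbit Q w) = (↑O : Set α) := by
      ext a
      simp only [MulAction.mem_orbit_iff, Finset.mem_coe, hO]
      constructor
      · rintro ⟨q, rfl⟩; exact ⟨q.1, q.2, rfl⟩
      · rintro ⟨q, hq, rfl⟩; exact ⟨⟨q, hq⟩, rfl⟩
    rw [h2, Set.ncard_coe_finset] at h1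
    rw [← h1]
    exact Odd.of_dvd_nat hQ (Subgroup.index_dvd_card _)
  have hdisj : ∀ a ∈ O, x a ∉ O := by
    intro a ha hxa
    obtain ⟨q, hq, rfl⟩ := (hO a).1 ha
    have hxw : x w ∈ O := by
      have e : x w = q⁻¹ (x (q w)) := by rw [hxq q hq]; simp
      rw [e]; exact hOQ q⁻¹ (Q.inv_mem hq) _ hxa
    have hinvO : ∀ b ∈ O, x b ∈ O := by
      intro b hb
      obtain ⟨r, hr, rfl⟩ := (hO b).1 hb
      rw [hxq r hr]; exact hOQ r hr _ hxw
    obtain ⟨t, ht⟩ := nilalt_restr x hx2 O hinvO
    have ht2 : t ^ 2 = 1 := nilalt_restr_sq x hx2 O hinvO t ht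
    have hsupp : t.support ⊆ O := by
      intro b hb
      by_contra hbO
      rw [Perm.mem_support, ht b, if_neg hbO] at hb
      exact hb rfl
    have h2 := Equiv.Perm.two_dvd_card_support ht2
    have hne : t.support ≠ O := by
      intro h
      rw [h] at h2
      exact (Nat.not_even_iff_odd.2 hOodd) (even_iff_two_dvd.2 h2)
    obtain ⟨z, hzO, hzs⟩ : ∃ z ∈ O, z ∉ t.support := by
      by_contra hcon
      exact hne (Finset.Subset.antisymm hsupp (fun z hz => by
        by_contra hzs
        exact hcon ⟨z, hz, hzs⟩))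
    have hz : x z = z := by
      have := Perm.notMem_support.1 hzs
      rwa [ht z, if_pos hzO] at this
    obtain ⟨r, hr, rfl⟩ := (hO z).1 hzO
    apply hw
    have e : x (r w) = r (x w) := hxq r hr w
    rw [hz] at e
    exact (r.injective e).symm
  let S : Finset α := O ∪ O.image x
  have hS : ∀ a, a ∈ S ↔ a ∈ O ∨ ∃ b ∈ O, x b = a := by
    intro a; simp [S]
  have hSinv : ∀ a ∈ S, x a ∈ S := by
    intro a ha
    rcases (hS a).1 ha with h | ⟨b, hb, rfl⟩
    · exact (hS _).2 (Or.inr ⟨a, h, rfl⟩)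
    · rw [hxx]; exact (hS _).2 (Or.inl hb)
  obtain ⟨t, ht⟩ := nilalt_restr x hx2 S hSinv
  have hSQ : ∀ q ∈ Q, ∀ a, a ∈ S → q a ∈ S := by
    intro q hq a ha
    rcases (hS a).1 ha with h | ⟨b, hb, rfl⟩
    · exact (hS _).2 (Or.inl (hOQ q hq a h))
    · exact (hS _).2 (Or.inr ⟨q b, hOQ q hq b hb, hxq q hq b⟩)
  refine ⟨t, ?_, ?_⟩
  · intro q hq
    ext a
    simp only [Perm.mul_apply]
    by_cases ha : a ∈ S
    · rw [ht (q a), if_pos (hSQ q hq a ha), ht a, if_pos ha, hxq q hq]
    · have hqa : q a ∉ S := by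
        intro h
        have h' := hSQ q⁻¹ (Q.inv_mem hq) (q a) h
        have h'' : q⁻¹ (q a) = a := by simp
        rw [h''] at h'
        exact ha h'
      rw [ht (q a), if_neg hqa, ht a, if_neg ha]
  · have ht2 : t ^ 2 = 1 := nilalt_restr_sq x hx2 S hSinv t ht
    have hwS : w ∈ S := (hS w).2 (Or.inl hwO)
    have ht1 : t ≠ 1 := by
      intro h
      have e := ht w
      rw [h, if_pos hwS, Perm.one_apply] at e
      exact hw e.symm
    have hord : orderOf t = 2 := orderOf_eq_prime ht2 ht1
    obtain ⟨n, hn⟩ := Equiv.Perm.cycleType_prime_order (σ := t) (by rw [hord]; exact Nat.prime_two)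
    rw [hord] at hn
    have hsum : t.cycleType.sum = t.support.card := Equiv.Perm.sum_cycleType t
    have hsupp : t.support = S := by
      ext a
      rw [Perm.mem_support, ht a]
      by_cases ha : a ∈ S
      · rw [if_pos ha]
        refine ⟨fun _ => ha, fun _ => ?_⟩
        rcases (hS a).1 ha with h | ⟨b, hb, rfl⟩
        · intro hxa
          exact hdisj a h (hxa.symm ▸ h)
        · rw [hxx]
          intro hbx
          exact hdisj b hb (hbx ▸ hb)
      · rw [if_neg ha]
        exact ⟨fun h => (h rfl).elim, fun h => (ha h).elim⟩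
    have hScard : S.card = 2 * O.card := by
      have hd : Disjoint O (O.image x) := by
        rw [Finset.disjoint_left]
        intro a ha ha'
        obtain ⟨b, hb, rfl⟩ := Finset.mem_image.1 ha'
        exact hdisj b hb ha
      rw [Finset.card_union_of_disjoint hd, Finset.card_image_of_injective _ x.injective]
      ring
    have hn1 : n + 1 = O.card := by
      rw [hn, Multiset.sum_replicate, hsupp, hScard] at hsum
      simp only [smul_eq_mul] at hsum
      omega
    rw [Equiv.Perm.sign_of_cycleType, hn, Multiset.sum_replicate, Multiset.card_replicate]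
    have hodd : Odd ((n + 1) • 2 + (n + 1)) := by
      rw [hn1]
      simp only [smul_eq_mul]
      exact (even_two.mul_left _).add_odd hOodd
    exact hodd.neg_one_pow

end Cfsg.Agent.Helper13
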