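import Mathlib
import Cfsg.Agent.Lead.NilNum

set_option autoImplicit false

namespace Cfsg.Agent.Helper13

open Cfsg.Agent

/-- `v₂((2a+1)!) = v₂((2a)!)`. -/
theorem nbo_odd (a : ℕ) :
    (2 * a + 1).factorial.factorization 2 = (2 * a).factorial.factorization 2 := by
  have h : (2 * a + 1).factorial = (2 * a + 1) * (2 * a).factorial := Nat.factorial_succ (2 * a)
  rw [h, Nat.factorization_mul (by omega) (Nat.factorial_ne_zero _)]
  simp [Nat.factorization_eq_zero_of_not_dvd (show ¬ 2 ∣ 2 * a + 1 by omega)]

/-- `v₂(x!) + v₂(y!) + 1 ≤ v₂((x+y)!)` for odd `x`, `y`. -/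
theorem nbo_vodd {x y : ℕ} (hx : Odd x) (hy : Odd y) :
    x.factorial.factorization 2 + y.factorial.factorization 2 + 1
      ≤ (x + y).factorial.factorization 2 := by
  obtain ⟨a, rfl⟩ := hx
  obtain ⟨b, rfl⟩ := hy
  rw [nbo_odd a, nbo_odd b]
  have h1 := Lead.nn_v_add (2 * a) (2 * b)
  have h2 := Lead.nn_v2 (2 * a + 2 * b)
  have e : 2 * a + 1 + (2 * b + 1) = 2 * a + 2 * b + 2 := by ring
  rw [e]
  omega

/-- `v₂(x!) + 3 ≤ v₂((x+3)!)` for odd `x`. -/
theorem nbo_v3odd {x : ℕ} (hx : Odd x) :
    x.factorial.factorization 2 + 3 ≤ (x + 3).factorial.factorization 2 := by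
  obtain ⟨a, rfl⟩ := hx
  have hd : 8 * (2 * a + 1).factorial ∣ (2 * a + 1 + 3).factorial := by
    rw [Lead.nn_fact3]
    apply Nat.mul_dvd_mul_right
    obtain ⟨k, hk⟩ := Nat.even_mul_succ_self (a + 1)
    refine ⟨k * (2 * a + 3), ?_⟩
    have e : (2 * a + 1 + 1) * (2 * a + 1 + 2) * (2 * a + 1 + 3)
        = 4 * ((a + 1) * (a + 1 + 1)) * (2 * a + 3) := by ring
    rw [e, hk]; ring
  have := Lead.nn_v_of_dvd 8 (2 * a + 1) 3 (by norm_num) hd
  rw [Lead.nn_fz8] at this
  omega

theorem nbo_nine : 7 ≤ (Nat.factorial 9).factorization 2 := by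
  apply (Nat.prime_two.pow_dvd_iff_le_factorization (Nat.factorial_ne_zero 9)).1
  decide

theorem nil_prod_odd_le (c : ℕ → ℕ)
    (hc : ∀ m, 0 < m → m ≠ 3 → c m ≤ 2 ^ (m.factorial.factorization 2)) (hc3 : c 3 = 3)
    (hc2 : ∀ m, Odd m → m ≠ 1 → m ≠ 3 → m ≠ 5 → m ≠ 9 →
      2 * c m ≤ 2 ^ (m.factorial.factorization 2))
    (l : Multiset ℕ) (hodd : ∀ m ∈ l, Odd m) (h : l.sum % 4 ≠ 3) (h5 : l.sum ≠ 5)
    (h6 : l.sum ≠ 6) (h9 : l.sum ≠ 9) (h2 : 2 ≤ l.sum) :
    2 * (l.map c).prod ≤ 2 ^ (l.sum.factorial.factorization 2) := by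
  by_cases hall : ∀ m ∈ l, m = 3
  · -- all parts are 3
    have hl : l = Multiset.replicate (Multiset.card l) 3 := Multiset.eq_replicate_card.2 hall
    set b := Multiset.card l with hb
    have hsum : l.sum = 3 * b := by
      rw [hl, Multiset.sum_replicate, smul_eq_mul, mul_comm]
    have hb3 : 3 ≤ b := by omega
    have hprod : (l.map c).prod = 3 ^ b := by
      rw [hl, Multiset.map_replicate, Multiset.prod_replicate, hc3]
    let c' : ℕ → ℕ := fun m => if m = 9 then 54 else c m
    have hc' : ∀ m, 0 < m → m ≠ 3 → c' m ≤ 2 ^ (m.factorial.factorization 2) := by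
      intro m hm hm3
      by_cases h9' : m = 9
      · simp only [c', h9', if_true]
        calc 54 ≤ 2 ^ 7 := by norm_num
          _ ≤ 2 ^ ((Nat.factorial 9).factorization 2) :=
              Nat.pow_le_pow_right (by norm_num) nbo_nine
      · simp only [c', h9', if_false]
        exact hc m hm hm3
    have hc3' : c' 3 = 3 := by simp [c', hc3]
    have key := Lead.nil_prod_le_of c' hc' hc3' (9 ::ₘ Multiset.replicate (b - 3) 3)
      (by
        intro m hm
        rcases Multiset.mem_cons.1 hm with rfl | hm
        · norm_num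
        · rw [Multiset.eq_of_mem_replicate hm]; norm_num)
      (by
        rw [Multiset.sum_cons, Multiset.sum_replicate, smul_eq_mul]
        omega)
    rw [Multiset.map_cons, Multiset.prod_cons, Multiset.map_replicate, Multiset.prod_replicate,
      Multiset.sum_cons, Multiset.sum_replicate, smul_eq_mul, hc3'] at key
    have e1 : c' 9 = 54 := by simp [c']
    have e2 : 9 + (b - 3) * 3 = 3 * b := by omega
    have e3 : 3 ^ b = 27 * 3 ^ (b - 3) := by
      have : b = 3 + (b - 3) := by omega
      conv_lhs => rw [this, pow_add]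
      norm_num
    rw [e1, e2] at key
    rw [hprod, hsum, e3]
    calc 2 * (27 * 3 ^ (b - 3)) = 54 * 3 ^ (b - 3) := by ring
      _ ≤ _ := key
  · -- some part x ≠ 3
    have hex : ∃ x ∈ l, x ≠ 3 := by
      by_contra hcon
      exact hall (fun m hm => by
        by_contra hm3
        exact hcon ⟨m, hm, hm3⟩)
    obtain ⟨x, hx, hx3⟩ := hex
    obtain ⟨l₁, rfl⟩ := Multiset.exists_cons_of_mem hx
    have hxodd : Odd x := hodd x (Multiset.mem_cons_self x l₁)
    have hxpos : 0 < x := hxodd.pos
    rcases Multiset.empty_or_exists_mem l₁ with rfl | ⟨y, hy⟩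
    · -- single part
      simp only [Multiset.cons_zero, Multiset.sum_singleton, Multiset.map_singleton,
        Multiset.prod_singleton] at h h5 h9 h2 ⊢
      exact hc2 x hxodd (by omega) hx3 h5 h9
    · obtain ⟨rest, rfl⟩ := Multiset.exists_cons_of_mem hy
      have hyodd : Odd y := hodd y (Multiset.mem_cons_of_mem (Multiset.mem_cons_self y rest))
      have hypos : 0 < y := hyodd.pos
      have hrest : ∀ m ∈ rest, Odd m := fun m hm =>
        hodd m (Multiset.mem_cons_of_mem (Multiset.mem_cons_of_mem hm))
      have hxy : 2 * c x * c y ≤ 2 ^ ((x + y).factorial.factorization 2) := by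
        have hcx := hc x hxpos hx3
        by_cases hy3 : y = 3
        · rw [hy3, hc3]
          have hv := nbo_v3odd hxodd
          calc 2 * c x * 3 ≤ 2 * 2 ^ (x.factorial.factorization 2) * 3 := by
                exact Nat.mul_le_mul_right 3 (Nat.mul_le_mul_left 2 hcx)
            _ ≤ 2 ^ (x.factorial.factorization 2) * 2 ^ 3 := by
                have := Nat.pos_of_ne_zero
                  (pow_ne_zero (x.factorial.factorization 2) (two_ne_zero (α := ℕ)))
                nlinarith
            _ = 2 ^ (x.factorial.factorization 2 + 3) := by rw [pow_add]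
            _ ≤ 2 ^ ((x + 3).factorial.factorization 2) :=
                Nat.pow_le_pow_right (by norm_num) hv
        · have hcy := hc y hypos hy3
          have hv := nbo_vodd hxodd hyodd
          calc 2 * c x * c y
              ≤ 2 * 2 ^ (x.factorial.factorization 2) * 2 ^ (y.factorial.factorization 2) :=
                Nat.mul_le_mul (Nat.mul_le_mul_left 2 hcx) hcy
            _ = 2 ^ (x.factorial.factorization 2 + y.factorial.factorization 2 + 1) := by
                rw [pow_add, pow_add]; ring
            _ ≤ 2 ^ ((x + y).factorial.factorization 2) :=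
                Nat.pow_le_pow_right (by norm_num) hv
      let c' : ℕ → ℕ := fun m => if m = x + y then 2 * c x * c y else c m
      have hxyeven : Even (x + y) := hxodd.add_odd hyodd
      have hc' : ∀ m, 0 < m → m ≠ 3 → c' m ≤ 2 ^ (m.factorial.factorization 2) := by
        intro m hm hm3
        by_cases hmxy : m = x + y
        · simp only [c', hmxy, if_true]
          exact hxy
        · simp only [c', hmxy, if_false]
          exact hc m hm hm3
      have hc3' : c' 3 = 3 := by
        have hne : (3 : ℕ) ≠ x + y := by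
          intro h3
          rw [← h3] at hxyeven
          exact absurd hxyeven (by decide)
        simp only [c', hne, if_false]
        exact hc3
      have key := Lead.nil_prod_le_of c' hc' hc3' ((x + y) ::ₘ rest)
        (by
          intro m hm
          rcases Multiset.mem_cons.1 hm with rfl | hm
          · omega
          · exact (hrest m hm).pos)
        (by
          rw [Multiset.sum_cons]
          rw [Multiset.sum_cons, Multiset.sum_cons] at h
          omega)
      have hmap : rest.map c' = rest.map c := by
        apply Multiset.map_congr rfl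
        intro m hm
        have hne : m ≠ x + y := by
          intro hmxy
          have := hrest m hm
          rw [hmxy] at this
          exact (Nat.not_even_iff_odd.2 this) hxyeven
        simp only [c', hne, if_false]
      rw [Multiset.map_cons, Multiset.prod_cons, hmap, Multiset.sum_cons] at key
      have e1 : c' (x + y) = 2 * c x * c y := by simp [c']
      rw [e1] at key
      rw [Multiset.map_cons, Multiset.map_cons, Multiset.prod_cons, Multiset.prod_cons,
        Multiset.sum_cons, Multiset.sum_cons]
      calc 2 * (c x * (c y * (rest.map c).prod)) = 2 * c x * c y * (rest.map c).prod := by ring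
        _ ≤ 2 ^ ((x + y + rest.sum).factorial.factorization 2) := key
        _ = _ := by rw [add_assoc]

end Cfsg.Agent.Helper13
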