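import Mathlib
import Cfsg.Agent.Lead.NilNum
import Cfsg.Agent.Helper13.NilOdd

set_option autoImplicit false

namespace Cfsg.Agent.Helper13

open Cfsg.Agent

/-- `v₂((4k+3)!) = v₂((4k)!) + 1`. -/
theorem nb3_v (k : ℕ) :
    (4 * k + 3).factorial.factorization 2 = (4 * k).factorial.factorization 2 + 1 := by
  have h1 : (4 * k + 3).factorial.factorization 2 = (2 * (2 * k + 1)).factorial.factorization 2 := by
    have := nbo_odd (2 * k + 1)
    rw [show 2 * (2 * k + 1) + 1 = 4 * k + 3 by ring] at this
    exact this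
  have h2 : (2 * (2 * k + 1)).factorial.factorization 2
      = (2 * k + 1).factorial.factorization 2 + (2 * k + 1) :=
    Nat.factorization_factorial_mul Nat.prime_two
  have h3 := nbo_odd k
  have h4 : (2 * (2 * k)).factorial.factorization 2 = (2 * k).factorial.factorization 2 + 2 * k :=
    Nat.factorization_factorial_mul Nat.prime_two
  rw [show 2 * (2 * k) = 4 * k by ring] at h4
  omega

/-- Without parts equal to `3` the product bound is plain superadditivity. -/
theorem nb3_no3 (c : ℕ → ℕ)
    (hc : ∀ m, 0 < m → m ≠ 3 → c m ≤ 2 ^ (m.factorial.factorization 2))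
    (r : Multiset ℕ) (hr : ∀ m ∈ r, 0 < m ∧ m ≠ 3) :
    (r.map c).prod ≤ 2 ^ (r.sum.factorial.factorization 2) := by
  induction r using Multiset.induction_on with
  | empty => simp
  | cons a r ih =>
    have ha := hr a (Multiset.mem_cons_self a r)
    have ih' := ih (fun m hm => hr m (Multiset.mem_cons_of_mem hm))
    rw [Multiset.map_cons, Multiset.prod_cons, Multiset.sum_cons]
    calc c a * (r.map c).prod
        ≤ 2 ^ (a.factorial.factorization 2) * 2 ^ (r.sum.factorial.factorization 2) :=
          Nat.mul_le_mul (hc a ha.1 ha.2) ih'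
      _ = 2 ^ (a.factorial.factorization 2 + r.sum.factorial.factorization 2) := (pow_add _ _ _).symm
      _ ≤ 2 ^ ((a + r.sum).factorial.factorization 2) :=
          Nat.pow_le_pow_right (by norm_num) (Lead.nn_v_add a r.sum)

theorem alt3_num (c : ℕ → ℕ)
    (hc : ∀ m, 0 < m → m ≠ 3 → c m ≤ 2 ^ (m.factorial.factorization 2)) (hc3 : c 3 = 3)
    (hc2 : ∀ m, Odd m → m ≠ 1 → m ≠ 3 → m ≠ 5 → m ≠ 9 →
      2 * c m ≤ 2 ^ (m.factorial.factorization 2))
    (l : Multiset ℕ) (hodd : ∀ m ∈ l, Odd m) (h : l.sum % 4 = 3) (h7 : 7 ≤ l.sum) :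
    2 * (l.map c).prod ≤ 3 * 2 ^ ((l.sum - 3).factorial.factorization 2) := by
  by_cases h3 : 3 ∈ l
  · obtain ⟨l', rfl⟩ := Multiset.exists_cons_of_mem h3
    rw [Multiset.sum_cons] at h h7 ⊢
    rw [Multiset.map_cons, Multiset.prod_cons, hc3]
    have e : 3 + l'.sum - 3 = l'.sum := by omega
    rw [e]
    have key := nil_prod_odd_le c hc hc3 hc2 l'
      (fun m hm => hodd m (Multiset.mem_cons_of_mem hm))
      (by omega) (by omega) (by omega) (by omega) (by omega)
    calc 2 * (3 * (l'.map c).prod) = 3 * (2 * (l'.map c).prod) := by ring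
      _ ≤ 3 * 2 ^ (l'.sum.factorial.factorization 2) := Nat.mul_le_mul_left 3 key
  · have hno3 : ∀ m ∈ l, m ≠ 3 := fun m hm hm3 => h3 (hm3 ▸ hm)
    have hV : 2 ^ (l.sum.factorial.factorization 2)
        ≤ 3 * 2 ^ ((l.sum - 3).factorial.factorization 2) := by
      obtain ⟨k, hk⟩ : ∃ k, l.sum = 4 * k + 3 := ⟨l.sum / 4, by omega⟩
      rw [hk, show 4 * k + 3 - 3 = 4 * k by omega, nb3_v k, pow_succ]
      have := Nat.pos_of_ne_zero
        (pow_ne_zero ((4 * k).factorial.factorization 2) (two_ne_zero (α := ℕ)))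
      omega
    refine le_trans ?_ hV
    rcases Multiset.empty_or_exists_mem l with rfl | ⟨x, hx⟩
    · simp at h7
    obtain ⟨l₁, rfl⟩ := Multiset.exists_cons_of_mem hx
    have hxodd : Odd x := hodd x (Multiset.mem_cons_self x l₁)
    have hx3 : x ≠ 3 := hno3 x (Multiset.mem_cons_self x l₁)
    have hxpos : 0 < x := hxodd.pos
    rcases Multiset.empty_or_exists_mem l₁ with rfl | ⟨y, hy⟩
    · simp only [Multiset.cons_zero, Multiset.sum_singleton, Multiset.map_singleton,
        Multiset.prod_singleton] at h h7 ⊢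
      exact hc2 x hxodd (by omega) hx3 (by omega) (by omega)
    · obtain ⟨r, rfl⟩ := Multiset.exists_cons_of_mem hy
      have hyodd : Odd y := hodd y (Multiset.mem_cons_of_mem (Multiset.mem_cons_self y r))
      have hy3 : y ≠ 3 := hno3 y (Multiset.mem_cons_of_mem (Multiset.mem_cons_self y r))
      have hypos : 0 < y := hyodd.pos
      have hxy : 2 * c x * c y ≤ 2 ^ ((x + y).factorial.factorization 2) := by
        have hcx := hc x hxpos hx3
        have hcy := hc y hypos hy3
        have hv := nbo_vodd hxodd hyodd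
        calc 2 * c x * c y
            ≤ 2 * 2 ^ (x.factorial.factorization 2) * 2 ^ (y.factorial.factorization 2) :=
              Nat.mul_le_mul (Nat.mul_le_mul_left 2 hcx) hcy
          _ = 2 ^ (x.factorial.factorization 2 + y.factorial.factorization 2 + 1) := by
              rw [pow_add, pow_add]; ring
          _ ≤ 2 ^ ((x + y).factorial.factorization 2) :=
              Nat.pow_le_pow_right (by norm_num) hv
      have hr : (r.map c).prod ≤ 2 ^ (r.sum.factorial.factorization 2) :=
        nb3_no3 c hc r (fun m hm =>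
          ⟨(hodd m (Multiset.mem_cons_of_mem (Multiset.mem_cons_of_mem hm))).pos,
            hno3 m (Multiset.mem_cons_of_mem (Multiset.mem_cons_of_mem hm))⟩)
      rw [Multiset.map_cons, Multiset.map_cons, Multiset.prod_cons, Multiset.prod_cons,
        Multiset.sum_cons, Multiset.sum_cons]
      calc 2 * (c x * (c y * (r.map c).prod)) = (2 * c x * c y) * (r.map c).prod := by ring
        _ ≤ 2 ^ ((x + y).factorial.factorization 2) * 2 ^ (r.sum.factorial.factorization 2) :=
            Nat.mul_le_mul hxy hr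
        _ = 2 ^ ((x + y).factorial.factorization 2 + r.sum.factorial.factorization 2) :=
            (pow_add _ _ _).symm
        _ ≤ 2 ^ ((x + y + r.sum).factorial.factorization 2) :=
            Nat.pow_le_pow_right (by norm_num) (Lead.nn_v_add (x + y) r.sum)
        _ = 2 ^ ((x + (y + r.sum)).factorial.factorization 2) := by rw [add_assoc]

end Cfsg.Agent.Helper13
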