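import Mathlib
import Cfsg.Agent.Lead.NilBound

set_option autoImplicit false

namespace Cfsg.Agent.Helper13

open Cfsg.Agent

/-- If every Sylow `p`-subgroup of `N` has order dividing `(p ^ v_p(m))!`, then the `p`-adic
valuation of `#N` is at most that of `(p ^ v_p(m))!`. -/
theorem nilperm_val_le (N : Type) [Group N] [Finite N] (m : ℕ)
    (h : ∀ (p : ℕ) [Fact p.Prime] (P : Sylow p N),
      Nat.card P ∣ (p ^ m.factorization p).factorial)
    (p : ℕ) (hp : p.Prime) :
    (Nat.card N).factorization p ≤ ((p ^ m.factorization p).factorial).factorization p := by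
  have : Fact p.Prime := ⟨hp⟩
  obtain ⟨P⟩ : Nonempty (Sylow p N) := inferInstance
  have hP : Nat.card P = p ^ (Nat.card N).factorization p := Sylow.card_eq_multiplicity P
  have hd := h p P
  rw [hP] at hd
  exact (hp.pow_dvd_iff_le_factorization (Nat.factorial_ne_zero _)).1 hd

/-- The primes dividing `#N` divide `m`. -/
theorem nilperm_primeFactors_subset (N : Type) [Group N] [Finite N] (m : ℕ)
    (h : ∀ (p : ℕ) [Fact p.Prime] (P : Sylow p N),
      Nat.card P ∣ (p ^ m.factorization p).factorial) :
    (Nat.card N).primeFactors ⊆ m.primeFactors := by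
  intro p hpN
  have hp : p.Prime := Nat.prime_of_mem_primeFactors hpN
  have hval := nilperm_val_le N m h p hp
  have hpos : 0 < (Nat.card N).factorization p :=
    hp.factorization_pos_of_dvd Nat.card_pos.ne' (Nat.dvd_of_mem_primeFactors hpN)
  by_contra hpm
  have h0 : m.factorization p = 0 := by
    have hns : p ∉ m.factorization.support := by rwa [Nat.support_factorization]
    exact Finsupp.notMem_support_iff.1 hns
  rw [h0] at hval
  simp at hval
  omega

theorem card_le_nilBound_of (N : Type) [Group N] [Finite N] (m : ℕ)
    (h : ∀ (p : ℕ) [Fact p.Prime] (P : Sylow p N),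
      Nat.card P ∣ (p ^ m.factorization p).factorial) :
    Nat.card N ≤ Lead.nilBound m := by
  have hsub := nilperm_primeFactors_subset N m h
  have hN0 : Nat.card N ≠ 0 := Nat.card_pos.ne'
  have h1 : Nat.card N = ∏ p ∈ (Nat.card N).primeFactors, p ^ (Nat.card N).factorization p := by
    conv_lhs => rw [← Nat.prod_factorization_pow_eq_self hN0]
    rw [Finsupp.prod, Nat.support_factorization]
  have h2 : ∏ p ∈ (Nat.card N).primeFactors, p ^ (Nat.card N).factorization p
      ≤ ∏ p ∈ (Nat.card N).primeFactors,
          p ^ ((p ^ m.factorization p).factorial).factorization p := by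
    apply Finset.prod_le_prod'
    intro p hp
    have hpp : p.Prime := Nat.prime_of_mem_primeFactors hp
    exact Nat.pow_le_pow_right hpp.pos (nilperm_val_le N m h p hpp)
  have h3 : ∏ p ∈ (Nat.card N).primeFactors,
        p ^ ((p ^ m.factorization p).factorial).factorization p
      ≤ ∏ p ∈ m.primeFactors, p ^ ((p ^ m.factorization p).factorial).factorization p := by
    apply Finset.prod_le_prod_of_subset_of_one_le' hsub
    intro p hp _
    have hpp : p.Prime := Nat.prime_of_mem_primeFactors hp
    exact Nat.one_le_pow _ _ hpp.pos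
  unfold Lead.nilBound
  calc Nat.card N = ∏ p ∈ (Nat.card N).primeFactors, p ^ (Nat.card N).factorization p := h1
    _ ≤ _ := h2
    _ ≤ _ := h3

end Cfsg.Agent.Helper13
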