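import Mathlib

set_option autoImplicit false

namespace Cfsg.Agent.Helper13

/-- Frattini: if `K ⊴ N` has odd order and `N` has even order, then some Sylow `p`-subgroup of
`K` containing a given `p`-subgroup `R ≤ K` is normalized by an involution. -/
theorem exists_involution_normalizing_sylow {N : Type*} [Group N] [Finite N] (p : ℕ)
    [Fact p.Prime] (K : Subgroup N) [K.Normal] (hK : Odd (Nat.card K)) (hN : Even (Nat.card N))
    (R : Subgroup N) (hRK : R ≤ K) (hR : IsPGroup p R) :
    ∃ Q : Subgroup N, R ≤ Q ∧ Q ≤ K ∧ IsPGroup p Q ∧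
      Nat.card Q = p ^ (Nat.card K).factorization p ∧
      ∃ t : N, orderOf t = 2 ∧ t ∈ Subgroup.normalizer (Q : Set N) := by
  classical
  have hR' : IsPGroup p (R.subgroupOf K) := hR.comap_subtype
  obtain ⟨Q', hQ'⟩ := hR'.exists_le_sylow
  refine ⟨(Q' : Subgroup K).map K.subtype, ?_, ?_, ?_, ?_, ?_⟩
  · intro r hr
    exact ⟨⟨r, hRK hr⟩, hQ' (Subgroup.mem_subgroupOf.mpr hr), rfl⟩
  · exact Subgroup.map_subtype_le _
  · exact Q'.isPGroup'.map _
  · rw [Subgroup.card_map_of_injective (Subgroup.subtype_injective _)]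
    exact Q'.card_eq_multiplicity
  · have hsup := Sylow.normalizer_sup_eq_top Q'
    have h1 : K.relIndex (Subgroup.normalizer ((Q' : Subgroup K).map K.subtype : Set N)) =
        K.index := by
      rw [← Subgroup.relIndex_sup_right, hsup, Subgroup.relIndex_top_right]
    have h2 : Even K.index := by
      have h := Subgroup.card_mul_index K
      rw [← h] at hN
      rcases Nat.even_mul.mp hN with h' | h'
      · exact absurd h' (Nat.not_even_iff_odd.mpr hK)
      · exact h'
    have h3 : 2 ∣ Nat.card (Subgroup.normalizer ((Q' : Subgroup K).map K.subtype : Set N)) := by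
      rw [← h1] at h2
      exact (even_iff_two_dvd.mp h2).trans (Subgroup.relIndex_dvd_card _ _)
    obtain ⟨t, ht⟩ := exists_prime_orderOf_dvd_card'
      (G := Subgroup.normalizer ((Q' : Subgroup K).map K.subtype : Set N)) 2 h3
    exact ⟨(t : N), by rw [Subgroup.orderOf_coe]; exact ht, t.2⟩

/-- An element of order two is its own inverse. -/
theorem inv_eq_self_of_orderOf_two {G : Type*} [Group G] (t : G) (ht : orderOf t = 2) :
    t⁻¹ = t := by
  have h := pow_orderOf_eq_one t
  rw [ht, pow_two] at h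
  exact inv_eq_of_mul_eq_one_left h

/-- If the involution `t` inverts `x` and `C_G(x)` has odd order, then some Sylow `p`-subgroup
of `C_G(x)` containing a given `p`-subgroup is normalized by an involution. -/
theorem exists_involution_normalizing_sylow_centralizer {G : Type*} [Group G] [Finite G]
    (p : ℕ) [Fact p.Prime] (x t : G) (htx : t * x * t⁻¹ = x⁻¹) (ht : orderOf t = 2)
    (hodd : Odd (Nat.card (Subgroup.centralizer ({x} : Set G))))
    (R : Subgroup G) (hRK : R ≤ Subgroup.centralizer ({x} : Set G)) (hR : IsPGroup p R) :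
    ∃ Q : Subgroup G, R ≤ Q ∧ Q ≤ Subgroup.centralizer ({x} : Set G) ∧ IsPGroup p Q ∧
      Nat.card Q = p ^ (Nat.card (Subgroup.centralizer ({x} : Set G))).factorization p ∧
      ∃ t' : G, orderOf t' = 2 ∧ ∀ c : G, c ∈ Q → t' * c * t'⁻¹ ∈ Q := by
  classical
  have htmem : t ∈ Subgroup.normalizer ((Subgroup.centralizer ({x} : Set G) : Subgroup G) : Set G) := by
    apply Subgroup.mem_normalizer_fintype
    intro c hc
    have hc' : c * x = x * c := Subgroup.mem_centralizer_singleton_iff.mp hc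
    have hcomm : Commute c x := hc'
    have h1 := hcomm.map (MulAut.conj t)
    rw [MulAut.conj_apply, MulAut.conj_apply, htx] at h1
    have h2 : Commute (t * c * t⁻¹) x := Commute.inv_right_iff.mp h1
    exact Subgroup.mem_centralizer_singleton_iff.mpr h2
  obtain ⟨N₀, hN₀⟩ : ∃ N₀ : Subgroup G, N₀ =
    Subgroup.normalizer ((Subgroup.centralizer ({x} : Set G) : Subgroup G) : Set G) := ⟨_, rfl⟩
  obtain ⟨K₀, hK₀⟩ : ∃ K₀ : Subgroup G, K₀ = Subgroup.centralizer ({x} : Set G) := ⟨_, rfl⟩
  rw [← hK₀] at hodd hRK htmem hN₀ ⊢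
  rw [← hN₀] at htmem
  have hle : K₀ ≤ N₀ := by rw [hN₀]; exact Subgroup.le_normalizer
  haveI hnorm : (K₀.subgroupOf N₀).Normal := by
    rw [hN₀]; exact Subgroup.normal_in_normalizer
  have hcardK : Nat.card (K₀.subgroupOf N₀) = Nat.card K₀ :=
    Nat.card_congr (Subgroup.subgroupOfEquivOfLe hle).toEquiv
  have hNeven : Even (Nat.card N₀) := by
    rw [even_iff_two_dvd, ← ht]
    exact Subgroup.orderOf_dvd_natCard _ htmem
  have hR' : IsPGroup p (R.subgroupOf N₀) := hR.comap_subtype
  have hR'K : R.subgroupOf N₀ ≤ K₀.subgroupOf N₀ := Subgroup.subgroupOf_mono _ hRK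
  obtain ⟨Q, hRQ, hQK, hQp, hQcard, t', ht', ht'n⟩ :=
    exists_involution_normalizing_sylow p (K₀.subgroupOf N₀) (by rw [hcardK]; exact hodd)
      hNeven (R.subgroupOf N₀) hR'K hR'
  refine ⟨Q.map N₀.subtype, ?_, ?_, ?_, ?_, (t' : G), ?_, ?_⟩
  · intro r hr
    exact ⟨⟨r, hle (hRK hr)⟩, hRQ (Subgroup.mem_subgroupOf.mpr hr), rfl⟩
  · rintro y ⟨n, hn, rfl⟩
    exact Subgroup.mem_subgroupOf.mp (hQK hn)
  · exact hQp.map _
  · rw [Subgroup.card_map_of_injective (Subgroup.subtype_injective _), hQcard, hcardK]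
  · rw [Subgroup.orderOf_coe]; exact ht'
  · rintro c ⟨n, hn, rfl⟩
    refine ⟨t' * n * t'⁻¹, ?_, rfl⟩
    exact (Subgroup.mem_normalizer_iff.mp ht'n n).mp hn

/-- An involution normalizing a finite subgroup `Q` and fixing no non-identity element of it
inverts `Q`, and `Q` is abelian. -/
theorem inverts_of_fpf_involution {G : Type*} [Group G] [Finite G] (Q : Subgroup G) (t : G)
    (ht : orderOf t = 2) (hnorm : ∀ c : G, c ∈ Q → t * c * t⁻¹ ∈ Q)
    (hfpf : ∀ c : G, c ∈ Q → t * c * t⁻¹ = c → c = 1) :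
    (∀ c : G, c ∈ Q → t * c * t⁻¹ = c⁻¹) ∧ (∀ a b : G, a ∈ Q → b ∈ Q → a * b = b * a) := by
  classical
  have hinv := inv_eq_self_of_orderOf_two t ht
  have htt : t * t = 1 := by
    have h := pow_orderOf_eq_one t
    rw [ht, pow_two] at h
    exact h
  let φ : ↥Q →* ↥Q :=
    { toFun := fun c => ⟨t * c * t⁻¹, hnorm c c.2⟩
      map_one' := by
        apply Subtype.ext
        show t * 1 * t⁻¹ = 1
        group
      map_mul' := by
        intro a b
        apply Subtype.ext
        show t * (a * b : G) * t⁻¹ = (t * a * t⁻¹) * (t * b * t⁻¹)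
        group }
  have hφ : MonoidHom.FixedPointFree φ := by
    intro c hc
    have h1 : t * (c : G) * t⁻¹ = c := congrArg Subtype.val hc
    exact Subtype.ext (hfpf c c.2 h1)
  have h2 : Function.Involutive φ := by
    intro c
    apply Subtype.ext
    show t * (t * (c : G) * t⁻¹) * t⁻¹ = c
    rw [hinv]
    calc t * (t * (c : G) * t) * t = (t * t) * c * (t * t) := by group
      _ = c := by rw [htt, one_mul, mul_one]
  constructor
  · intro c hc
    have h3 := MonoidHom.FixedPointFree.coe_eq_inv_of_involutive hφ h2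
    have h4 := congrFun h3 ⟨c, hc⟩
    exact congrArg Subtype.val h4
  · intro a b ha hb
    have h3 := MonoidHom.FixedPointFree.commute_all_of_involutive hφ h2 ⟨a, ha⟩ ⟨b, hb⟩
    exact congrArg Subtype.val h3

end Cfsg.Agent.Helper13
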