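import Cfsg.Agent.Helper13.RealOrbits
import Cfsg.Agent.Helper25.FSIndicator
import Cfsg.Agent.Helper6.GoingDown

set_option autoImplicit false

namespace Cfsg.Agent.Helper13

open Cfsg
open scoped ComplexConjugate

section

variable {G : Type*} [Group G]

/-- In a normal subgroup of odd index, an element whose square lies in the subgroup lies in
it. -/
theorem mem_of_sq_mem_of_odd_index (K : Subgroup G) [hK : K.Normal] (hodd : Odd K.index) {s : G}
    (hs : s * s ∈ K) : s ∈ K := by
  obtain ⟨j, hj⟩ := hodd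
  have h1 : s ^ K.index ∈ K := Subgroup.pow_index_mem K s
  have h2 : (s * s) ^ j ∈ K := K.pow_mem hs j
  have h3 : s = s ^ K.index * ((s * s) ^ j)⁻¹ := by
    rw [hj, pow_succ, ← pow_two, ← pow_mul]
    group
  rw [h3]
  exact K.mul_mem h1 (K.inv_mem h2)

/-- The number of square roots in `G` of an element of `K` equals the number in `K`. -/
theorem card_sqrt_eq (K : Subgroup G) [hK : K.Normal] (hodd : Odd K.index) (n : K) :
    Nat.card {s : G // s * s = (n : G)} = Nat.card {s : K // s * s = n} := by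
  apply Nat.card_congr
  exact {
    toFun := fun s => ⟨⟨s.1, mem_of_sq_mem_of_odd_index K hodd (by rw [s.2]; exact n.2)⟩,
      Subtype.ext s.2⟩
    invFun := fun s => ⟨s.1.1, congrArg Subtype.val s.2⟩
    left_inv := fun s => rfl
    right_inv := fun s => rfl }

/-- For a normal subgroup of odd index, the Frobenius–Schur indicators of `G`, weighted by the
multiplicities of `φ`, add up to the indicator of `φ`. -/
theorem sum_fs_mul_inner (K : Subgroup G) [hK : K.Normal] [Fintype G] [Fintype K]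
    [Fintype (IrrCharacter G)] [Fintype (IrrCharacter K)] (hodd : Odd K.index)
    (φ : IrrCharacter K) :
    ∑ χ : IrrCharacter G, ((Nat.card G : ℂ)⁻¹ * ∑ s : G, (χ : G → ℂ) (s * s)) *
        classInner (fun n : K => (χ : G → ℂ) n) (φ : K → ℂ)
      = (Nat.card K : ℂ)⁻¹ * ∑ s : K, (φ : K → ℂ) (s * s) := by
  classical
  have h1 : (∑ χ : IrrCharacter G, ((Nat.card G : ℂ)⁻¹ * ∑ s : G, (χ : G → ℂ) (s * s)) •
        (fun n : K => (χ : G → ℂ) n))
      = ∑ ψ : IrrCharacter K, ((Nat.card K : ℂ)⁻¹ * ∑ s : K, (ψ : K → ℂ) (s * s)) •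
        (ψ : K → ℂ) := by
    funext n
    rw [Finset.sum_apply, Finset.sum_apply]
    have e1 := Helper25.sqrt_count (n : G)
    have e2 := Helper25.sqrt_count n
    rw [card_sqrt_eq K hodd n] at e1
    simp only [Pi.smul_apply, smul_eq_mul]
    rw [← e1, ← e2]
  calc ∑ χ : IrrCharacter G, ((Nat.card G : ℂ)⁻¹ * ∑ s : G, (χ : G → ℂ) (s * s)) *
        classInner (fun n : K => (χ : G → ℂ) n) (φ : K → ℂ)
      = ∑ χ : IrrCharacter G, classInner (((Nat.card G : ℂ)⁻¹ * ∑ s : G, (χ : G → ℂ) (s * s)) •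
          (fun n : K => (χ : G → ℂ) n)) (φ : K → ℂ) := by
        apply Finset.sum_congr rfl
        intro χ _
        rw [Helper2.classInner_smul_left]
    _ = classInner (∑ χ : IrrCharacter G, ((Nat.card G : ℂ)⁻¹ * ∑ s : G, (χ : G → ℂ) (s * s)) •
          (fun n : K => (χ : G → ℂ) n)) (φ : K → ℂ) :=
        (Helper2.classInner_sum_left _ _ _).symm
    _ = classInner (∑ ψ : IrrCharacter K, ((Nat.card K : ℂ)⁻¹ * ∑ s : K, (ψ : K → ℂ) (s * s)) •
          (ψ : K → ℂ)) (φ : K → ℂ) := by rw [h1]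
    _ = ∑ ψ : IrrCharacter K, ((Nat.card K : ℂ)⁻¹ * ∑ s : K, (ψ : K → ℂ) (s * s)) *
          classInner (ψ : K → ℂ) (φ : K → ℂ) := by
        rw [Helper2.classInner_sum_left]
        apply Finset.sum_congr rfl
        intro ψ _
        rw [Helper2.classInner_smul_left]
    _ = (Nat.card K : ℂ)⁻¹ * ∑ s : K, (φ : K → ℂ) (s * s) := by
        rw [Finset.sum_eq_single φ]
        · rw [Helper2.classInner_irr φ.2 φ.2, if_pos rfl, mul_one]
        · intro ψ _ hne
          rw [Helper2.classInner_irr ψ.2 φ.2, if_neg (fun h => hne (Subtype.ext h)), mul_zero]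
        · intro h
          exact absurd (Finset.mem_univ _) h

/-- Odd index: every real-valued irreducible character of `K` lies under a real-valued
irreducible character of `G`. -/
theorem exists_real_over (K : Subgroup G) [hK : K.Normal] [Fintype G] [Fintype K]
    (hodd : Odd K.index) (φ : IrrCharacter K) (hφ : ∀ k : K, ((φ : K → ℂ) k).im = 0) :
    ∃ χ : IrrCharacter G, (∀ g : G, ((χ : G → ℂ) g).im = 0) ∧
      classInner (fun n : K => (χ : G → ℂ) n) (φ : K → ℂ) ≠ 0 := by
  classical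
  haveI : Finite (IrrCharacter G) := Helper24.finite_irrCharacter
  haveI : Fintype (IrrCharacter G) := Fintype.ofFinite _
  haveI : Finite (IrrCharacter K) := Helper24.finite_irrCharacter
  haveI : Fintype (IrrCharacter K) := Fintype.ofFinite _
  by_contra hcon
  have h0 : ∀ χ : IrrCharacter G, ((Nat.card G : ℂ)⁻¹ * ∑ s : G, (χ : G → ℂ) (s * s)) *
        classInner (fun n : K => (χ : G → ℂ) n) (φ : K → ℂ) = 0 := by
    intro χ
    by_cases hr : ∀ g : G, ((χ : G → ℂ) g).im = 0
    · have : classInner (fun n : K => (χ : G → ℂ) n) (φ : K → ℂ) = 0 := by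
        by_contra h
        exact hcon ⟨χ, hr, h⟩
      rw [this, mul_zero]
    · rw [(Helper25.fs_indicator χ.2).2 (not_forall.1 hr), zero_mul]
  have hB := sum_fs_mul_inner K hodd φ
  rw [Finset.sum_eq_zero (fun χ _ => h0 χ)] at hB
  rcases (Helper25.fs_indicator φ.2).1 hφ with h | h
  · rw [h] at hB
    exact zero_ne_one hB
  · rw [h] at hB
    have : (1 : ℂ) = 0 := by
      have := congrArg Neg.neg hB
      simpa using this.symm
    exact one_ne_zero this

/-- Odd index: a strongly real irreducible character of `K` lies under a strongly real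
irreducible character of `G`. -/
theorem exists_strongly_real_over (K : Subgroup G) [hK : K.Normal] [Fintype G] [Fintype K]
    (hodd : Odd K.index) (φ : IrrCharacter K)
    (hφ : (Nat.card K : ℂ)⁻¹ * ∑ s : K, (φ : K → ℂ) (s * s) = 1) :
    ∃ χ : IrrCharacter G, (Nat.card G : ℂ)⁻¹ * ∑ s : G, (χ : G → ℂ) (s * s) = 1 ∧
      classInner (fun n : K => (χ : G → ℂ) n) (φ : K → ℂ) ≠ 0 := by
  classical
  haveI : Finite (IrrCharacter G) := Helper24.finite_irrCharacter
  haveI : Fintype (IrrCharacter G) := Fintype.ofFinite _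
  haveI : Finite (IrrCharacter K) := Helper24.finite_irrCharacter
  haveI : Fintype (IrrCharacter K) := Fintype.ofFinite _
  by_contra hcon
  have h0 : ∀ χ : IrrCharacter G, ∃ m : ℕ, ((Nat.card G : ℂ)⁻¹ * ∑ s : G, (χ : G → ℂ) (s * s)) *
        classInner (fun n : K => (χ : G → ℂ) n) (φ : K → ℂ) = -(m : ℂ) := by
    intro χ
    obtain ⟨m, hm⟩ := Helper2.classInner_char_nat
      (Helper24.isCharacter_restrict K (Helper24.isCharacter_of_irr χ.2))
      (Helper24.isCharacter_of_irr φ.2)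
    by_cases hr : ∀ g : G, ((χ : G → ℂ) g).im = 0
    · rcases (Helper25.fs_indicator χ.2).1 hr with h | h
      · have : classInner (fun n : K => (χ : G → ℂ) n) (φ : K → ℂ) = 0 := by
          by_contra h'
          exact hcon ⟨χ, h, h'⟩
        exact ⟨0, by rw [this, mul_zero, Nat.cast_zero, neg_zero]⟩
      · exact ⟨m, by rw [h, hm, neg_one_mul]⟩
    · exact ⟨0, by
        rw [(Helper25.fs_indicator χ.2).2 (not_forall.1 hr), zero_mul, Nat.cast_zero, neg_zero]⟩
  choose m hm using h0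
  have hB := sum_fs_mul_inner K hodd φ
  rw [Finset.sum_congr rfl (fun χ _ => hm χ), hφ, Finset.sum_neg_distrib, ← Nat.cast_sum] at hB
  have h1 : ((∑ χ : IrrCharacter G, m χ : ℕ) : ℂ) + 1 = 0 := by
    rw [← hB]
    ring
  exact Nat.cast_add_one_ne_zero _ h1

/-- The number of real-valued irreducible characters as a weighted sum over real elements. -/
theorem card_real_irr [Fintype G] [Fintype (IrrCharacter G)]
    [DecidablePred fun g : G => IsConj g⁻¹ g] :
    (Nat.card {χ : IrrCharacter G // ∀ g : G, ((χ : G → ℂ) g).im = 0} : ℂ)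
      = ∑ g : G, if IsConj g⁻¹ g then ((Nat.card {x : G // IsConj x g} : ℂ))⁻¹ else 0 := by
  have hirr : ∀ χ : G → ℂ, IsIrrCharacter G χ → IsIrrCharacter G (χ ∘ fun g : G => g⁻¹) := by
    intro χ hχ
    have e : (χ ∘ fun g : G => g⁻¹) = fun g => conj (χ g) := by
      funext g
      exact Helper24.char_inv (Helper24.isCharacter_of_irr hχ) g
    rw [e]
    exact Helper2.isIrrCharacter_conj hχ
  rw [← Helper2.brauer_perm (fun g : G => g⁻¹) hirr]
  congr 1
  apply Nat.card_congr
  refine Equiv.subtypeEquivRight (fun χ => ?_)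
  constructor
  · intro h
    funext g
    show (χ : G → ℂ) g⁻¹ = (χ : G → ℂ) g
    rw [Helper24.char_inv (Helper24.isCharacter_of_irr χ.2), Complex.conj_eq_iff_im]
    exact h g
  · intro h g
    rw [← Complex.conj_eq_iff_im, ← Helper24.char_inv (Helper24.isCharacter_of_irr χ.2)]
    exact congrFun h g

/-- An element inverted by some element of `G` lies in a normal subgroup of odd index and is
inverted by an element of it. -/
theorem mem_of_inverted (K : Subgroup G) [hK : K.Normal] (hodd : Odd K.index) {a c : G}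
    (hc : c * a * c⁻¹ = a⁻¹) : a ∈ K ∧ ∃ n ∈ K, n * a * n⁻¹ = a⁻¹ := by
  have hn : c ^ K.index ∈ K := Subgroup.pow_index_mem K c
  have hinv := inverts_pow_odd hc hodd
  refine ⟨?_, c ^ K.index, hn, hinv⟩
  obtain ⟨n, hn'⟩ : ∃ n, n = c ^ K.index := ⟨_, rfl⟩
  rw [← hn'] at hn hinv
  have h1 : a⁻¹ * a⁻¹ ∈ K := by
    have e : a⁻¹ * a⁻¹ = n * (a * n⁻¹ * a⁻¹) := by
      rw [← hinv]
      group
    rw [e]
    exact K.mul_mem hn (hK.conj_mem _ (K.inv_mem hn) a)
  have h2 : a * a ∈ K := by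
    have e : a * a = (a⁻¹ * a⁻¹)⁻¹ := by rw [mul_inv_rev, inv_inv]
    rw [e]
    exact K.inv_mem h1
  exact mem_of_sq_mem_of_odd_index K hodd h2

open Classical in
/-- Burnside count for the conjugation action of `G` on the real elements of `K`. -/
theorem card_real_elt_orbits_mul (K : Subgroup G) [hK : K.Normal] [Fintype G] [Fintype K] :
    (Nat.card (Quot (fun x y : {x : ↥K // IsConj x x⁻¹} =>
        ∃ g : G, (y.1 : G) = g * x.1 * g⁻¹)) : ℂ) * (Fintype.card G : ℂ)
      = ∑ k : K, if IsConj k k⁻¹ then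
          (Nat.card {c : G // c * (k : G) * c⁻¹ = k} : ℂ) else 0 := by
  let b : G → {x : K // IsConj x x⁻¹} → {x : K // IsConj x x⁻¹} :=
    fun g x => ⟨MulAut.conjNormal g x.1, by
      have h := (MulAut.conjNormal g : K ≃* K).toMonoidHom.map_isConj x.2
      simpa using h⟩
  have b1 : ∀ x, b 1 x = x := fun x => Subtype.ext (by
    show MulAut.conjNormal (1 : G) x.1 = x.1
    rw [map_one]
    rfl)
  have bm : ∀ g h x, b (g * h) x = b g (b h x) := fun g h x => Subtype.ext (by
    show MulAut.conjNormal (g * h) x.1 = MulAut.conjNormal g (MulAut.conjNormal h x.1)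
    rw [map_mul]
    rfl)
  have B2 := burnside_fun b b1 bm
    (fun x y : {x : ↥K // IsConj x x⁻¹} => ∃ g : G, (y.1 : G) = g * x.1 * g⁻¹) (by
    intro x y
    constructor
    · rintro ⟨g, hg⟩
      exact ⟨g, Subtype.ext (Subtype.ext (by rw [hg]; rfl))⟩
    · rintro ⟨g, hg⟩
      exact ⟨g, by rw [hg]; rfl⟩)
  rw [← Nat.cast_mul, B2, Nat.cast_sum]
  have h1 : ∀ g : G, (Fintype.card {x // b g x = x} : ℂ)
      = ∑ k : K, if (IsConj k k⁻¹ ∧ g * (k : G) * g⁻¹ = k) then (1 : ℂ) else 0 := by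
    intro g
    rw [Finset.sum_boole, ← Fintype.card_subtype]
    congr 1
    apply Fintype.card_congr
    exact {
      toFun := fun x => ⟨x.1.1, x.1.2, congrArg (fun t => ((t.1 : K) : G)) x.2⟩
      invFun := fun k => ⟨⟨k.1, k.2.1⟩, Subtype.ext (Subtype.ext k.2.2)⟩
      left_inv := fun x => rfl
      right_inv := fun k => rfl }
  rw [Finset.sum_congr rfl (fun g _ => h1 g), Finset.sum_comm]
  apply Finset.sum_congr rfl
  intro k _
  by_cases hr : IsConj k k⁻¹
  · rw [if_pos hr]
    simp only [hr, true_and]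
    rw [Finset.sum_boole, Nat.card_eq_fintype_card, Fintype.card_subtype]
  · rw [if_neg hr]
    apply Finset.sum_eq_zero
    intro g _
    rw [if_neg (fun h => hr h.1)]

open Classical in
/-- Odd index: the weighted count of real elements of `G` is supported on `K`. -/
theorem sum_real_class_weight (K : Subgroup G) [hK : K.Normal] [Fintype G] [Fintype K]
    (hodd : Odd K.index) :
    (∑ g : G, if IsConj g⁻¹ g then ((Nat.card {x : G // IsConj x g} : ℂ))⁻¹ else 0)
      = (Fintype.card G : ℂ)⁻¹ * ∑ k : K, if IsConj k k⁻¹ then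
          (Nat.card {c : G // c * (k : G) * c⁻¹ = k} : ℂ) else 0 := by
  have hinvert : ∀ a : G, IsConj a⁻¹ a → ∃ c : G, c * a * c⁻¹ = a⁻¹ := by
    intro a ha
    obtain ⟨c, hc⟩ := isConj_iff.1 ha
    refine ⟨c, ?_⟩
    have e : c * a * c⁻¹ = (c * a⁻¹ * c⁻¹)⁻¹ := by group
    rw [e, hc]
  rw [Helper6.sum_subgroup_eq' K _ (fun a ha => by
    rw [if_neg]
    intro hc
    obtain ⟨c, hc'⟩ := hinvert a hc
    exact ha (mem_of_inverted K hodd hc').1), Finset.mul_sum]
  apply Finset.sum_congr rfl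
  intro k _
  have hiff : IsConj (k : G)⁻¹ (k : G) ↔ IsConj k k⁻¹ := by
    constructor
    · intro h
      obtain ⟨c, hc'⟩ := hinvert _ h
      obtain ⟨-, n, hn, hn'⟩ := mem_of_inverted K hodd hc'
      exact isConj_iff.2 ⟨⟨n, hn⟩, Subtype.ext (by simpa using hn')⟩
    · intro h
      obtain ⟨n, hn⟩ := isConj_iff.1 h
      have hn' : (n : G) * k * (n : G)⁻¹ = (k : G)⁻¹ := by
        have := congrArg Subtype.val hn
        simpa using this
      refine isConj_iff.2 ⟨(n : G), ?_⟩
      have e : (n : G) * (k : G)⁻¹ * (n : G)⁻¹ = ((n : G) * k * (n : G)⁻¹)⁻¹ := by group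
      rw [e, hn', inv_inv]
  by_cases hr : IsConj k k⁻¹
  · rw [if_pos hr, if_pos (hiff.2 hr)]
    have h1 := Helper2.index_centralizer_eq_card_conj (k : G)
    have h2 := Subgroup.card_mul_index (Subgroup.centralizer ({(k : G)} : Set G))
    have h3 : Nat.card (Subgroup.centralizer ({(k : G)} : Set G))
        = Nat.card {c : G // c * (k : G) * c⁻¹ = k} := by
      apply Nat.card_congr
      refine Equiv.subtypeEquivRight (fun c => ?_)
      rw [Subgroup.mem_centralizer_singleton_iff]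
      constructor
      · intro h
        rw [h, mul_inv_cancel_right]
      · intro h
        have h' := congrArg (fun t => t * c) h
        simpa using h'
    rw [← h1, ← h3]
    have h4 : (Nat.card (Subgroup.centralizer ({(k : G)} : Set G)) : ℂ) *
        ((Subgroup.centralizer ({(k : G)} : Set G)).index : ℂ) = (Fintype.card G : ℂ) := by
      rw [← Nat.cast_mul, h2, Nat.card_eq_fintype_card]
    have hpos : ((Subgroup.centralizer ({(k : G)} : Set G)).index : ℂ) ≠ 0 := by
      have := Subgroup.index_ne_zero_of_finite (H := Subgroup.centralizer ({(k : G)} : Set G))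
      exact_mod_cast this
    have hG : (Fintype.card G : ℂ) ≠ 0 := by exact_mod_cast Fintype.card_ne_zero
    rw [← h4]
    field_simp
  · rw [if_neg hr, if_neg (fun h => hr (hiff.1 h)), mul_zero]

/-- Odd index: the real-valued irreducible characters of `G` are as many as the `G`-orbits on
real-valued irreducible characters of `K`. -/
theorem card_real_irr_eq_orbits (K : Subgroup G) [hK : K.Normal] [Finite G]
    (hodd : Odd K.index) :
    Nat.card {χ : IrrCharacter G // ∀ g : G, ((χ : G → ℂ) g).im = 0}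
      = Nat.card (Quot (fun θ η : {θ : Cfsg.IrrCharacter ↥K //
          (∀ k : ↥K, ((θ : ↥K → ℂ) k).im = 0)} =>
        ∃ g : G, ∀ k k' : ↥K, (k' : G) = g * (k : G) * g⁻¹ →
          (η.1 : ↥K → ℂ) k' = (θ.1 : ↥K → ℂ) k)) := by
  classical
  haveI : Fintype G := Fintype.ofFinite G
  haveI : Fintype K := Fintype.ofFinite K
  haveI : Finite (IrrCharacter G) := Helper24.finite_irrCharacter
  haveI : Fintype (IrrCharacter G) := Fintype.ofFinite _
  rw [real_orbits_eq K hodd]
  have h1 := card_real_irr (G := G)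
  have h2 := sum_real_class_weight K hodd
  have h3 := card_real_elt_orbits_mul K
  have hG : (Fintype.card G : ℂ) ≠ 0 := by exact_mod_cast Fintype.card_ne_zero
  have h4 : (Nat.card {χ : IrrCharacter G // ∀ g : G, ((χ : G → ℂ) g).im = 0} : ℂ)
      = (Nat.card (Quot (fun x y : {x : ↥K // IsConj x x⁻¹} =>
        ∃ g : G, (y.1 : G) = g * x.1 * g⁻¹)) : ℂ) := by
    rw [h1]
    refine h2.trans ?_
    rw [← h3]
    field_simp
  exact_mod_cast h4

/-- Odd index: a real-valued irreducible character of `K` lies under exactly one real-valued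
irreducible character of `G`. -/
theorem real_over_unique (K : Subgroup G) [hK : K.Normal] [Fintype G] [Fintype K]
    (hodd : Odd K.index) (φ : IrrCharacter K) (hφ : ∀ k : K, ((φ : K → ℂ) k).im = 0)
    (χ₁ χ₂ : IrrCharacter G) (h₁ : ∀ g : G, ((χ₁ : G → ℂ) g).im = 0)
    (h₂ : ∀ g : G, ((χ₂ : G → ℂ) g).im = 0)
    (ho₁ : classInner (fun n : K => (χ₁ : G → ℂ) n) (φ : K → ℂ) ≠ 0)
    (ho₂ : classInner (fun n : K => (χ₂ : G → ℂ) n) (φ : K → ℂ) ≠ 0) : χ₁ = χ₂ := by
  classical
  haveI : Finite (IrrCharacter G) := Helper24.finite_irrCharacter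
  obtain ⟨r, hr⟩ : ∃ r : {θ : IrrCharacter K // ∀ k : K, ((θ : K → ℂ) k).im = 0} →
      {θ : IrrCharacter K // ∀ k : K, ((θ : K → ℂ) k).im = 0} → Prop,
      r = fun θ η => ∃ g : G, ∀ k k' : K, (k' : G) = g * (k : G) * g⁻¹ →
        (η.1 : K → ℂ) k' = (θ.1 : K → ℂ) k := ⟨_, rfl⟩
  have hex : ∀ θ : {θ : IrrCharacter K // ∀ k : K, ((θ : K → ℂ) k).im = 0},
      ∃ χ : {χ : IrrCharacter G // ∀ g : G, ((χ : G → ℂ) g).im = 0},
        classInner (fun n : K => (χ.1 : G → ℂ) n) (θ.1 : K → ℂ) ≠ 0 := fun θ => by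
    obtain ⟨χ, hr, ho⟩ := exists_real_over K hodd θ.1 θ.2
    exact ⟨⟨χ, hr⟩, ho⟩
  choose c hc using hex
  have hconj : ∀ (χ : IrrCharacter G)
      (θ η : {θ : IrrCharacter K // ∀ k : K, ((θ : K → ℂ) k).im = 0}),
      classInner (fun n : K => (χ : G → ℂ) n) (θ.1 : K → ℂ) ≠ 0 →
      classInner (fun n : K => (χ : G → ℂ) n) (η.1 : K → ℂ) ≠ 0 → r θ η := by
    intro χ θ η hθ hη
    obtain ⟨e, F, -, hF, -, -, -, hall, -⟩ := Helper6.clifford_finset K χ.2 θ.1.2 hθ
    obtain ⟨g, hg⟩ := hF _ (hall _ η.1.2 hη)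
    rw [hr]
    refine ⟨g⁻¹, fun k k' hkk' => ?_⟩
    have e2 : (⟨g * (k' : G) * g⁻¹, hK.conj_mem (k' : G) k'.2 g⟩ : K) = k := Subtype.ext (by
      show g * (k' : G) * g⁻¹ = k
      rw [hkk']
      group)
    rw [hg, Helper6.conjFun_apply, e2]
  have hinj : Function.Injective (fun o : Quot r => c (Quot.out o)) := by
    intro o₁ o₂ h
    have e1 := hc (Quot.out o₁)
    have e2 := hc (Quot.out o₂)
    have h' : c (Quot.out o₁) = c (Quot.out o₂) := h
    rw [h'] at e1
    have h3 := hconj _ _ _ e1 e2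
    rw [← Quot.out_eq o₁, ← Quot.out_eq o₂]
    exact Quot.sound h3
  have hcard : Nat.card {χ : IrrCharacter G // ∀ g : G, ((χ : G → ℂ) g).im = 0}
      = Nat.card (Quot r) := by
    rw [hr]
    exact card_real_irr_eq_orbits K hodd
  have hbij := hinj.bijective_of_nat_card_le (le_of_eq hcard)
  have key : ∀ χ : {χ : IrrCharacter G // ∀ g : G, ((χ : G → ℂ) g).im = 0},
      classInner (fun n : K => (χ.1 : G → ℂ) n) (φ : K → ℂ) ≠ 0 →
      χ = c (Quot.out (Quot.mk r ⟨φ, hφ⟩)) := by
    intro χ ho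
    obtain ⟨o, ho'⟩ := hbij.2 χ
    have ho'' : c (Quot.out o) = χ := ho'
    have e1 := hc (Quot.out o)
    rw [ho''] at e1
    have hr' : r (Quot.out o) ⟨φ, hφ⟩ := hconj _ _ _ e1 ho
    have h5 : o = Quot.mk r ⟨φ, hφ⟩ := by
      rw [← Quot.out_eq o]
      exact Quot.sound hr'
    rw [← h5, ho'']
  have k1 := key ⟨χ₁, h₁⟩ ho₁
  have k2 := key ⟨χ₂, h₂⟩ ho₂
  exact congrArg Subtype.val (k1.trans k2.symm)

/-- For a normal subgroup `N` of odd index, each strongly real irreducible character of `N`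
lies under a unique strongly real irreducible character of `G`. -/
theorem strongly_real_over_unique (N : Subgroup G) [hN : N.Normal] [Finite G]
    (hodd : Odd N.index) (φ : Cfsg.IrrCharacter ↥N)
    (hφ : (Nat.card ↥N : ℂ)⁻¹ * ∑ᶠ g : ↥N, (φ : ↥N → ℂ) (g * g) = 1) :
    ∃! χ : Cfsg.IrrCharacter G, (Nat.card G : ℂ)⁻¹ * ∑ᶠ g : G, (χ : G → ℂ) (g * g) = 1 ∧
      (∑ᶠ n : ↥N, (χ : G → ℂ) n * (starRingEnd ℂ) ((φ : ↥N → ℂ) n)) ≠ 0 := by
  classical
  haveI : Fintype G := Fintype.ofFinite G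
  haveI : Fintype N := Fintype.ofFinite N
  rw [finsum_eq_sum_of_fintype] at hφ
  simp only [finsum_eq_sum_of_fintype]
  have hφr : ∀ k : N, ((φ : N → ℂ) k).im = 0 := by
    by_contra h
    have h0 := (Helper25.fs_indicator φ.2).2 (not_forall.1 h)
    rw [h0] at hφ
    exact zero_ne_one hφ
  have hreal : ∀ χ : IrrCharacter G, (Nat.card G : ℂ)⁻¹ * ∑ g : G, (χ : G → ℂ) (g * g) = 1 →
      ∀ g : G, ((χ : G → ℂ) g).im = 0 := by
    intro χ hχ
    by_contra h
    have h0 := (Helper25.fs_indicator χ.2).2 (not_forall.1 h)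
    rw [h0] at hχ
    exact zero_ne_one hχ
  have hover : ∀ χ : IrrCharacter G,
      (∑ n : N, (χ : G → ℂ) n * (starRingEnd ℂ) ((φ : N → ℂ) n)) ≠ 0 ↔
        classInner (fun n : N => (χ : G → ℂ) n) (φ : N → ℂ) ≠ 0 := by
    intro χ
    unfold classInner
    have hNc : (Nat.card N : ℂ)⁻¹ ≠ 0 := inv_ne_zero (by exact_mod_cast Nat.card_pos.ne')
    constructor
    · intro h
      exact mul_ne_zero hNc h
    · intro h h0
      apply h
      rw [h0, mul_zero]
  obtain ⟨χ, hν, ho⟩ := exists_strongly_real_over N hodd φ hφ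
  refine ⟨χ, ⟨hν, (hover χ).2 ho⟩, ?_⟩
  rintro χ' ⟨hν', ho'⟩
  exact real_over_unique N hodd φ hφr χ' χ (hreal χ' hν') (hreal χ hν) ((hover χ').1 ho') ho

end

end Cfsg.Agent.Helper13
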